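import Cfsg.Agent.RV.Abs13A

/-!
The abstract thirteen-local lemma: three lines of the Sylow subgroup are fused into its centre.
-/

set_option autoImplicit false

namespace Cfsg.Lib.RV

open Subgroup Cfsg.Lib.Chev.RankOne

namespace A13

variable {G : Type*} [Group G] [Finite G] {t z a b w : G} {S : Subgroup G}

theorem conj_zp {K : Subgroup G} (hK : ¬ 169 ∣ Nat.card K) {x y : G} (hx : x ∈ K) (hy : y ∈ K)
    (hx13 : x ^ 13 = 1) (hy13 : orderOf y = 13) : ∃ g ∈ K, g * x * g⁻¹ ∈ zpowers y := by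
  have hy' : orderOf (⟨y, hy⟩ : K) = 13 := by rw [orderOf_mk, hy13]
  obtain ⟨P, hP⟩ := (IsPGroup.of_card (G := zpowers (⟨y, hy⟩ : K)) (p := 13) (n := 1)
    (by rw [Nat.card_zpowers, hy', pow_one])).exists_le_sylow
  obtain ⟨Q, hQ⟩ := IsPGroup.exists_le_sylow (p := 13) (P := zpowers (⟨x, hx⟩ : K)) fun c =>
    ⟨1, Subtype.ext (zp13 (Subtype.ext hx13) c.2)⟩
  obtain ⟨g, rfl⟩ := MulAction.exists_smul_eq K Q P
  have h1 : g * ⟨x, hx⟩ * g⁻¹ ∈ g • Q :=
    smul_mem_pointwise_smul _ (MulAut.conj g) _ (hQ (mem_zpowers _))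
  have h2 : g * ⟨x, hx⟩ * g⁻¹ ∈ zpowers (⟨y, hy⟩ : K) := by
    by_contra hn
    have := mul_card_dvd (g • Q).2 hP h1 hn
    rw [Nat.card_zpowers, hy'] at this
    exact hK (this.trans (card_subgroup_dvd_card _))
  obtain ⟨k, hk⟩ := mem_zpowers_iff.1 h2
  exact ⟨g, g.2, k, congrArg Subtype.val hk⟩

theorem Hy.allconj (H : Hy t z a b w) {x : G} (hx : x ∈ zpowers z) (h1 : x ≠ 1) : IsConj x z := by
  have h2 : ∀ n : ℕ, IsConj z (z ^ 2 ^ n) := fun n => by
    induction n with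
    | zero => rw [pow_zero, pow_one]
    | succ n ih => exact ih.trans (by rw [pow_succ', pow_mul]; exact H.hr.pow _)
  obtain ⟨k, hk, rfl⟩ : ∃ k < 13, z ^ k = x := by
    obtain ⟨k, rfl⟩ := mem_powers_iff_mem_zpowers.2 hx
    exact ⟨k % 13, Nat.mod_lt _ (by norm_num), by rw [← H.hz, pow_mod_orderOf]⟩
  have h3 : ∀ k < 13, k ≠ 0 → ∃ n < 12, 2 ^ n % 13 = k := by decide
  obtain ⟨n, -, rfl⟩ := h3 k hk (by rintro rfl; exact h1 (pow_zero z))
  rw [← H.hz, pow_mod_orderOf]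
  exact (h2 n).symm

theorem Hy.t_mem (H : Hy t z a b w) {r : G} (rt : Commute r t) (rz : Commute r z)
    (h : Even (orderOf r)) : t ∈ zpowers r := by
  have h1 := Local.orderOf_pow_half h
  rw [← (H.hD _ (rt.pow_left _) (rz.pow_left _) (Local.invol_mul_self h1)).resolve_left
    (Local.invol_ne_one h1)]
  exact npow_mem_zpowers r _

theorem Hy.nab (H : Hy t z a b w) : ¬ Commute a b := fun h => by
  have := H.ba
  rw [cj h.symm] at this
  exact H.t1 (H.a2 ▸ mul_eq_one_iff_eq_inv.2 this)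

theorem Hy.pQ (H : Hy t z a b w) : IsPGroup 2 (zpowers a ⊔ zpowers b : Subgroup G) := by
  have h : ∀ {x : G}, x * x = t → IsPGroup 2 (zpowers x) := fun {x} hx c => by
    obtain ⟨_, k, rfl⟩ := c
    refine ⟨2, Subtype.ext ?_⟩
    have h4 : x ^ 4 = 1 := by rw [← H.tt, ← hx]; simp only [pow_succ, pow_zero]; group
    change (x ^ k) ^ 4 = 1
    rw [← zpow_natCast, ← zpow_mul, mul_comm, zpow_mul, zpow_natCast, h4, one_zpow]
  refine (h H.a2).to_sup_of_normal_left' (h H.b2) (zpowers_le.2 ?_)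
  exact mem_normalizer_fintype fun c hc => inv_zp H.ba hc ▸ inv_mem hc

/-- Six elements of order four. -/
theorem Hy.six (H : Hy t z a b w) : ∃ q : Fin 3 × Fin 2 → G, (∀ i, q i * q i = t ∧ Commute (q i) t ∧
    Commute (q i) z ∧ Commute w (q i)) ∧ ∀ i j, i ≠ j → t ∈ zpowers ((q i)⁻¹ * q j) := by
  have ab2 : a * b * (a * b) = t :=
    calc a * b * (a * b) = a * (b * a * b⁻¹) * (b * b) := by group
      _ = t := by rw [H.ba, H.b2]; simp
  have hQ : ∀ x ∈ zpowers a ⊔ zpowers b, Commute x t ∧ Commute x z := fun x hx =>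
    have : zpowers a ⊔ zpowers b ≤ centralizer ({t} : Set G) ⊓ centralizer {z} :=
      sup_le (zpowers_le.2 ⟨mc.2 H.at', mc.2 H.az⟩) (zpowers_le.2 ⟨mc.2 H.bt, mc.2 H.bz⟩)
    ⟨mc.1 (this hx).1, mc.1 (this hx).2⟩
  have ha : a ∈ zpowers a ⊔ zpowers b := mem_sup_left (mem_zpowers a)
  have hb : b ∈ zpowers a ⊔ zpowers b := mem_sup_right (mem_zpowers b)
  have h1 : ∀ i : Fin 3, ![a, b, a * b] i ∈ zpowers a ⊔ zpowers b ∧
      ![a, b, a * b] i * ![a, b, a * b] i = t ∧ Commute w (![a, b, a * b] i) := fun i => by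
    fin_cases i
    exacts [⟨ha, H.a2, H.wa⟩, ⟨hb, H.b2, H.wb⟩, ⟨mul_mem ha hb, ab2, H.wa.mul_right H.wb⟩]
  have h2 : ∀ i j : Fin 3, Commute (![a, b, a * b] i) (![a, b, a * b] j) → i = j := fun i j h => by
    have n1 : ¬ Commute a (a * b) := fun h => H.nab (by
      simpa using (Commute.refl a).inv_right.mul_right h)
    have n2 : ¬ Commute b (a * b) := fun h => H.nab (by
      simpa using (h.mul_right (Commute.refl b).inv_right).symm)
    fin_cases i <;> fin_cases j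
    exacts [rfl, (H.nab h).elim, (n1 h).elim, (H.nab h.symm).elim, rfl, (n2 h).elim,
      (n1 h.symm).elim, (n2 h.symm).elim, rfl]
  generalize ![a, b, a * b] = f at h1 h2
  have hm : ∀ i : Fin 3 × Fin 2, f i.1 * t ^ (i.2 : ℕ) ∈ zpowers a ⊔ zpowers b := fun i =>
    mul_mem (h1 _).1 (pow_mem (H.a2 ▸ mul_mem ha ha) _)
  refine ⟨fun i => f i.1 * t ^ (i.2 : ℕ), fun i => ⟨?_, (hQ _ (hm i)).1, (hQ _ (hm i)).2,
    (h1 _).2.2.mul_right (H.wt.pow_right _)⟩, fun i j hij => ?_⟩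
  · rw [← pow_two, ((hQ _ (h1 _).1).1.pow_right _).mul_pow, pow_two, (h1 _).2.1, ← pow_mul,
      mul_comm, pow_mul, pow_two, H.tt, one_pow, mul_one]
  · have hr := mul_mem (inv_mem (hm i)) (hm j)
    refine H.t_mem (hQ _ hr).1 (hQ _ hr).2 ?_
    obtain ⟨k, hk⟩ := IsPGroup.iff_orderOf.1 H.pQ ⟨_, hr⟩
    rw [orderOf_mk] at hk
    rcases k with _ | k
    · have e : f i.1 * t ^ (i.2 : ℕ) = f j.1 * t ^ (j.2 : ℕ) :=
        inv_mul_eq_one.1 (orderOf_eq_one_iff.1 hk)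
      have e1 : i.1 = j.1 := h2 _ _ (by
        rw [eq_mul_inv_of_mul_eq e]
        exact (((Commute.refl _).mul_right ((hQ _ (h1 _).1).1.pow_right _)).mul_right
          ((hQ _ (h1 _).1).1.pow_right _).inv_right).symm)
      rw [e1, mul_right_inj, pow_inj_mod, H.ht, Nat.mod_eq_of_lt i.2.2, Nat.mod_eq_of_lt j.2.2] at e
      exact absurd (Prod.ext e1 (Fin.ext e)) hij
    · rw [hk]; exact (Nat.even_pow' k.succ_ne_zero).2 even_two

namespace St

theorem zS (H : St t z a b w S) : zpowers z ≤ S := zpowers_le.2 ((H.mem z).2 ⟨.refl z, H.z13⟩)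

theorem c (H : St t z a b w S) {x : G} (hx : x ∈ S) : Commute x z := ((H.mem x).1 hx).1

theorem e (H : St t z a b w S) {x : G} (hx : x ∈ S) : x ^ 13 = 1 := ((H.mem x).1 hx).2

theorem pg (H : St t z a b w S) {B : Subgroup G} (h : B ≤ S) : IsPGroup 13 B := fun x =>
  ⟨1, Subtype.ext (H.e (h x.2))⟩

theorem ord (H : St t z a b w S) {x : G} (hx : x ∈ S) (h1 : x ≠ 1) : orderOf x = 13 :=
  orderOf_eq_prime (H.e hx) h1

theorem nrm (H : St t z a b w S) {g x : G} (hx : x ∈ S) (h : Commute x (g⁻¹ * z * g)) :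
    g * x * g⁻¹ ∈ S := by
  refine (H.mem _).2 ⟨of_cj ?_, by rw [conj_pow, H.e hx]; simp⟩
  calc g * x * g⁻¹ * z * (g * x * g⁻¹)⁻¹ = g * (x * (g⁻¹ * z * g) * x⁻¹) * g⁻¹ := by group
    _ = z := by rw [cj h]; group

theorem nrmC (H : St t z a b w S) {g : G} (h : Commute g z) : ∀ x ∈ S, g * x * g⁻¹ ∈ S :=
  fun x hx => H.nrm hx (by
    have := cj h.inv_left
    rw [inv_inv] at this
    rw [this]; exact H.c hx)

theorem nrmI (H : St t z a b w S) {g : G} (h : g * z * g⁻¹ = z⁻¹) : ∀ x ∈ S, g * x * g⁻¹ ∈ S :=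
  fun x hx => H.nrm hx (by
    rw [show g⁻¹ * z * g = g⁻¹ * (z⁻¹)⁻¹ * g by group, ← h,
      show g⁻¹ * (g * z * g⁻¹)⁻¹ * g = z⁻¹ by group]
    exact (H.c hx).inv_right)

theorem nz' (H : St t z a b w S) {v : G} (hv : v ∈ S) (h1 : v ≠ 1) (hi : t * v * t⁻¹ = v⁻¹) :
    v ∉ zpowers z := fun h => h1 (one_of_inv (H.e hv) hi (cz H.tz h))

theorem big (H : St t z a b w S) {v : G} (hv : v ∈ S) (h1 : v ≠ 1) (hi : t * v * t⁻¹ = v⁻¹) :
    ¬ S ≤ zpowers z ⊔ zpowers v := fun h =>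
  h1 (qinv H.ab H.az H.bz H.tz (H.c hv) (H.e hv) hi (h (H.nrmC H.az v hv)) (h (H.nrmC H.bz v hv)))

theorem cube (H : St t z a b w S) {B : Subgroup G} (hB : B ≤ S) (hz : z ∈ B) {v x : G} (hv : v ∈ B)
    (hx : x ∈ B) (h1 : v ∉ zpowers z) (h2 : x ∉ zpowers z ⊔ zpowers v) : 13 ^ 3 ∣ Nat.card B := by
  have hle : zpowers z ⊔ zpowers v ≤ B := sup_le (zpowers_le.2 hz) (zpowers_le.2 hv)
  have h3 := mul_card_dvd (H.pg (hle.trans hB)) le_sup_left (mem_sup_right (mem_zpowers v)) h1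
  rw [H.cardZ] at h3
  exact (mul_dvd_mul_left 13 h3).trans (mul_card_dvd (H.pg hB) hle hx h2)

theorem cardS (H : St t z a b w S) : Nat.card S = 13 ^ 3 := by
  obtain ⟨v, hv, h1, hi⟩ := H.ex
  obtain ⟨x, hx, h2⟩ := SetLike.not_le_iff_exists.1 (H.big hv h1 hi)
  have h3 := H.cube le_rfl (H.zS (mem_zpowers z)) hv hx (H.nz' hv h1 hi) h2
  obtain ⟨n, hn⟩ := (H.pg le_rfl).exists_card_eq
  have h4 := card_subgroup_dvd_card S
  rw [hn] at h3 h4 ⊢
  have h5 := (Nat.pow_dvd_pow_iff_le_right (by norm_num)).1 h3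
  have h6 : ¬ 4 ≤ n := fun h => by
    have := (pow_dvd_pow 13 h).trans h4
    rw [H.card] at this
    norm_num at this
  rw [show n = 3 by omega]

theorem full (H : St t z a b w S) {B : Subgroup G} (hz : z ∈ B) {v x : G} (hvS : v ∈ S)
    (hxS : x ∈ S) (hv : v ∈ B) (hx : x ∈ B) (h1 : v ∉ zpowers z) (h2 : x ∉ zpowers z ⊔ zpowers v) :
    S ≤ B := by
  have h3 := H.cube (B := S ⊓ B) inf_le_left ⟨H.zS (mem_zpowers z), hz⟩ ⟨hvS, hv⟩ ⟨hxS, hx⟩ h1 h2
  rw [← H.cardS] at h3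
  exact inf_eq_left.1 (Solv.PG.eq_of_le_of_card_eq inf_le_left
    (Nat.dvd_antisymm (card_dvd_of_le inf_le_left) h3))

theorem cyc (H : St t z a b w S) {s y x : G} (hs : IsConj s t) (hy : y ∈ S) (h1 : y ≠ 1)
    (ys : Commute y s) (hx : x ∈ S) (xs : Commute x s) : x ∈ zpowers y := by
  by_contra hn
  have h2 := mul_card_dvd (H.pg (B := S ⊓ centralizer {s}) inf_le_left)
    (zpowers_le.2 ⟨hy, mc.2 ys⟩) ⟨hx, mc.2 xs⟩ hn
  rw [Nat.card_zpowers, H.ord hy h1] at h2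
  exact H.hC (Block.card_centralizer_eq_of_isConj hs ▸ h2.trans (card_dvd_of_le inf_le_right))

theorem oddS (H : St t z a b w S) {x : G} (hx : x ∈ S) : Odd (orderOf x) :=
  Odd.of_dvd_nat (by decide : Odd 13) (orderOf_dvd_of_pow_eq_one (H.e hx))

theorem line (H : St t z a b w S) {s : G} (hs : s * s = 1) (st : Commute s t)
    (sz : s * z * s⁻¹ = z⁻¹) : ∃ y ∈ S, y ≠ 1 ∧ Commute y s ∧ t * y * t⁻¹ = y⁻¹ ∧
      ∃ g, g * s * g⁻¹ = t ∧ (∀ x ∈ zpowers y, g * x * g⁻¹ ∈ zpowers z) ∧ g⁻¹ * z * g ∈ S := by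
  have hst := H.hI s hs sz
  obtain ⟨y, hy, h1, ys⟩ : ∃ y ∈ S, y ≠ 1 ∧ Commute y s := by
    by_contra! hn
    have hi : ∀ x ∈ S, s * x * s⁻¹ = x⁻¹ := fun x hx => by
      obtain ⟨v, hv, h1, h2⟩ := dec hs (H.nrmI sz) hx fun y hy _ => H.oddS hy
      have : v⁻¹ * x = 1 := by
        by_contra h3
        exact hn _ (S.mul_mem (S.inv_mem hv) hx) h3 h2.symm
      rwa [← inv_mul_eq_one.1 this]
    have hst' : IsConj (s * t) t := H.hI _
      (by rw [← pow_two, st.mul_pow, pow_two, pow_two, hs, H.tt, mul_one])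
      (by rw [show s * t * z * (s * t)⁻¹ = s * (t * z * t⁻¹) * s⁻¹ by group, cj H.tz, sz])
    have hc : ∀ v ∈ S, t * v * t⁻¹ = v⁻¹ → Commute v (s * t) := fun v hv h => (of_cj (by
      rw [show s * t * v * (s * t)⁻¹ = s * (t * v * t⁻¹) * s⁻¹ by group, h, hi _ (S.inv_mem hv),
        inv_inv])).symm
    obtain ⟨v, hv, h1, h2⟩ := H.ex
    refine H.big hv h1 h2 fun x hx => ?_
    obtain ⟨u, hu, h3, h4⟩ := H.inv x hx
    rw [show x = u * (u⁻¹ * x) by group]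
    exact mul_mem (mem_sup_right (H.cyc hst' hv h1 (hc v hv h2) hu (hc u hu h3))) (mem_sup_left h4)
  have ty : t * y * t⁻¹ = y⁻¹ := by
    obtain ⟨v, hv, h2, h3⟩ := H.inv y hy
    obtain ⟨c, rfl⟩ : ∃ c, y = v * c := ⟨v⁻¹ * y, by group⟩
    rw [inv_mul_cancel_left] at h3
    have h4 : t * (v * c) * t⁻¹ * (v * c) = c * c := by
      rw [show t * (v * c) * t⁻¹ * (v * c) = (t * v * t⁻¹) * (t * c * t⁻¹) * v⁻¹⁻¹ * c by group, h2,
        cj (cz H.tz h3), cj (cz (H.c hv).inv_left h3)]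
    have h5 := mul_mem h3 h3
    have h6 := one_of_inv (zp13 H.z13 h5) (inv_zp sz h5) (h4 ▸
      ((st.mul_right ys.symm).mul_right st.inv_right).mul_right ys.symm)
    exact mul_eq_one_iff_eq_inv.1 (h4.trans h6)
  obtain ⟨g, hg⟩ := isConj_iff.1 hst
  obtain ⟨k, hk, h2⟩ := conj_zp H.hC (x := g * y * g⁻¹) (mc.2 (by
      rw [← hg]
      exact ys.map (MulAut.conj g))) (mc.2 H.tz.symm) (by rw [conj_pow, H.e hy]; simp) H.hz
  rw [show k * (g * y * g⁻¹) * k⁻¹ = k * g * y * (k * g)⁻¹ by group] at h2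
  have h3 : ∀ x ∈ zpowers y, k * g * x * (k * g)⁻¹ ∈ zpowers z := by
    rintro _ ⟨n, rfl⟩
    change k * g * y ^ n * (k * g)⁻¹ ∈ _
    rw [← conj_zpow]
    exact zpow_mem h2 n
  refine ⟨y, hy, h1, ys, ty, k * g, by
    rw [show k * g * s * (k * g)⁻¹ = k * (g * s * g⁻¹) * k⁻¹ by group, hg, cj (mc.1 hk)], h3, ?_⟩
  have h4 : zpowers (k * g * y * (k * g)⁻¹) = zpowers z :=
    Solv.PG.eq_of_le_of_card_eq (zpowers_le.2 h2) (by
      rw [H.cardZ, Nat.card_zpowers, Block.orderOf_conj', H.ord hy h1])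
  obtain ⟨n, hn⟩ := mem_zpowers_iff.1 (h4.ge (mem_zpowers z))
  rw [← hn, conj_zpow, show (k * g)⁻¹ * (k * g * y ^ n * (k * g)⁻¹) * (k * g) = y ^ n by group]
  exact S.zpow_mem hy n

theorem ww (H : St t z a b w S) : w * w = t := H.w2.resolve_left fun h => by
  obtain ⟨y, hy, h1, ys, ty, -⟩ := H.line h H.wt H.wz
  have hs := H.hI w h H.wz
  have key : ∀ {a : G}, Commute a z → Commute w a → a * y * a⁻¹ ∈ zpowers z ⊔ zpowers y :=
    fun az wa => mem_sup_right (H.cyc hs hy h1 ys (H.nrmC az y hy)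
      ((wa.symm.mul_left ys).mul_left wa.symm.inv_left))
  exact h1 (qinv H.ab H.az H.bz H.tz (H.c hy) (H.e hy) ty (key H.az H.wa) (key H.bz H.wb))

theorem wq (H : St t z a b w S) {q : G} (q2 : q * q = t) (qt : Commute q t) (qz : Commute q z)
    (wq : Commute w q) : w * q * (w * q) = 1 ∧ Commute (w * q) t ∧ w * q * z * (w * q)⁻¹ = z⁻¹ :=
  ⟨by rw [← pow_two, wq.mul_pow, pow_two, pow_two, H.ww, q2, H.tt], H.wt.mul_left qt,
    by rw [show w * q * z * (w * q)⁻¹ = w * (q * z * q⁻¹) * w⁻¹ by group, cj qz, H.wz]⟩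

/-- Six lines inverted by `t` and fused to `z`. -/
theorem lines (H : St t z a b w S) : ∃ y : Fin 3 × Fin 2 → G, (∀ i, y i ∈ S ∧ y i ≠ 1 ∧
    t * y i * t⁻¹ = (y i)⁻¹ ∧ ∀ x ∈ zpowers (y i), x ≠ 1 → IsConj x z) ∧
    ∀ i j, i ≠ j → ∀ x ∈ zpowers (y i), x ∈ zpowers (y j) → x = 1 := by
  obtain ⟨q, h1, h2⟩ := H.six
  choose y hy y1 ys ty g _ hg _ using fun i =>
    have := H.wq (h1 i).1 (h1 i).2.1 (h1 i).2.2.1 (h1 i).2.2.2
    H.line this.1 this.2.1 this.2.2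
  refine ⟨y, fun i => ⟨hy i, y1 i, ty i, fun x hx x1 => ?_⟩, fun i j hij x hi hj => ?_⟩
  · exact (isConj_iff.2 ⟨g i, rfl⟩).trans (H.allconj (hg i x hx) (by simpa using x1))
  · refine one_of_inv (zp13 (H.e (hy i)) hi) (inv_zp (ty i) hi) (cz ?_ (h2 i j hij)).symm
    rw [show (q i)⁻¹ * q j = (w * q i)⁻¹ * (w * q j) by group]
    exact ((cz (ys i).symm hi).inv_left.mul_left (cz (ys j).symm hj)).symm

theorem nonab (H : St t z a b w S) (hn : ¬ ∀ x ∈ S, ∀ y ∈ S, Commute x y) : TriS 13 G := by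
  obtain ⟨y, h1, h2⟩ := H.lines
  have k1 : ∀ i j, i ≠ j → y j ∉ zpowers z ⊔ zpowers (y i) := fun i j hij h => by
    obtain ⟨c, hc, n, e⟩ := (Solv.PG.mem_sup_zpowers_iff (nz (H.c (h1 i).1))).1 h
    have hu : y i ^ n ∈ zpowers (y i) := zpow_mem_zpowers _ _
    have h3 := (h1 j).2.2.1
    rw [e, show t * (c * y i ^ n) * t⁻¹ = t * c * t⁻¹ * (t * y i ^ n * t⁻¹) by group,
      inv_zp (h1 i).2.2.1 hu, ← ((cz (H.c (h1 i).1) hc).zpow_left n).eq, mul_inv_rev,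
      mul_left_inj] at h3
    rw [one_of_inv (zp13 H.z13 hc) h3 (cz H.tz hc), one_mul] at e
    exact (h1 j).2.1 (h2 i j hij _ (e ▸ hu) (mem_zpowers _))
  have k2 : ∀ i, y i ∉ zpowers z := fun i => H.nz' (h1 i).1 (h1 i).2.1 (h1 i).2.2.1
  have k3 : ∀ i j, i ≠ j → ¬ Commute (y i) (y j) := fun i j hij h => by
    have k4 : ∀ i j, i ≠ j → Commute (y i) (y j) → y i ∈ centralizer (S : Set G) :=
      fun i j hij h x hx => (mc.1 (H.full (B := centralizer {y i}) (mc.2 (H.c (h1 i).1).symm)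
        (h1 i).1 (h1 j).1 (mc.2 (.refl _)) (mc.2 h.symm) (k2 i) (k1 i j hij) hx)).eq
    exact hn fun x hx u hu => H.full (B := centralizer (S : Set G)) (fun x hx => (H.c hx).eq)
      (h1 i).1 (h1 j).1 (k4 i j hij h) (k4 j i hij.symm h.symm) (k2 i) (k1 i j hij) hu x hx
  have k5 : ∀ i, IsConj (y i) z := fun i => (h1 i).2.2.2 _ (mem_zpowers _) (h1 i).2.1
  exact ⟨S, H.cardS, fun _ => H.e, z, H.zS (mem_zpowers z), fun _ hs => (H.c hs).symm,
    y (0, 0), (h1 _).1, y (1, 0), (h1 _).1, y (2, 0), (h1 _).1, k3 _ _ (by decide),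
    k3 _ _ (by decide), k3 _ _ (by decide), k5 _, k5 _, k5 _⟩

theorem memN (H : St t z a b w S) (hab : ∀ x ∈ S, ∀ y ∈ S, Commute x y) {g : G}
    (h : g⁻¹ * z * g ∈ S) : g ∈ normalizer (S : Set G) :=
  mem_normalizer_fintype fun x hx => H.nrm hx (hab x hx _ h)

theorem cent (H : St t z a b w S) (hab : ∀ x ∈ S, ∀ y ∈ S, Commute x y) :
    centralizer (S : Set G) = S := by
  refine le_antisymm (fun k hk => ?_) fun x hx y hy => (hab y hy x hx).eq
  have hzS := H.zS (mem_zpowers z)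
  have hN : ∀ g ∈ normalizer (S : Set G), ∀ x ∈ centralizer (S : Set G),
      g * x * g⁻¹ ∈ centralizer (S : Set G) := fun g hg x hx =>
    (mem_normalizer_iff.1 (Solv.PG.le_normalizer_centralizer le_rfl hg) x).1 hx
  have hC : ∀ {g : G}, Commute g z → g ∈ normalizer (S : Set G) := fun h =>
    mem_normalizer_fintype (H.nrmC h)
  have h0 : ∀ x ∈ centralizer (S : Set G), Commute x t → x ∈ S := fun x hx xt => by
    refine H.zS (H.odd (centralizer (S : Set G) ⊓ centralizer {t})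
      (fun x hx => ⟨mc.1 hx.2, (hx.1 z hzS).symm⟩) (fun d h3 h4 x hx =>
        ⟨hN d (hC h4) x hx.1, mc.2 ((h3.mul_left (mc.1 hx.2)).mul_left h3.inv_left)⟩) ?_
      ⟨hx, mc.2 xt⟩)
    by_contra he
    obtain ⟨s, hs⟩ := exists_prime_orderOf_dvd_card' 2 (Nat.not_odd_iff_even.1 he).two_dvd
    rw [← orderOf_coe] at hs
    have h1 := (H.hD s (mc.1 s.2.2) (s.2.1 z hzS).symm (Local.invol_mul_self hs)).resolve_left
      (Local.invol_ne_one hs)
    obtain ⟨v, hv, h2, h3⟩ := H.ex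
    exact h2 (one_of_inv (H.e hv) h3 (h1 ▸ (s.2.1 v hv).symm))
  have h1 : ∀ {s : G}, s * s = 1 → Commute s t → s * z * s⁻¹ = z⁻¹ →
      ∀ x ∈ centralizer (S : Set G), Commute x s → x ∈ S := fun hs st sz x hx xs => by
    obtain ⟨y, -, -, -, -, g, h2, -, h3⟩ := H.line hs st sz
    have hg := H.memN hab h3
    exact (mem_normalizer_iff.1 hg x).2 (h0 _ (hN g hg x hx) (h2 ▸ xs.map (MulAut.conj g)))
  have h2 : ∀ {s : G}, (∀ x ∈ centralizer (S : Set G), Commute x s → x ∈ S) →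
      ∀ y ∈ centralizer (S : Set G), s * y * s⁻¹ = y⁻¹ → Odd (orderOf y) := fun {s} h y hy hi => by
    by_contra he
    have h3 := Local.orderOf_pow_half (Nat.not_odd_iff_even.1 he)
    have h4 := conj_pow_of_inverts hi (orderOf y / 2)
    rw [Local.invol_inv_eq h3] at h4
    have := H.oddS (h _ (pow_mem hy _) (of_cj h4).symm)
    rw [h3] at this
    exact absurd this (by decide)
  have h3 : ∀ {s : G}, s * s = 1 → s ∈ normalizer (S : Set G) →
      (∀ x ∈ centralizer (S : Set G), Commute x s → x ∈ S) →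
      ∀ k ∈ centralizer (S : Set G), s * k * s⁻¹ * k ∈ S := fun {s} hs hn h k hk => by
    obtain ⟨v, hv, h4, h5⟩ := dec hs (hN s hn) hk (h2 h)
    have h6 := h _ (mul_mem (inv_mem hv) hk) h5.symm
    obtain ⟨c, rfl⟩ : ∃ c, k = v * c := ⟨v⁻¹ * k, by group⟩
    rw [inv_mul_cancel_left] at h5 h6
    rw [show s * (v * c) * s⁻¹ * (v * c) = (s * v * s⁻¹) * ((s * c * s⁻¹) * v) * c by group, h4,
      cj h5, hv c h6, inv_mul_cancel_left]
    exact mul_mem h6 h6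
  obtain ⟨u1, u2, u3⟩ := H.wq H.a2 H.at' H.az H.wa
  generalize w * a = u at u1 u2 u3
  have v1 : u * t * (u * t) = 1 := by rw [← pow_two, u2.mul_pow, pow_two, pow_two, u1, H.tt, mul_one]
  have v3 : u * t * z * (u * t)⁻¹ = z⁻¹ := by
    rw [show u * t * z * (u * t)⁻¹ = u * (t * z * t⁻¹) * u⁻¹ by group, cj H.tz, u3]
  obtain ⟨v, hv, h4, h5⟩ := dec H.tt (hN t (hC H.tz)) hk (h2 h0)
  have h6 := h3 u1 (mem_normalizer_fintype (H.nrmI u3)) (h1 u1 u2 u3) _ (inv_mem hv)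
  have h7 := h3 v1 (mem_normalizer_fintype (H.nrmI v3)) (h1 v1 (u2.mul_left (.refl t)) v3) _ hv
  rw [show u * t * v * (u * t)⁻¹ = u * (t * v * t⁻¹) * u⁻¹ by group, h4] at h7
  have h8 := mul_mem (inv_mem h6) h7
  rw [show (u * v⁻¹ * u⁻¹ * v⁻¹)⁻¹ * (u * v⁻¹ * u⁻¹ * v) = v * v by group] at h8
  obtain ⟨n, hn⟩ := eq_sq_pow_of_odd (h2 h0 v hv h4)
  rw [show k = v * (v⁻¹ * k) by group]
  exact mul_mem (hn ▸ pow_mem h8 n) (h0 _ (mul_mem (inv_mem hv) hk) h5.symm)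

/-- The conjugates of `z` in `S` inverted by `s`. -/
def Om (z : G) (S : Subgroup G) (s : G) : Set G := {x | x ∈ S ∧ IsConj x z ∧ s * x * s⁻¹ = x⁻¹}

theorem om_t (H : St t z a b w S) : 72 ≤ (Om z S t).ncard := by
  obtain ⟨y, h1, h2⟩ := H.lines
  have h3 : ∀ i (k : Fin 12), y i ^ (k + 1 : ℕ) ≠ 1 := fun i k =>
    pow_ne_one_of_lt_orderOf (by omega) (by rw [H.ord (h1 i).1 (h1 i).2.1]; omega)
  let f : (Fin 3 × Fin 2) × Fin 12 → Om z S t := fun p => ⟨y p.1 ^ (p.2 + 1 : ℕ),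
    pow_mem (h1 _).1 _, (h1 _).2.2.2 _ (npow_mem_zpowers _ _) (h3 _ _),
    conj_pow_of_inverts (h1 _).2.2.1 _⟩
  have hf : Function.Injective f := by
    rintro ⟨i, k⟩ ⟨j, l⟩ e
    have e' : y i ^ (k + 1 : ℕ) = y j ^ (l + 1 : ℕ) := congrArg Subtype.val e
    obtain rfl : i = j := by
      by_contra hij
      exact h3 i k (h2 i j hij _ (npow_mem_zpowers _ _) (e' ▸ npow_mem_zpowers _ _))
    rw [pow_inj_mod, H.ord (h1 i).1 (h1 i).2.1] at e'
    exact Prod.ext rfl (Fin.ext (show (k : ℕ) = l by omega))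
  simpa using Nat.card_le_card_of_injective f hf

theorem om_s (H : St t z a b w S) (hab : ∀ x ∈ S, ∀ y ∈ S, Commute x y) {s : G} (hs : s * s = 1)
    (st : Commute s t) (sz : s * z * s⁻¹ = z⁻¹) : 72 ≤ (Om z S s).ncard := by
  obtain ⟨y, -, -, -, -, g, h2, -, h3⟩ := H.line hs st sz
  refine H.om_t.trans (Set.ncard_le_ncard_of_injOn (fun x => g⁻¹ * x * g) (fun x hx => ⟨?_, ?_, ?_⟩)
    (fun x _ y _ e => by simpa using e))
  · exact (mem_normalizer_iff''.1 (H.memN hab h3) x).1 hx.1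
  · exact (isConj_iff.2 ⟨g, by group⟩).trans hx.2.1
  · calc s * (g⁻¹ * x * g) * s⁻¹ = g⁻¹ * (g * s * g⁻¹ * x * (g * s * g⁻¹)⁻¹) * g := by group
      _ = _ := by rw [h2, hx.2.2]; group

theorem om_inter (H : St t z a b w S) {s s' : G} (h : IsConj (s * s') t) :
    (Om z S s ∩ Om z S s').ncard ≤ 12 := by
  rcases (Om z S s ∩ Om z S s').eq_empty_or_nonempty with e | ⟨y, hy⟩
  · simp [e]
  have h1 : ∀ x ∈ Om z S s ∩ Om z S s', x ≠ 1 ∧ Commute x (s * s') := fun x hx =>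
    ⟨fun e => by
      have := H.hz
      rw [show z = 1 from isConj_one_right.1 (e ▸ hx.1.2.1), orderOf_one] at this
      omega, (of_cj (by
      rw [show s * s' * x * (s * s')⁻¹ = s * (s' * x * s'⁻¹) * s⁻¹ by group, hx.2.2.2,
        show s * x⁻¹ * s⁻¹ = (s * x * s⁻¹)⁻¹ by group, hx.1.2.2, inv_inv])).symm⟩
  have h2 : Om z S s ∩ Om z S s' ⊆ (zpowers y : Set G) \ {1} := fun x hx =>
    ⟨H.cyc h hy.1.1 (h1 y hy).1 (h1 y hy).2 hx.1.1 (h1 x hx).2, (h1 x hx).1⟩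
  refine (Set.ncard_le_ncard h2).trans ?_
  rw [Set.ncard_sdiff_singleton_of_mem (one_mem _), ← Nat.card_coe_set_eq, SetLike.coe_sort_coe,
    Nat.card_zpowers, H.ord hy.1.1 (h1 y hy).1]

theorem om (H : St t z a b w S) (hab : ∀ x ∈ S, ∀ y ∈ S, Commute x y) :
    180 ≤ {x | x ∈ S ∧ IsConj x z}.ncard := by
  obtain ⟨u1, u2, u3⟩ := H.wq H.a2 H.at' H.az H.wa
  generalize w * a = u at u1 u2 u3
  have v1 : u * t * (u * t) = 1 := by rw [← pow_two, u2.mul_pow, pow_two, pow_two, u1, H.tt, mul_one]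
  have v3 : u * t * z * (u * t)⁻¹ = z⁻¹ := by
    rw [show u * t * z * (u * t)⁻¹ = u * (t * z * t⁻¹) * u⁻¹ by group, cj H.tz, u3]
  have h1 := H.om_t
  have h2 := H.om_s hab u1 u2 u3
  have h3 := H.om_s hab v1 (u2.mul_left (.refl t)) v3
  have h4 := H.om_inter (H.hI _ v1 v3)
  have h5 := H.om_inter (s := u) (s' := u * t) (by rw [← mul_assoc, u1, one_mul])
  have h6 := H.om_inter (s := t) (s' := u * t) (by
    rw [← mul_assoc, ← u2.eq, mul_assoc, H.tt, mul_one]; exact H.hI u u1 u3)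
  have h7 := Set.ncard_union_add_ncard_inter (Om z S u) (Om z S t)
  have h8 := Set.ncard_union_add_ncard_inter (Om z S u ∪ Om z S t) (Om z S (u * t))
  rw [Set.union_inter_distrib_right] at h8
  have h9 := Set.ncard_union_le (Om z S u ∩ Om z S (u * t)) (Om z S t ∩ Om z S (u * t))
  have h10 : (Om z S u ∪ Om z S t ∪ Om z S (u * t)).ncard ≤ {x | x ∈ S ∧ IsConj x z}.ncard :=
    Set.ncard_le_ncard (by rintro x ((h | h) | h) <;> exact ⟨h.1, h.2.1⟩)
  omega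

theorem cardC (H : St t z a b w S) : 24 * 13 ^ 3 ≤ Nat.card (centralizer ({z} : Set G)) := by
  have ha : orderOf a = 2 ^ 2 := orderOf_eq_prime_pow (by rw [pow_one, pow_two, H.a2]; exact H.t1)
    (by rw [← H.tt, ← H.a2, ← pow_two, ← pow_two, ← pow_mul]; rfl)
  have h1 := mul_card_dvd H.pQ le_sup_left (mem_sup_right (mem_zpowers b)) fun h =>
    H.nab (cz (.refl a) h)
  rw [Nat.card_zpowers, ha] at h1
  have h2 := h1.trans (card_dvd_of_le (K := centralizer {z})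
    (sup_le (zpowers_le.2 (mc.2 H.az)) (zpowers_le.2 (mc.2 H.bz))))
  have h3 := card_dvd_of_le (H := S) (K := centralizer {z}) fun x hx => mc.2 (H.c hx)
  rw [H.cardS] at h3
  exact Nat.le_of_dvd Nat.card_pos (Nat.Coprime.mul_dvd_of_dvd_of_dvd (by norm_num)
    (Nat.Coprime.mul_dvd_of_dvd_of_dvd (by norm_num : Nat.Coprime 8 3) h2 H.three) h3)

theorem cardN (H : St t z a b w S) (hab : ∀ x ∈ S, ∀ y ∈ S, Commute x y) :
    180 * (24 * 13 ^ 3) ≤ Nat.card (normalizer (S : Set G)) := by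
  choose g hg using fun x : {x | x ∈ S ∧ IsConj x z} => isConj_iff.1 x.2.2.symm
  have h1 : ∀ x (c : centralizer ({z} : Set G)), g x * c * z * (g x * c)⁻¹ = x := fun x c => by
    rw [show g x * c * z * (g x * c)⁻¹ = g x * (c * z * (c : G)⁻¹) * (g x)⁻¹ by group,
      cj (mc.1 c.2), hg]
  let f : {x | x ∈ S ∧ IsConj x z} × centralizer ({z} : Set G) → normalizer (S : Set G) :=
    fun p => ⟨g p.1 * p.2, inv_mem_iff.1 (H.memN hab (by rw [inv_inv, h1]; exact p.1.2.1))⟩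
  have hf : Function.Injective f := by
    rintro ⟨x, c⟩ ⟨y, d⟩ e
    have e' : g x * c = g y * d := congrArg Subtype.val e
    obtain rfl : x = y := Subtype.ext (by rw [← h1 x c, ← h1 y d, e'])
    exact Prod.ext rfl (Subtype.ext (mul_left_cancel e'))
  have h2 := Nat.card_le_card_of_injective f hf
  rw [Nat.card_prod, Nat.card_coe_set_eq] at h2
  exact (Nat.mul_le_mul (H.om hab) H.cardC).trans h2

theorem not_ab (H : St t z a b w S) (hab : ∀ x ∈ S, ∀ y ∈ S, Commute x y) : False := by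
  haveI : IsMulCommutative S := Solv.PG.isMulCommutative_of_forall fun x hx y hy => hab x hx y hy
  haveI : Solv.ElemAb 13 S := Solv.ElemAb.of_subgroup fun _ => H.e
  have h1 := (S.normalizerMonoidHom.ker).card_mul_index
  have h2 : S.normalizerMonoidHom.ker.index ∣ Nat.card (MulAut S) := by
    rw [index_ker]; exact card_subgroup_dvd_card _
  rw [Solv.Vec.card_mulAut H.cardS, Fin.prod_univ_three] at h2
  generalize S.normalizerMonoidHom.ker.index = n at h1 h2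
  rw [normalizerMonoidHom_ker, H.cent hab,
    Nat.card_congr (subgroupOfEquivOfLe le_normalizer).toEquiv, H.cardS] at h1
  have h3 := H.cardN hab
  let P : Sylow 13 G := (H.pg le_rfl).toSylow fun h => by
    have := mul_dvd_mul_left (Nat.card S) h
    rw [S.card_mul_index, H.cardS, H.card] at this
    norm_num at this
  have h4 := card_sylow_modEq_one 13 G
  rw [P.card_eq_index_normalizer] at h4
  change (normalizer (S : Set G)).index % 13 = 1 % 13 at h4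
  have h5 := (normalizer (S : Set G)).card_mul_index
  rw [← h1, H.card] at h5
  generalize (normalizer (S : Set G)).index = m at h4 h5
  have h6 : n * m = 367782168773105542051187940355808264454144000000000 := by nlinarith
  have h7 : n ∣ 72576 := by
    have := Nat.dvd_gcd h2 (Dvd.intro _ h6)
    norm_num at this
    exact this
  have h8 : n % 13 = 2 := by
    have := congrArg (· % 13) h6
    simp only [Nat.mul_mod n m, h4] at this
    omega
  obtain ⟨j, hj⟩ := h7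
  have h9 : 4320 ≤ n := by omega
  have h10 : j ≤ 16 := by nlinarith
  interval_cases j <;> omega

end St

end A13

open A13 in
theorem tri13 {G : Type*} [Group G] [Finite G]
    (hG : Nat.card G = 808017424794512875886459904961710757005754368000000000) {t z a h w : G}
    (ht : orderOf t = 2) (hz : orderOf z = 13) (tz : Commute t z)
    (hC : ¬ 169 ∣ Nat.card (centralizer ({t} : Set G)))
    (hD1 : ∀ s, Commute s t → Commute s z → s * s = 1 → s = 1 ∨ s = t)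
    (hD2 : ∀ n, Odd n → n ∣ Nat.card ↥(centralizer ({t} : Set G) ⊓ centralizer {z}) → n ∣ 39)
    (at' : Commute a t) (az : Commute a z) (ht' : Commute h t) (hz' : Commute h z)
    (a2 : a * a = t) (h3 : h ^ 3 = 1) (ah : (a * h) ^ 3 = 1)
    (wt : Commute w t) (wz : w * z * w⁻¹ = z⁻¹) (w2 : w * w = 1 ∨ w * w = t) (wa : Commute w a)
    (wh : Commute w h) (hI : ∀ s, s * s = 1 → s * z * s⁻¹ = z⁻¹ → IsConj s t)
    (hr : IsConj z (z ^ 2)) : TriS 13 G := by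
  obtain ⟨S, H⟩ :=
    (Hy.of hG ht hz tz hC hD1 hD2 at' az ht' hz' a2 h3 ah wt wz w2 wa wh hI hr).exS
  exact H.nonab H.not_ab

end Cfsg.Lib.RV
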