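import Cfsg.Agent.RV.Defs
import Cfsg.Agent.Bender.TwoRank

/-!
The centraliser of an element of order thirteen with a quaternion group acting on it: the elements
of order thirteen form a subgroup of order `13 ^ 3`.
-/

set_option autoImplicit false

namespace Cfsg.Lib.RV.A13

open Subgroup Cfsg.Lib.Chev.RankOne

variable {G : Type*} [Group G]

theorem cj {g x : G} (h : Commute g x) : g * x * g⁻¹ = x := by
  rw [h.eq, mul_inv_cancel_right]

theorem of_cj {g x : G} (h : g * x * g⁻¹ = x) : Commute g x := mul_inv_eq_iff_eq_mul.1 h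

theorem cz {g z c : G} (h : Commute g z) (hc : c ∈ zpowers z) : Commute g c := by
  obtain ⟨k, rfl⟩ := mem_zpowers_iff.1 hc
  exact h.zpow_right k

theorem zp13 {z c : G} (h : z ^ 13 = 1) (hc : c ∈ zpowers z) : c ^ 13 = 1 := by
  obtain ⟨k, rfl⟩ := mem_zpowers_iff.1 hc
  rw [← zpow_natCast, ← zpow_mul, mul_comm, zpow_mul, zpow_natCast, h, one_zpow]

theorem inv_zp {s y c : G} (h : s * y * s⁻¹ = y⁻¹) (hc : c ∈ zpowers y) : s * c * s⁻¹ = c⁻¹ := by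
  obtain ⟨k, rfl⟩ := mem_zpowers_iff.1 hc
  rw [← conj_zpow, h, inv_zpow]

theorem one_of_inv {s x : G} (h13 : x ^ 13 = 1) (hi : s * x * s⁻¹ = x⁻¹) (hc : Commute s x) :
    x = 1 := by
  have h2 : x ^ 2 = 1 := by
    rw [cj hc] at hi
    rw [pow_two]; exact mul_eq_one_iff_eq_inv.2 hi
  calc x = x ^ 13 * ((x ^ 2) ^ 6)⁻¹ := by group
    _ = 1 := by rw [h13, h2]; simp

theorem nz {v z : G} (h : Commute v z) : v ∈ normalizer (zpowers z : Set G) :=
  mem_normalizer_iff.2 fun c => ⟨fun hc => by rwa [cj (cz h hc)], fun hc => by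
    have := cj (cz h.inv_left hc)
    rw [show v⁻¹ * (v * c * v⁻¹) * v⁻¹⁻¹ = c by group] at this
    rwa [this]⟩

theorem dec {K : Subgroup G} {s x : G} (hs : s * s = 1) (hK : ∀ y ∈ K, s * y * s⁻¹ ∈ K)
    (hx : x ∈ K) (ho : ∀ y ∈ K, s * y * s⁻¹ = y⁻¹ → Odd (orderOf y)) :
    ∃ v ∈ K, s * v * s⁻¹ = v⁻¹ ∧ Commute s (v⁻¹ * x) := by
  obtain ⟨y, hy⟩ : ∃ y, y = x * (s * x⁻¹ * s⁻¹) := ⟨_, rfl⟩
  have hyK : y ∈ K := hy ▸ K.mul_mem hx (hK _ (K.inv_mem hx))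
  have hyi : s * y * s⁻¹ = y⁻¹ :=
    calc s * y * s⁻¹ = s * x * (s * s) * s⁻¹ * x⁻¹ * (s * s)⁻¹ := by rw [hy]; group
      _ = y⁻¹ := by rw [hs, hy]; group
  obtain ⟨k, hk⟩ := exists_sqrt_of_odd (ho y hyK hyi)
  have hv := conj_pow_of_inverts hyi k
  refine ⟨y ^ k, K.pow_mem hyK k, hv, of_cj ?_⟩
  generalize y ^ k = v at hk hv
  calc s * (v⁻¹ * x) * s⁻¹ = (s * v * s⁻¹)⁻¹ * (s * x * s⁻¹) := by group
    _ = v⁻¹ * (v * v) * (s * x * s⁻¹) := by rw [hv]; group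
    _ = v⁻¹ * x := by rw [hk, hy]; group

theorem pow_rel {K D : Subgroup G} (hn : ∀ d ∈ D, ∀ x ∈ K, d * x * d⁻¹ ∈ K) {x : G} (hx : x ∈ D) :
    x ^ K.relIndex D ∈ K := by
  haveI : (K.subgroupOf D).Normal := ⟨fun n hn' g => hn g g.2 n hn'⟩
  exact (K.subgroupOf D).pow_index_mem ⟨x, hx⟩

theorem mem_of_cop {K : Subgroup G} {x : G} {m n : ℕ} (h : m.Coprime n) (hm : x ^ m ∈ K)
    (hn : x ^ n ∈ K) : x ∈ K := by
  have e : (x ^ m) ^ m.gcdA n * (x ^ n) ^ m.gcdB n = x := by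
    rw [← zpow_natCast, ← zpow_natCast, ← zpow_mul, ← zpow_mul, ← zpow_add, ← Nat.gcd_eq_gcd_ab, h,
      Nat.cast_one, zpow_one]
  exact e ▸ K.mul_mem (K.zpow_mem hm _) (K.zpow_mem hn _)

theorem rel_cop {p : ℕ} (hp : p.Prime) {K D : Subgroup G} (hle : K ≤ D) (h1 : p ∣ Nat.card K)
    (h2 : ¬ p * p ∣ Nat.card D) : p.Coprime (K.relIndex D) :=
  hp.coprime_iff_not_dvd.2 fun hd => h2 (Solv.PG.relIndex_mul_card hle ▸ mul_dvd_mul hd h1)

theorem mul_card_dvd [Finite G] {p : ℕ} [Fact p.Prime] {A B : Subgroup G} (hB : IsPGroup p B)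
    (h : A ≤ B) {x : G} (hx : x ∈ B) (hxA : x ∉ A) : p * Nat.card A ∣ Nat.card B := by
  obtain ⟨k, hk⟩ := hB.index (A.subgroupOf B)
  have h1 := (A.subgroupOf B).card_mul_index
  rw [Nat.card_congr (Subgroup.subgroupOfEquivOfLe h).toEquiv, hk] at h1
  rcases k with _ | k
  · have : A.subgroupOf B = ⊤ := Subgroup.index_eq_one.1 hk
    exact absurd (show (⟨x, hx⟩ : B) ∈ A.subgroupOf B from this ▸ Subgroup.mem_top _) hxA
  · exact ⟨p ^ k, by rw [← h1]; ring⟩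

theorem mul_pow_mem {Z : Subgroup G} {x y : G} (hx : ∀ c ∈ Z, Commute x c)
    (hy : ∀ c ∈ Z, Commute y c) (h : x⁻¹ * y⁻¹ * x * y ∈ Z) (n : ℕ) :
    ∃ c ∈ Z, (x * y) ^ n = c * (x ^ n * y ^ n) := by
  have h0 : y * x = (x⁻¹ * y⁻¹ * x * y)⁻¹ * (x * y) := by
    rw [← ((hx _ (Z.inv_mem h)).mul_left (hy _ (Z.inv_mem h))).eq]; group
  have h1 : ∀ n : ℕ, ∃ c ∈ Z, y ^ n * x = c * (x * y ^ n) := fun n => by
    induction n with
    | zero => exact ⟨1, Z.one_mem, by simp⟩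
    | succ n ih =>
      obtain ⟨c, hc, e⟩ := ih
      refine ⟨c * (x⁻¹ * y⁻¹ * x * y)⁻¹, Z.mul_mem hc (Z.inv_mem h), ?_⟩
      calc y ^ (n + 1) * x = y * (y ^ n * x) := by group
        _ = (y * c) * x * y ^ n := by rw [e]; group
        _ = c * (y * x) * y ^ n := by rw [(hy c hc).eq]; group
        _ = _ := by rw [h0]; group
  induction n with
  | zero => exact ⟨1, Z.one_mem, by simp⟩
  | succ n ih =>
    obtain ⟨c, hc, e⟩ := ih
    obtain ⟨d, hd, e'⟩ := h1 n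
    refine ⟨c * d, Z.mul_mem hc hd, ?_⟩
    calc (x * y) ^ (n + 1) = c * (x ^ n * (y ^ n * x)) * y := by rw [pow_succ, e]; group
      _ = c * (x ^ n * d) * x * y ^ n * y := by rw [e']; group
      _ = _ := by rw [((hx d hd).pow_left n).eq]; group

theorem pow_mul_mem {O : Subgroup G} {o d : G} (ho : o ∈ O) (hd : ∀ x ∈ O, d * x * d⁻¹ ∈ O) (n : ℕ) :
    (o * d) ^ n * (d ^ n)⁻¹ ∈ O := by
  induction n with
  | zero => simp
  | succ n ih =>
    rw [show (o * d) ^ (n + 1) * (d ^ (n + 1))⁻¹ = o * (d * ((o * d) ^ n * (d ^ n)⁻¹) * d⁻¹) by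
      rw [pow_succ' (o * d), pow_succ' d]; group]
    exact O.mul_mem ho (hd _ ih)

/-- A commutator cannot invert a cyclic section. -/
theorem qinv {t z a b v : G} (hab : a * b = t * (b * a)) (az : Commute a z) (bz : Commute b z)
    (tz : Commute t z) (vz : Commute v z) (v13 : v ^ 13 = 1) (tv : t * v * t⁻¹ = v⁻¹)
    (h1 : a * v * a⁻¹ ∈ zpowers z ⊔ zpowers v) (h2 : b * v * b⁻¹ ∈ zpowers z ⊔ zpowers v) :
    v = 1 := by
  obtain ⟨c, hc, i, h1⟩ := (Solv.PG.mem_sup_zpowers_iff (nz vz)).1 h1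
  obtain ⟨d, hd, j, h2⟩ := (Solv.PG.mem_sup_zpowers_iff (nz vz)).1 h2
  have key : ∀ {a b c d : G} {i j : ℤ}, Commute a z → c ∈ zpowers z → d ∈ zpowers z →
      a * v * a⁻¹ = c * v ^ i → b * v * b⁻¹ = d * v ^ j →
      a * b * v * (a * b)⁻¹ = d * c ^ j * v ^ (i * j) := by
    intro a b c d i j az hc hd h1 h2
    calc a * b * v * (a * b)⁻¹ = a * (b * v * b⁻¹) * a⁻¹ := by group
      _ = (a * d * a⁻¹) * (a * v ^ j * a⁻¹) := by rw [h2]; group
      _ = _ := by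
        rw [cj (cz az hd), ← conj_zpow, h1, ((cz vz hc).symm.zpow_right i).mul_zpow, ← zpow_mul,
          mul_assoc]
  have e1 := key az hc hd h1 h2
  have e2 := key bz hd hc h2 h1
  rw [mul_comm j i] at e2
  have hu : v ^ (i * j) ∈ zpowers v := zpow_mem_zpowers v _
  generalize v ^ (i * j) = u at e1 e2 hu
  have hcd : c * d ^ i ∈ zpowers z := mul_mem hc (zpow_mem hd i)
  have e3 : d * c ^ j * u = c * d ^ i * u⁻¹ :=
    calc d * c ^ j * u = t * (b * a * v * (b * a)⁻¹) * t⁻¹ := by rw [← e1, hab]; group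
      _ = (t * (c * d ^ i) * t⁻¹) * (t * u * t⁻¹) := by rw [e2]; group
      _ = _ := by rw [cj (cz tz hcd), inv_zp tv hu]
  have h4 : u ∈ zpowers z := by
    refine mem_of_cop (m := 2) (n := 13) (by norm_num) ?_ (zp13 v13 hu ▸ one_mem _)
    rw [show u ^ 2 = (d * c ^ j)⁻¹ * (d * c ^ j * u) * u by rw [pow_two]; group, e3,
      show (d * c ^ j)⁻¹ * (c * d ^ i * u⁻¹) * u = (d * c ^ j)⁻¹ * (c * d ^ i) by group]
    exact mul_mem (inv_mem (mul_mem hd (zpow_mem hc j))) hcd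
  have h5 : b * a * v * (b * a)⁻¹ ∈ zpowers z := e2 ▸ mul_mem hcd h4
  have h6 := cj (cz (bz.mul_left az).inv_left h5)
  rw [show (b * a)⁻¹ * (b * a * v * (b * a)⁻¹) * (b * a)⁻¹⁻¹ = v by group] at h6
  exact one_of_inv v13 tv (cz tz (h6 ▸ h5))

/-- The hypotheses, with the element of order three eliminated. -/
structure Hy (t z a b w : G) : Prop where
  card : Nat.card G = 808017424794512875886459904961710757005754368000000000
  ht : orderOf t = 2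
  hz : orderOf z = 13
  tz : Commute t z
  hC : ¬ 169 ∣ Nat.card (centralizer ({t} : Set G))
  hD : ∀ s, Commute s t → Commute s z → s * s = 1 → s = 1 ∨ s = t
  odd : ∀ K : Subgroup G, (∀ x ∈ K, Commute x t ∧ Commute x z) →
    (∀ d, Commute d t → Commute d z → ∀ x ∈ K, d * x * d⁻¹ ∈ K) → Odd (Nat.card K) → K ≤ zpowers z
  three : 3 ∣ Nat.card (centralizer ({z} : Set G))
  at' : Commute a t
  az : Commute a z
  bt : Commute b t
  bz : Commute b z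
  a2 : a * a = t
  b2 : b * b = t
  ba : b * a * b⁻¹ = a⁻¹
  wt : Commute w t
  wz : w * z * w⁻¹ = z⁻¹
  w2 : w * w = 1 ∨ w * w = t
  wa : Commute w a
  wb : Commute w b
  hI : ∀ s, s * s = 1 → s * z * s⁻¹ = z⁻¹ → IsConj s t
  hr : IsConj z (z ^ 2)

theorem mc {x y : G} : x ∈ centralizer ({y} : Set G) ↔ Commute x y := mem_centralizer_singleton_iff

instance fact13 : Fact (Nat.Prime 13) := ⟨by norm_num⟩

variable [Finite G] {t z a b h w : G}

theorem Hy.of (hG : Nat.card G = 808017424794512875886459904961710757005754368000000000)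
    (ht : orderOf t = 2) (hz : orderOf z = 13) (tz : Commute t z)
    (hC : ¬ 169 ∣ Nat.card (centralizer ({t} : Set G)))
    (hD1 : ∀ s, Commute s t → Commute s z → s * s = 1 → s = 1 ∨ s = t)
    (hD2 : ∀ n, Odd n → n ∣ Nat.card ↥(centralizer ({t} : Set G) ⊓ centralizer {z}) → n ∣ 39)
    (at' : Commute a t) (az : Commute a z) (ht' : Commute h t) (hz' : Commute h z)
    (a2 : a * a = t) (h3 : h ^ 3 = 1) (ah : (a * h) ^ 3 = 1)
    (wt : Commute w t) (wz : w * z * w⁻¹ = z⁻¹) (w2 : w * w = 1 ∨ w * w = t) (wa : Commute w a)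
    (wh : Commute w h) (hI : ∀ s, s * s = 1 → s * z * s⁻¹ = z⁻¹ → IsConj s t)
    (hr : IsConj z (z ^ 2)) : Hy t z a (h * a * h⁻¹) w := by
  have tt := Local.invol_mul_self ht
  have sq : ∀ {x : G}, x * x = t → h * x * h⁻¹ * (h * x * h⁻¹) = t := fun {x} hx => by
    rw [show h * x * h⁻¹ * (h * x * h⁻¹) = h * (x * x) * h⁻¹ by group, hx, cj ht']
  obtain ⟨b, hb⟩ : ∃ b, b = h * a * h⁻¹ := ⟨_, rfl⟩
  have b2 : b * b = t := hb ▸ sq a2
  have c2 := sq b2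
  have e : h * b * h⁻¹ = (a * b)⁻¹ := by
    rw [eq_inv_iff_mul_eq_one, ← mul_eq_one_comm,
      show a * b * (h * b * h⁻¹) = (a * h) ^ 3 * (h ^ 3)⁻¹ by
        rw [hb]; simp only [pow_succ, pow_zero]; group, ah, h3, inv_one, mul_one]
  have ba : b * a * b⁻¹ = a⁻¹ :=
    calc b * a * b⁻¹ = a⁻¹ * ((a * b)⁻¹ * (a * b)⁻¹)⁻¹ * (b * b)⁻¹ := by group
      _ = a⁻¹ := by rw [← e, c2, b2, mul_assoc, ← mul_inv_rev, tt]; simp
  have h1 : h ≠ 1 := by
    rintro rfl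
    refine Local.invol_ne_one ht ?_
    have : a = 1 := calc
      a = a * a * (a * a) * ((a * 1) ^ 3)⁻¹ := by group
      _ = 1 := by rw [a2, tt, ah]; simp
    rw [← a2, this, mul_one]
  haveI : Fact (Nat.Prime 3) := ⟨Nat.prime_three⟩
  rw [← hb]
  refine ⟨hG, ht, hz, tz, hC, hD1, fun K hK hn ho => ?_, ?_, at', az,
    hb ▸ (ht'.mul_left at').mul_left ht'.inv_left, hb ▸ (hz'.mul_left az).mul_left hz'.inv_left, a2,
    b2, ba, wt, wz, w2, wa, hb ▸ (wh.mul_right wa).mul_right wh.inv_right, hI, hr⟩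
  · have hle : K ≤ centralizer ({t} : Set G) ⊓ centralizer {z} := fun x hx =>
      ⟨mc.2 (hK x hx).1, mc.2 (hK x hx).2⟩
    have hn' : ∀ d ∈ centralizer ({t} : Set G) ⊓ centralizer {z}, ∀ x ∈ K, d * x * d⁻¹ ∈ K :=
      fun d hd => hn d (mc.1 hd.1) (mc.1 hd.2)
    have h39 : Nat.card K ∣ 3 * 13 := hD2 _ ho (card_dvd_of_le hle)
    have n3 : ¬ 3 ∣ Nat.card K := fun h3' => by
      have hh : h ∈ K := mem_of_cop (rel_cop Nat.prime_three hle h3' fun h9 =>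
        absurd (hD2 9 (by decide) h9) (by decide)) (h3 ▸ K.one_mem)
        (pow_rel hn' ⟨mc.2 ht', mc.2 hz'⟩)
      have h4 : b * a⁻¹ ∈ K := by
        rw [show b * a⁻¹ = h * (a * h⁻¹ * a⁻¹) by rw [hb]; group]
        exact K.mul_mem hh (hn a at' az _ (K.inv_mem hh))
      have h5 : b * a⁻¹ * (b * a⁻¹) = t :=
        calc b * a⁻¹ * (b * a⁻¹) = (b * a * b⁻¹)⁻¹ * (b * b) * a⁻¹ := by group
          _ = t := by rw [ba, b2, inv_inv, cj at']
      have := odd_orderOf_of_mem ho (h5 ▸ K.mul_mem h4 h4)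
      rw [ht] at this
      exact absurd this (by decide)
    have h13 := Nat.Coprime.dvd_of_dvd_mul_left
      (Nat.prime_three.coprime_iff_not_dvd.2 n3).symm h39
    rcases (Nat.dvd_prime fact13.out).1 h13 with e1 | e1
    · rw [card_eq_one.1 e1]; exact bot_le
    · have hh : z ∈ K := mem_of_cop (rel_cop fact13.out hle e1.symm.dvd fun h9 =>
        hC (h9.trans (card_dvd_of_le inf_le_left))) (hz ▸ pow_orderOf_eq_one z ▸ K.one_mem)
        (pow_rel hn' ⟨mc.2 tz.symm, mc.2 (Commute.refl z)⟩)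
      exact (Solv.PG.eq_of_le_of_card_eq (zpowers_le.2 hh) (by rw [Nat.card_zpowers, hz, e1])).ge
  · rw [← orderOf_eq_prime h3 h1]
    exact Subgroup.orderOf_dvd_natCard _ (mc.2 hz')

namespace Hy

theorem tt (H : Hy t z a b w) : t * t = 1 := Local.invol_mul_self H.ht

theorem t1 (H : Hy t z a b w) : t ≠ 1 := Local.invol_ne_one H.ht

theorem z13 (H : Hy t z a b w) : z ^ 13 = 1 := H.hz ▸ pow_orderOf_eq_one z

theorem cardZ (H : Hy t z a b w) : Nat.card (zpowers z) = 13 := by rw [Nat.card_zpowers, H.hz]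

theorem ab (H : Hy t z a b w) : a * b = t * (b * a) :=
  calc a * b = a * a * (b * a * b⁻¹) * (b * a * b⁻¹)⁻¹ * a⁻¹ * b := by group
    _ = t * (b * a * b⁻¹) * a⁻¹⁻¹ * a⁻¹ * b := by rw [H.a2]; nth_rw 2 [H.ba]
    _ = _ := by group

theorem exO (H : Hy t z a b w) : ∃ O : Subgroup G, Odd (Nat.card O) ∧ (∀ x ∈ O, Commute x z) ∧
    (∀ c, Commute c z → ∀ x ∈ O, c * x * c⁻¹ ∈ O) ∧ z ∈ O ∧
    ∀ c, Commute c z → ∃ o ∈ O, Commute (o⁻¹ * c) t := by
  have hi : IsIsolatedInvolution (⟨t, mc.2 H.tz⟩ : centralizer ({z} : Set G)) := by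
    refine ⟨by rw [orderOf_mk, H.ht], fun g hg => Subtype.ext ?_⟩
    have h1 : Commute t ((g : G) * t * (g : G)⁻¹) := congrArg Subtype.val hg.eq
    refine (H.hD _ h1.symm (mc.1 (g * ⟨t, mc.2 H.tz⟩ * g⁻¹).2) (conj_sq_eq_one H.tt)).resolve_left
      fun h => H.t1 ?_
    simpa using h
  have hs := Bender.oddCore_sup_centralizer_of_isolated hi
  refine ⟨(oddCore (centralizer ({z} : Set G))).map (centralizer ({z} : Set G)).subtype,
    Nat.coprime_two_right.1 (Solv.coprime_card_map_pPrimeCore 2 _), ?_, ?_, ?_, fun c hc => ?_⟩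
  · rintro _ ⟨x, -, rfl⟩
    exact mc.1 x.2
  · rintro c hc _ ⟨x, hx, rfl⟩
    exact ⟨⟨c, mc.2 hc⟩ * x * ⟨c, mc.2 hc⟩⁻¹, Normal.conj_mem inferInstance x hx _, rfl⟩
  · refine Solv.le_map_pPrimeCore (N := zpowers z) (zpowers_le.2 (mc.2 (Commute.refl z)))
      (fun c hc => nz (mc.1 hc)) (by rw [H.cardZ]; norm_num) (mem_zpowers z)
  · obtain ⟨o, ho, d, hd, e⟩ := (Solv.PG.mem_sup_iff_of_le_normalizer le_normalizer_of_normal).1
      (hs ▸ mem_top (⟨c, mc.2 hc⟩ : centralizer ({z} : Set G)))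
    refine ⟨o, mem_map_of_mem _ ho, ?_⟩
    have e' : c = o * d := congrArg Subtype.val e
    rw [e', inv_mul_cancel_left]
    exact congrArg Subtype.val (mc.1 hd).eq

end Hy

/-- The subgroup of the elements of order thirteen in the centraliser. -/
structure St (t z a b w : G) (S : Subgroup G) : Prop extends Hy t z a b w where
  mem : ∀ x, x ∈ S ↔ Commute x z ∧ x ^ 13 = 1
  inv : ∀ x ∈ S, ∃ v ∈ S, t * v * t⁻¹ = v⁻¹ ∧ v⁻¹ * x ∈ zpowers z
  ex : ∃ v ∈ S, v ≠ 1 ∧ t * v * t⁻¹ = v⁻¹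

theorem Hy.exS (H : Hy t z a b w) : ∃ S, St t z a b w S := by
  obtain ⟨O, ho, hOz, hn, hzO, hd⟩ := H.exO
  have hZ : zpowers z ≤ O := zpowers_le.2 hzO
  have inv : ∀ x ∈ O, ∃ v ∈ O, t * v * t⁻¹ = v⁻¹ ∧ v⁻¹ * x ∈ zpowers z := fun x hx => by
    obtain ⟨v, hv, h1, h2⟩ := dec H.tt (hn t H.tz) hx fun y hy _ => odd_orderOf_of_mem ho hy
    refine ⟨v, hv, h1, H.odd (O ⊓ centralizer {t}) (fun x hx => ⟨mc.1 hx.2, hOz x hx.1⟩)
      (fun d h3 h4 x hx => ⟨hn d h4 x hx.1, mc.2 ((h3.mul_left (mc.1 hx.2)).mul_left h3.inv_left)⟩)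
      (ho.of_dvd_nat (card_dvd_of_le inf_le_left)) ⟨O.mul_mem (O.inv_mem hv) hx, mc.2 h2.symm⟩⟩
  have cm : ∀ x ∈ O, t * x * t⁻¹ * x ∈ zpowers z := fun x hx => by
    obtain ⟨v, hv, h1, h2⟩ := inv x hx
    obtain ⟨c, rfl⟩ : ∃ c, x = v * c := ⟨v⁻¹ * x, by group⟩
    rw [inv_mul_cancel_left] at h2
    rw [show t * (v * c) * t⁻¹ * (v * c) = (t * v * t⁻¹) * (t * c * t⁻¹) * v⁻¹⁻¹ * c by group, h1,
      cj (cz H.tz h2), cj (cz (hOz v hv).inv_left h2)]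
    exact mul_mem h2 h2
  have comm : ∀ x ∈ O, ∀ y ∈ O, x⁻¹ * y⁻¹ * x * y ∈ zpowers z := fun x hx y hy => by
    have h1 := cm x hx
    have h2 := cm y hy
    have h3 := cm _ (O.mul_mem hx hy)
    rw [show x⁻¹ * y⁻¹ * x * y = (x⁻¹ * (t * y * t⁻¹ * y) * x⁻¹⁻¹)⁻¹ * (t * x * t⁻¹ * x)⁻¹ *
      (t * (x * y) * t⁻¹ * (x * y)) by group, cj (cz (hOz x hx).inv_left h2)]
    exact mul_mem (mul_mem (inv_mem h2) (inv_mem h1)) h3
  have mem13 : ∀ x, Commute x z → x ^ 13 ∈ O → x ∈ O := fun x hx h13 => by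
    obtain ⟨o, hoO, h1⟩ := hd x hx
    have h2 : Commute (o⁻¹ * x) z := (hOz o hoO).inv_left.mul_left hx
    have h3 := pow_rel (K := zpowers z) (D := centralizer ({t} : Set G) ⊓ centralizer {z})
      (fun d hd c hc => by rwa [cj (cz (mc.1 hd.2) hc)]) ⟨mc.2 h1, mc.2 h2⟩
    refine mem_of_cop (rel_cop fact13.out (K := zpowers z)
      (D := centralizer ({t} : Set G) ⊓ centralizer {z})
      (zpowers_le.2 ⟨mc.2 H.tz.symm, mc.2 (Commute.refl z)⟩) H.cardZ.symm.dvd fun h9 =>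
        H.hC (h9.trans (card_dvd_of_le inf_le_left))) h13 ?_
    generalize (zpowers z).relIndex (centralizer ({t} : Set G) ⊓ centralizer {z}) = m at h3
    have h4 := O.mul_mem (pow_mul_mem hoO (hn _ h2) m) (hZ h3)
    rwa [inv_mul_cancel_right, mul_inv_cancel_left] at h4
  have ex13 : ∀ x ∈ O, x ^ 13 ∈ zpowers z → x ^ 13 = 1 := fun x hx h13 => by
    obtain ⟨v, hv, h1, h2⟩ := inv x hx
    obtain ⟨c, rfl⟩ : ∃ c, x = v * c := ⟨v⁻¹ * x, by group⟩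
    rw [inv_mul_cancel_left] at h2
    rw [(cz (hOz v hv) h2).mul_pow, zp13 H.z13 h2, mul_one] at h13 ⊢
    exact one_of_inv (zp13 H.z13 h13) (conj_pow_of_inverts h1 13) (cz H.tz h13)
  let S : Subgroup G :=
    { carrier := {x | Commute x z ∧ x ^ 13 = 1}
      one_mem' := ⟨Commute.one_left z, one_pow _⟩
      inv_mem' := fun hx => ⟨hx.1.inv_left, by rw [inv_pow, hx.2, inv_one]⟩
      mul_mem' := fun {x y} hx hy => by
        have hx' := mem13 x hx.1 (hx.2 ▸ O.one_mem)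
        have hy' := mem13 y hy.1 (hy.2 ▸ O.one_mem)
        obtain ⟨c, hc, e⟩ := mul_pow_mem (fun c hc => cz hx.1 hc) (fun c hc => cz hy.1 hc)
          (comm x hx' y hy') 13
        rw [hx.2, hy.2, mul_one, mul_one] at e
        exact ⟨hx.1.mul_left hy.1, ex13 _ (O.mul_mem hx' hy') (e ▸ hc)⟩ }
  have invS : ∀ x ∈ S, ∃ v ∈ S, t * v * t⁻¹ = v⁻¹ ∧ v⁻¹ * x ∈ zpowers z := fun x hx => by
    obtain ⟨v, -, h1, h2⟩ := inv x (mem13 x hx.1 (hx.2 ▸ O.one_mem))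
    refine ⟨v, ?_, h1, h2⟩
    rw [show v = x * (v⁻¹ * x)⁻¹ by group]
    exact S.mul_mem hx (S.inv_mem ⟨(cz (Commute.refl z) h2).symm, zp13 H.z13 h2⟩)
  refine ⟨S, H, fun _ => Iff.rfl, invS, ?_⟩
  obtain ⟨K, hK, hle⟩ := Sylow.exists_subgroup_card_pow_succ (G := G) (p := 13) (n := 1)
    (by rw [H.card]; norm_num) (H := zpowers z) (by rw [H.cardZ, pow_one])
  have hc : ∀ x ∈ K, Commute x z := fun x hx => congrArg Subtype.val
    ((IsPGroup.isMulCommutative_of_card_eq_prime_sq hK).is_comm.comm ⟨x, hx⟩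
      ⟨z, hle (mem_zpowers z)⟩)
  obtain ⟨x, hx, hxz⟩ := SetLike.exists_of_lt (hle.lt_of_ne fun e => by
    rw [← e, H.cardZ] at hK; norm_num at hK)
  have h3 := pow_rel (K := zpowers z) (D := K) (fun d hd c hc' => by rwa [cj (cz (hc d hd) hc')]) hx
  have h4 := Solv.PG.relIndex_mul_card hle
  rw [hK, H.cardZ] at h4
  rw [show (zpowers z).relIndex K = 13 by omega] at h3
  obtain ⟨v, hv, h1, h2⟩ := invS x ⟨hc x hx, ex13 x (mem13 x (hc x hx) (hZ h3)) h3⟩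
  exact ⟨v, hv, fun e => hxz (by simpa [e] using h2), h1⟩

end Cfsg.Lib.RV.A13
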