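import Mathlib.LinearAlgebra.Matrix.GeneralLinearGroup.Defs
import Mathlib.GroupTheory.Sylow
import Mathlib.Data.ZMod.Basic
import Mathlib.Algebra.Field.ZMod
import Mathlib.Algebra.Group.MinimalAxioms

/-!
Fusion systems over the extraspecial group of order `p ^ 3` and exponent `p`: the model group, the
matrix data of a system and the interfaces between the parts of the proof.
-/

set_option autoImplicit false

namespace Cfsg.Lib.RV

open Matrix

/-- The plane over the prime field. -/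
abbrev V2 (p : ℕ) : Type := Fin 2 → ZMod p

/-- The general linear group of the plane. -/
abbrev GL2 (p : ℕ) : Type := GL (Fin 2) (ZMod p)

variable {p : ℕ}

/-- The determinant form. -/
def om (u v : V2 p) : ZMod p := u 0 * v 1 - u 1 * v 0

theorem om_mulVec (A : Matrix (Fin 2) (Fin 2) (ZMod p)) (u v : V2 p) :
    om (A *ᵥ u) (A *ᵥ v) = A.det * om u v := by
  simp only [om, mulVec, dotProduct, Fin.sum_univ_two, det_fin_two]; ring

/-- The Heisenberg group. -/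
@[ext] structure Hs (p : ℕ) : Type where
  /-- the image in the central quotient -/
  u : V2 p
  /-- the central coordinate -/
  c : ZMod p

namespace Hs

instance : Mul (Hs p) := ⟨fun x y => ⟨x.u + y.u, x.c + y.c + om x.u y.u⟩⟩
instance : One (Hs p) := ⟨⟨0, 0⟩⟩
instance : Inv (Hs p) := ⟨fun x => ⟨-x.u, -x.c⟩⟩

@[simp] theorem mul_u (x y : Hs p) : (x * y).u = x.u + y.u := rfl
@[simp] theorem mul_c (x y : Hs p) : (x * y).c = x.c + y.c + om x.u y.u := rfl
@[simp] theorem one_u : (1 : Hs p).u = 0 := rfl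
@[simp] theorem one_c : (1 : Hs p).c = 0 := rfl
@[simp] theorem inv_u (x : Hs p) : x⁻¹.u = -x.u := rfl
@[simp] theorem inv_c (x : Hs p) : x⁻¹.c = -x.c := rfl

instance : Group (Hs p) := Group.ofLeftAxioms
  (fun x y z => Hs.ext (add_assoc ..) (by simp [om]; ring))
  (fun x => Hs.ext (zero_add _) (by simp [om]))
  fun x => Hs.ext (neg_add_cancel _) (by simp [om]; ring)

/-- The underlying set is a product. -/
def equiv (p : ℕ) : Hs p ≃ V2 p × ZMod p := ⟨fun x => (x.u, x.c), fun x => ⟨x.1, x.2⟩, fun _ => rfl, fun _ => rfl⟩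

theorem card (p : ℕ) : Nat.card (Hs p) = p ^ 3 := by
  rw [Nat.card_congr (equiv p), Nat.card_prod, Nat.card_fun, Nat.card_zmod, Nat.card_fin, pow_succ p 2]

instance [Fact p.Prime] : Finite (Hs p) :=
  Nat.finite_of_card_ne_zero (by rw [card]; exact pow_ne_zero _ (Fact.out : p.Prime).ne_zero)

theorem conj (s x : Hs p) : s * x * s⁻¹ = ⟨x.u, x.c + 2 * om s.u x.u⟩ :=
  Hs.ext (by simp) (by simp [om]; ring)

theorem pow (x : Hs p) (n : ℕ) : x ^ n = ⟨(n : ZMod p) • x.u, n * x.c⟩ := by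
  induction n with
  | zero => exact Hs.ext (by simp) (by simp)
  | succ n ih => rw [pow_succ, ih]; exact Hs.ext (by simp [add_smul]) (by simp [om]; ring)

end Hs

/-- The automorphism of the Heisenberg group given by a matrix. -/
def phi : GL2 p →* MulAut (Hs p) where
  toFun A :=
    { toFun := fun x => ⟨A.1 *ᵥ x.u, A.1.det * x.c⟩
      invFun := fun x => ⟨(A⁻¹).1 *ᵥ x.u, (A⁻¹).1.det * x.c⟩
      left_inv := fun x => Hs.ext (by simp only [mulVec_mulVec, Units.inv_mul, one_mulVec])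
        (by simp only [← mul_assoc, ← det_mul, Units.inv_mul, det_one, one_mul])
      right_inv := fun x => Hs.ext (by simp only [mulVec_mulVec, Units.mul_inv, one_mulVec])
        (by simp only [← mul_assoc, ← det_mul, Units.mul_inv, det_one, one_mul])
      map_mul' := fun x y => Hs.ext (mulVec_add A.1 x.u y.u) (by simp [om_mulVec]; ring) }
  map_one' := MulEquiv.ext fun x => Hs.ext (one_mulVec x.u) (by simp)
  map_mul' A B := MulEquiv.ext fun x => Hs.ext (mulVec_mulVec x.u A.1 B.1).symm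
    (show (A.1 * B.1).det * x.c = A.1.det * (B.1.det * x.c) by rw [det_mul, mul_assoc])

@[simp] theorem phi_u (A : GL2 p) (x : Hs p) : (phi A x).u = A.1 *ᵥ x.u := rfl
@[simp] theorem phi_c (A : GL2 p) (x : Hs p) : (phi A x).c = A.1.det * x.c := rfl
theorem phi_mk (A : GL2 p) (u : V2 p) (c : ZMod p) : phi A ⟨u, c⟩ = ⟨A.1 *ᵥ u, A.1.det * c⟩ := rfl

/-- The data of a saturated system: the outer automizer `W` and the set `R` of vectors whose plane
is radical. -/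
structure Dat [Fact p.Prime] (W : Subgroup (GL2 p)) (R : Set (V2 p)) : Prop where
  nd : ¬ p ∣ Nat.card W
  ne : ∀ u ∈ R, u ≠ 0
  inv : ∀ A ∈ W, ∀ u ∈ R, A.1 *ᵥ u ∈ R
  smul : ∀ a : ZMod p, a ≠ 0 → ∀ u ∈ R, a • u ∈ R
  diag : ∀ u ∈ R, ∀ l : ZMod p, l ≠ 0 → ∃ A ∈ W, A.1 *ᵥ u = l⁻¹ • u ∧ A.1.det = l

/-- At least three lines. -/
def Three (R : Set (V2 p)) : Prop :=
  ∃ u ∈ R, ∃ v ∈ R, ∃ w ∈ R, om u v ≠ 0 ∧ om u w ≠ 0 ∧ om v w ≠ 0

/-- The two coordinate lines. -/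
def R2 (p : ℕ) : Set (V2 p) := {u | u ≠ 0 ∧ (u 0 = 0 ∨ u 1 = 0)}

/-- The data differ by a change of basis. -/
def Eqv (W : Subgroup (GL2 p)) (R : Set (V2 p)) (W' : Subgroup (GL2 p)) (R' : Set (V2 p)) : Prop :=
  ∃ B : GL2 p, (∀ A, A ∈ W ↔ B * A * B⁻¹ ∈ W') ∧ ∀ u, u ∈ R ↔ B.1 *ᵥ u ∈ R'

section Grp

variable {G : Type*} [Group G]

/-- The matrices induced by conjugation in `G`. -/
def WG (j : Hs p →* G) : Subgroup (GL2 p) where
  carrier := {A | ∃ g : G, ∀ x, g * j x * g⁻¹ = j (phi A x)}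
  one_mem' := ⟨1, fun x => by simp⟩
  mul_mem' := by
    rintro A B ⟨g, hg⟩ ⟨h, hh⟩
    refine ⟨g * h, fun x => ?_⟩
    rw [map_mul, MulAut.mul_apply, ← hg, ← hh]; group
  inv_mem' := by
    rintro A ⟨g, hg⟩
    refine ⟨g⁻¹, fun x => ?_⟩
    have := hg (phi A⁻¹ x)
    rw [← MulAut.mul_apply, ← map_mul, mul_inv_cancel, map_one, MulAut.one_apply] at this
    rw [← this]; group

theorem mem_WG {j : Hs p →* G} {A : GL2 p} :
    A ∈ WG j ↔ ∃ g : G, ∀ x, g * j x * g⁻¹ = j (phi A x) := Iff.rfl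

/-- The nonzero vectors above which some element is conjugate in `G` to a central element. -/
def RG (j : Hs p →* G) : Set (V2 p) := {u | u ≠ 0 ∧ ∃ c d, IsConj (j ⟨u, c⟩) (j ⟨0, d⟩)}

/-- The data come from a finite group. -/
def Real (W : Subgroup (GL2 p)) (R : Set (V2 p)) : Prop :=
  ∃ (G : Type) (_ : Group G) (_ : Finite G) (j : Hs p →* G), Function.Injective j ∧
    ¬ p ^ 4 ∣ Nat.card G ∧ WG j = W ∧ RG j = R

/-- Generators of a Heisenberg group, with elements on three lines conjugate into the centre. -/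
def Tri (p : ℕ) (G : Type*) [Group G] : Prop :=
  ∃ x y z : G, x ^ p = 1 ∧ y ^ p = 1 ∧ z ^ p = 1 ∧ z ≠ 1 ∧ x * y = z * (y * x) ∧ z * x = x * z ∧
    z * y = y * z ∧ (∃ k : ℕ, IsConj x (z ^ k)) ∧ (∃ k : ℕ, IsConj y (z ^ k)) ∧
    ∃ a b c k : ℕ, ¬ p ∣ a ∧ ¬ p ∣ b ∧ IsConj (x ^ a * y ^ b * z ^ c) (z ^ k)

/-- The same for a subgroup given without generators. -/
def TriS (p : ℕ) (G : Type*) [Group G] : Prop :=
  ∃ S : Subgroup G, Nat.card S = p ^ 3 ∧ (∀ s ∈ S, s ^ p = 1) ∧ ∃ z ∈ S, (∀ s ∈ S, Commute z s) ∧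
    ∃ y₁ ∈ S, ∃ y₂ ∈ S, ∃ y₃ ∈ S, ¬ Commute y₁ y₂ ∧ ¬ Commute y₁ y₃ ∧ ¬ Commute y₂ y₃ ∧
      IsConj y₁ z ∧ IsConj y₂ z ∧ IsConj y₃ z

end Grp

end Cfsg.Lib.RV
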