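import Cfsg.Agent.RV.Heis
import Cfsg.Agent.Fus.Rk2Pull
import Cfsg.Agent.Fus.Normal
import Cfsg.Agent.Fus.Realize

/-! Saturated fusion systems over the Heisenberg group are determined by their matrix data. -/

set_option autoImplicit false

namespace Cfsg.Lib.RV

open Matrix Subgroup Cfsg.Lib.Fus FusionSystem

variable {p : ℕ} [hp : Fact p.Prime] {F E : FusionSystem (⊤ : Subgroup (Hs p))}

theorem mor_of_comp {Ω : Type*} [Group Ω] {S P Q : Subgroup Ω} {F : FusionSystem S} {g k l : Ω → Ω}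
    (hg : Mor F Q g) (hk : Mor F P k) (hl : ∀ x ∈ P, l x ∈ Q) (e : ∀ x ∈ P, g (l x) = k x) :
    Mor F P l := by
  obtain ⟨g', h1, h2, -⟩ := hg.exists_inv
  exact (hk.comp h1 fun x hx => e x hx ▸ mem_img_of_mem g (hl x hx)).congr fun x hx => by
    rw [Function.comp_apply, ← e x hx, h2 _ (hl x hx)]

/-- The matrices whose automorphism lies in the system. -/
def WF (F : FusionSystem (⊤ : Subgroup (Hs p))) : Subgroup (GL2 p) where
  carrier := {A | Mor F ⊤ (phi A)}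
  one_mem' := Mor.of_eqOn_id F le_rfl fun x _ => by simp
  mul_mem' := fun {A B} hA hB => (Mor.comp hB hA fun _ _ => trivial).congr fun x _ => by simp
  inv_mem' := fun {A} hA => mor_of_comp hA (Mor.id F le_rfl) (fun _ _ => trivial) fun x _ => by simp

/-- The nonzero vectors above which some element is conjugate to a central element. -/
def RF (F : FusionSystem (⊤ : Subgroup (Hs p))) : Set (V2 p) :=
  {u | u ≠ 0 ∧ ∃ c d, F.IsConjElt ⟨u, c⟩ ⟨0, d⟩}

/-- The plane above the line of `u`. -/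
def Vu (u : V2 p) : Subgroup (Hs p) where
  carrier := {x | om u x.u = 0}
  one_mem' := by simp [om]
  mul_mem' := fun {a b} ha hb => by
    simp only [Set.mem_ofPred_eq, om, Hs.mul_u, Pi.add_apply] at *; linear_combination ha + hb
  inv_mem' := fun {a} ha => by
    simp only [Set.mem_ofPred_eq, om, Hs.inv_u, Pi.neg_apply] at *; linear_combination -ha

theorem mem_Vu {u : V2 p} {x : Hs p} : x ∈ Vu u ↔ om u x.u = 0 := Iff.rfl

theorem smul_mem_Vu (u : V2 p) (a c : ZMod p) : (⟨a • u, c⟩ : Hs p) ∈ Vu u := by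
  simp [mem_Vu, om]; ring

theorem self_mem_Vu (u : V2 p) (c : ZMod p) : (⟨u, c⟩ : Hs p) ∈ Vu u := by simp [mem_Vu, om]; ring

theorem z_mem_Vu (u : V2 p) (c : ZMod p) : (⟨0, c⟩ : Hs p) ∈ Vu u := by simp [mem_Vu, om]

theorem om_smul_left (a : ZMod p) (u v : V2 p) : om (a • u) v = a * om u v := by simp [om]; ring

theorem om_smul_right (a : ZMod p) (u v : V2 p) : om u (a • v) = a * om u v := by simp [om]; ring

theorem exists_of_mem_Vu {u : V2 p} (hu : u ≠ 0) {x : Hs p} (hx : x ∈ Vu u) :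
    ∃ a c : ZMod p, x = ⟨a • u, c⟩ :=
  let ⟨_, hw⟩ := exists_om hu
  ⟨_, x.c, Hs.ext (eq_smul_of_om hw hx) rfl⟩

theorem Vu_eq {u v : V2 p} (hu : u ≠ 0) (hv : v ≠ 0) (h : om u v = 0) : Vu u = Vu v := by
  have k : ∀ {u v : V2 p}, u ≠ 0 → om v u = 0 → Vu u ≤ Vu v := fun hu h x hx => by
    obtain ⟨a, c, rfl⟩ := exists_of_mem_Vu hu hx
    rw [mem_Vu, om_smul_right, h, mul_zero]
  exact le_antisymm (k hu (by simp only [om] at h ⊢; linear_combination -h)) (k hv h)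

/-- A map that acts on the plane of `u` by the matrix with rows `α β` and `γ δ`. -/
def Has (F : FusionSystem (⊤ : Subgroup (Hs p))) (u : V2 p) (α β γ δ : ZMod p) : Prop :=
  ∃ f, Mor F (Vu u) f ∧ ∀ a c, f ⟨a • u, c⟩ = ⟨(α * a + β * c) • u, γ * a + δ * c⟩

theorem Has.mul {u : V2 p} (hu : u ≠ 0) {α β γ δ α' β' γ' δ' a b c d : ZMod p} (h : Has F u α β γ δ)
    (h' : Has F u α' β' γ' δ') (ea : a = α * α' + β * γ') (eb : b = α * β' + β * δ')
    (ec : c = γ * α' + δ * γ') (ed : d = γ * β' + δ * δ') : Has F u a b c d := by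
  obtain ⟨f, hf, e⟩ := h
  obtain ⟨g, hg, e'⟩ := h'
  refine ⟨f ∘ g, hg.comp hf fun x hx => ?_, fun x y => ?_⟩
  · obtain ⟨a, c, rfl⟩ := exists_of_mem_Vu hu hx
    rw [e']; exact smul_mem_Vu ..
  · rw [Function.comp_apply, e', e, ea, eb, ec, ed]; congr 1
    · congr 1; ring
    · ring

theorem lin {u : V2 p} {f : Hs p → Hs p} (hf : MulOn (Vu u) f) (a c c₀ : ZMod p) :
    f ⟨a • u, c⟩ = f ⟨u, c₀⟩ ^ a.val * f ⟨0, 1⟩ ^ (c - a * c₀).val := by
  rw [← hf.map_pow (self_mem_Vu u c₀), ← hf.map_pow (z_mem_Vu u 1),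
    ← hf.map_mul (pow_mem (self_mem_Vu u c₀) _) (pow_mem (z_mem_Vu u 1) _), Hs.pow_val, Hs.pow_val]
  congr 1
  exact Hs.ext (by simp) (by simp [om])

theorem exists_has {u : V2 p} (hu : u ≠ 0) {f : Hs p → Hs p} (hf : MulOn (Vu u) f)
    (hm : ∀ x ∈ Vu u, f x ∈ Vu u) :
    ∃ α β γ δ, ∀ a c, f ⟨a • u, c⟩ = ⟨(α * a + β * c) • u, γ * a + δ * c⟩ := by
  obtain ⟨α, γ, e1⟩ := exists_of_mem_Vu hu (hm _ (self_mem_Vu u 0))
  obtain ⟨β, δ, e2⟩ := exists_of_mem_Vu hu (hm _ (z_mem_Vu u 1))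
  refine ⟨α, β, γ, δ, fun a c => ?_⟩
  rw [lin hf a c 0, e1, e2, Hs.pow_val, Hs.pow_val]
  exact Hs.ext (v2_ext (by simp; ring) (by simp; ring)) (by simp [om]; ring)

variable (h2 : p ≠ 2)
include h2

theorem has_low {u : V2 p} (hu : u ≠ 0) (s : ZMod p) : Has F u 1 0 s 1 := by
  obtain ⟨w, hw⟩ := exists_om hu
  have t := two_ne h2
  refine ⟨_, Mor.conj F le_top (s := ⟨(-(s / 2)) • w, 0⟩) trivial, fun a c => ?_⟩
  rw [Hs.conj]
  refine Hs.ext (by simp) ?_
  simp only [om, Pi.smul_apply, smul_eq_mul] at hw ⊢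
  field_simp
  linear_combination (s * a) * hw

theorem mor_top {f : Hs p → Hs p} (hf : Mor F ⊤ f) :
    ∃ A ∈ WF F, ∃ s, ∀ x, f x = s * phi A x * s⁻¹ := by
  obtain ⟨s, A, e⟩ := Hs.aut_eq h2 (MonoidHom.mk' f fun x y => hf.map_mul trivial trivial)
    fun x y e => hf.injOn trivial trivial e
  exact ⟨A, mor_of_comp (Mor.conj F le_rfl (s := s) trivial) hf (fun _ _ => trivial)
    fun x _ => (e x).symm, s, e⟩

theorem centric_cases {Q : Subgroup (Hs p)} (h : centralizerIn ⊤ Q ≤ Q) :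
    Q = ⊤ ∨ ∃ u, u ≠ 0 ∧ Q = Vu u := by
  have hz : ∀ c, (⟨0, c⟩ : Hs p) ∈ Q := fun c => h (mem_centralizerIn.2 ⟨trivial, fun y _ =>
    (Hs.om_eq_zero h2).2 (by simp [om])⟩)
  have hm : ∀ x ∈ Q, ∀ a c, (⟨a • x.u, c⟩ : Hs p) ∈ Q := fun x hx a c => by
    convert mul_mem (pow_mem hx a.val) (hz (c - a * x.c)) using 1
    rw [Hs.pow_val]
    exact Hs.ext (by simp) (by simp [om])
  obtain ⟨x, hx, hu⟩ : ∃ x ∈ Q, x.u ≠ 0 := by
    by_contra! k
    simpa using k ⟨![1, 0], 0⟩ (h (mem_centralizerIn.2 ⟨trivial, fun y hy =>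
      (Hs.om_eq_zero h2).2 (by simp [k y hy, om])⟩))
  by_cases hQ : Q ≤ Vu x.u
  · refine Or.inr ⟨x.u, hu, le_antisymm hQ fun y hy => ?_⟩
    obtain ⟨a, c, rfl⟩ := exists_of_mem_Vu hu hy
    exact hm x hx a c
  · obtain ⟨y, hy, hxy⟩ := SetLike.not_le_iff_exists.1 hQ
    refine Or.inl (top_le_iff.1 fun w _ => ?_)
    have hd : om x.u y.u ≠ 0 := hxy
    convert mul_mem (hm x hx (om w.u y.u / om x.u y.u) 0) (hm y hy (om x.u w.u / om x.u y.u)
      (w.c - om w.u y.u / om x.u y.u * (om x.u w.u / om x.u y.u) * om x.u y.u)) using 1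
    refine Hs.ext (v2_ext ?_ ?_) (by simp [om_smul_left, om_smul_right]; ring) <;>
    · simp only [Hs.mul_u, Pi.add_apply, Pi.smul_apply, smul_eq_mul]
      field_simp
      simp only [om]; ring

omit h2 hp in
theorem top_pgroup : IsPGroup p (⊤ : Subgroup (Hs p)) := Hs.isPGroup.to_subgroup _

variable (hF : F.IsSaturated p)
include hF

omit h2 in
theorem ext_top {u : V2 p} (hu : u ≠ 0) {f : Hs p → Hs p} (hf : Mor F (Vu u) f) {α γ δ : ZMod p}
    (e : ∀ a c, f ⟨a • u, c⟩ = ⟨(α * a + 0 * c) • u, γ * a + δ * c⟩) :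
    ∃ g, Mor F ⊤ g ∧ ∀ x ∈ Vu u, g x = f x := by
  have hn : ∀ s : Hs p, s ∈ normalizer (Vu u : Set (Hs p)) := fun s =>
    mem_normalizer_of_finite fun y hy => by rw [Hs.conj]; exact hy
  have hN : F.IsFullyNormalized (Vu u) := ⟨le_top, fun Q _ => card_le_card_of_le fun s _ => ⟨trivial, hn s⟩⟩
  have hm : ∀ x ∈ Vu u, f x ∈ Vu u := fun x hx => by
    obtain ⟨a, c, rfl⟩ := exists_of_mem_Vu hu hx
    rw [e]; exact smul_mem_Vu ..
  have hα : α ≠ 0 := fun h => by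
    have h1 := hf.injOn (smul_mem_Vu u δ (-γ)) (one_mem _) (by
      rw [e, hf.map_one, h]; exact Hs.ext (by simp) (by simp; ring))
    have h3 := hf.injOn (smul_mem_Vu u 0 1) (one_mem _) (by
      rw [e, hf.map_one, (smul_eq_zero.1 (congrArg Hs.u h1)).resolve_right hu]
      exact Hs.ext (by simp) (by simp))
    exact one_ne_zero (congrArg Hs.c h3)
  obtain ⟨g, hg, e'⟩ := (isReceptive_iff.1 (sat_receptive top_pgroup hF hN)).2 _ f hf
    (hf.img_eq_of_maps hm)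
  refine ⟨g, hg.restrict fun s _ => mem_extd.2 ⟨trivial, hn s, ⟨(δ / α) • s.u, 0⟩, trivial, fun y hy => ?_⟩, e'⟩
  obtain ⟨a, c, rfl⟩ := exists_of_mem_Vu hu hy
  rw [Hs.conj, Hs.conj, e, e]
  refine Hs.ext (by simp) ?_
  simp only [om_smul_left, om_smul_right]
  field_simp; ring

theorem has_up {u : V2 p} (hu : u ∈ RF F) (t : ZMod p) : Has F u 1 t 0 1 := by
  obtain ⟨hu, c₀, d, h⟩ := hu
  obtain ⟨f, hf, e⟩ := isConjElt_iff.1 h
  have hC : F.IsFullyCentralized (zpowers (⟨0, d⟩ : Hs p)) := ⟨le_top, fun Q _ =>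
    card_le_card_of_le fun s _ => mem_centralizerIn.2 ⟨trivial, by
      rintro _ ⟨k, rfl⟩
      exact (((Hs.om_eq_zero h2).2 (by simp [om])).zpow_left k).eq⟩⟩
  obtain ⟨g, hg, e'⟩ := (isReceptive_iff.1 (sat_receptive_of_centralized top_pgroup hF hC)).2 _ f hf
    (by rw [img_zpowers hf.mulOn (mem_zpowers _), e])
  replace hg : Mor F (Vu u) g := hg.restrict fun x hx => centralizerIn_le_extd
    (mem_centralizerIn.2 ⟨trivial, by
      rintro _ ⟨k, rfl⟩
      exact (((Hs.om_eq_zero h2 (x := ⟨u, c₀⟩)).2 hx).zpow_left k).eq⟩)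
  have e1 : g ⟨u, c₀⟩ = ⟨0, d⟩ := (e' _ (mem_zpowers _)).trans e
  obtain ⟨X, hX⟩ : ∃ X, g ⟨0, 1⟩ = X := ⟨_, rfl⟩
  have hl : ∀ a c, g ⟨a • u, c⟩ = ⟨(c - a * c₀) • X.u, a * d + (c - a * c₀) * X.c⟩ := fun a c => by
    rw [lin hg.mulOn a c c₀, e1, hX, Hs.pow_val, Hs.pow_val]
    exact Hs.ext (by simp) (by simp [om])
  have hX0 : X.u ≠ 0 := fun h0 => by
    have h1 := hg.injOn (smul_mem_Vu u X.c (X.c * c₀ - d)) (one_mem _) (by
      rw [hl, hg.map_one, h0]; exact Hs.ext (by simp) (by simp; ring))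
    have h3 := hg.injOn (z_mem_Vu u 1) (one_mem _) (by
      rw [hX, hg.map_one]; exact Hs.ext h0 ((smul_eq_zero.1 (congrArg Hs.u h1)).resolve_right hu))
    exact one_ne_zero (congrArg Hs.c h3)
  obtain ⟨w, hw⟩ := exists_om hu
  obtain ⟨w', hw'⟩ := exists_om hX0
  have h3 : Has F u (1 - t * c₀) t (-(t * c₀ * c₀)) (1 + t * c₀) := by
    have k : ∀ a : ZMod p, om (a • u) w = a := fun a => by rw [om_smul_left, hw, mul_one]
    refine ⟨fun x => ⟨((1 - t * c₀) * om x.u w + t * x.c) • u, -(t * c₀ * c₀) * om x.u w + (1 + t * c₀) * x.c⟩,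
      mor_of_comp hg (hg.conj_comp (s := ⟨(-(t * d / 2)) • w', 0⟩) trivial) (fun _ _ => smul_mem_Vu ..)
        fun x hx => ?_, fun a c => by simp only [k]⟩
    obtain ⟨a, c, rfl⟩ := exists_of_mem_Vu hu hx
    have := two_ne h2
    simp only [k, hl, Hs.conj]
    refine Hs.ext (congrArg (· • X.u) (by ring)) ?_
    simp only [om, Pi.smul_apply, smul_eq_mul] at hw' ⊢
    field_simp
    linear_combination (-(t * d * (c - a * c₀))) * hw'
  exact (has_low h2 hu (-c₀)).mul hu (h3.mul hu (has_low h2 hu c₀) rfl rfl rfl rfl) (by ring) (by ring)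
    (by ring) (by ring)

theorem dat_of_sat : Dat (WF F) (RF F) where
  nd := fun h => by
    have : Finite (GL2 p) := inferInstance
    obtain ⟨⟨A, hA⟩, hAo⟩ := exists_prime_orderOf_dvd_card' p h
    let θ : GL2 p →* MulAut (⊤ : Subgroup (Hs p)) := (MulAut.congr topEquiv.symm).toMonoidHom.comp phi
    have hθ : ∀ B (x : (⊤ : Subgroup (Hs p))), (θ B x : Hs p) = phi B x := fun _ _ => rfl
    have h1 := (sat_aut_top top_pgroup hF).le_of_normalizes (U := zpowers (θ A))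
      (zpowers_le.2 (Mor.mem_autGroup hA (hθ A))) (isPGroup_zpowers_of_pow (j := 1) (by
        rw [pow_one, ← map_pow, show A ^ p = 1 from
          orderOf_dvd_iff_pow_eq_one.1 ((orderOf_mk A hA).symm.trans hAo).dvd, map_one]))
      (by rw [normalizer_eq_top]; exact le_top) (mem_zpowers _)
    obtain ⟨s, -, hs⟩ := mem_inn_iff.1 h1
    have : A = 1 := Units.ext (mulVec_injective (funext fun v => by
      have := congrArg Hs.u (hs ⟨⟨v, 0⟩, trivial⟩)
      rw [hθ, Hs.conj] at this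
      exact this.trans (one_mulVec v).symm))
    subst this
    exact hp.out.ne_one (hAo.symm.trans orderOf_one)
  ne := fun _ h => h.1
  inv := fun A hA u ⟨hu, c, d, h⟩ => ⟨fun e => hu (by
      rw [← one_mulVec u, ← Units.inv_mul A, ← mulVec_mulVec, e, mulVec_zero]), _, d,
    isConjElt_trans (isConjElt_symm (Mor.isConjElt hA (x := ⟨u, c⟩) trivial)) h⟩
  smul := fun a ha u ⟨hu, c, d, h⟩ => by
    obtain ⟨f, hf, e⟩ := isConjElt_iff.1 h
    have := hf.isConjElt (pow_mem (mem_zpowers _) a.val)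
    rw [hf.map_pow (mem_zpowers _), e, Hs.pow_val, Hs.pow_val, smul_zero] at this
    exact ⟨smul_ne_zero ha hu, _, _, this⟩
  diag := fun u hu l hl => by
    have w : ∀ a : ZMod p, a ≠ 0 → Has F u 0 a (-a⁻¹) 0 := fun a ha =>
      (has_up h2 hF hu a).mul hu.1 ((has_low h2 hu.1 (-a⁻¹)).mul hu.1 (has_up h2 hF hu a) rfl rfl rfl rfl)
        (by field_simp; ring) (by field_simp; ring) (by ring) (by field_simp; ring)
    obtain ⟨f, hf, e⟩ : Has F u l⁻¹ 0 0 l := (w l⁻¹ (inv_ne_zero hl)).mul hu.1 (w (-1) (by simp))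
      (by simp) (by simp) (by simp) (by simp)
    obtain ⟨g, hg, e'⟩ := ext_top hF hu.1 hf e
    obtain ⟨A, hA, s, hs⟩ := mor_top h2 hg
    have h1 := e' _ (smul_mem_Vu u 1 0)
    have h3 := e' _ (smul_mem_Vu u 0 1)
    rw [hs, e, Hs.conj] at h1 h3
    exact ⟨A, hA, by simpa using congrArg Hs.u h1, by simpa [om] using congrArg Hs.c h3⟩

omit hF h2 in
theorem mem_RF {u : V2 p} (hu : u ≠ 0) {f : Hs p → Hs p} (hf : Mor F (Vu u) f) {α β γ δ : ZMod p}
    (e : ∀ a c, f ⟨a • u, c⟩ = ⟨(α * a + β * c) • u, γ * a + δ * c⟩) (hβ : β ≠ 0) : u ∈ RF F := by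
  have := isConjElt_symm (hf.isConjElt (smul_mem_Vu u 0 β⁻¹))
  rw [e, mul_zero, zero_add, mul_inv_cancel₀ hβ, one_smul, zero_smul] at this
  exact ⟨hu, _, _, this⟩

theorem le_of (hE : E.IsSaturated p) (hW : WF F ≤ WF E) (hR : RF F ⊆ RF E) : F ≤ E := by
  have top : ∀ f, Mor F ⊤ f → Mor E ⊤ f := fun f hf => by
    obtain ⟨A, hA, s, hs⟩ := mor_top h2 hf
    exact (Mor.conj_comp (hW hA) (s := s) trivial).congr fun x _ => (hs x).symm
  refine sub_of_alperin_cr top_pgroup hF fun Q _ hQ _ _ f hf => ?_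
  rcases centric_cases h2 (hQ.2 Q (isConj_refl F le_top)) with rfl | ⟨u, hu, rfl⟩
  · exact top f hf.mor
  obtain ⟨α, β, γ, δ, e⟩ := exists_has hu hf.mor.mulOn fun x hx => hf.maps hx
  have k : ∀ {α γ δ}, Has F u α 0 γ δ → Has E u α 0 γ δ := fun ⟨g, hg, e⟩ => by
    obtain ⟨g', hg', e'⟩ := ext_top hF hu hg e
    exact ⟨g, ((top g' hg').restrict le_top).congr e', e⟩
  obtain ⟨g, hg, e'⟩ : Has E u α β γ δ := by
    by_cases hβ : β = 0
    · subst hβ; exact k ⟨f, hf.mor, e⟩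
    have hu' := mem_RF hu hf.mor e hβ
    have h3 := k ((has_up h2 hF hu' (-β)).mul hu ((has_low h2 hu ((1 - δ) / β)).mul hu ⟨f, hf.mor, e⟩
      rfl rfl rfl rfl) rfl (by field_simp; ring) rfl rfl)
    exact (has_low h2 hu (-((1 - δ) / β))).mul hu ((has_up h2 hE (hR hu') β).mul hu h3 rfl rfl rfl rfl)
      (by ring) (by field_simp; ring) (by ring) (by field_simp; ring)
  refine hg.congr fun x hx => ?_
  obtain ⟨a, c, rfl⟩ := exists_of_mem_Vu hu hx
  rw [e, e']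

theorem ess_cases {P : Subgroup (Hs p)} (hP : F.IsEssential p P) : ∃ u ∈ RF F, P = Vu u := by
  obtain ⟨h1, -, h3⟩ := (isEssential_iff_closure_extendable top_pgroup hF).1 hP
  obtain ⟨u, hu, rfl⟩ := (centric_cases h2 (hP.1.2 P (isConj_refl F le_top))).resolve_left h1.ne
  refine ⟨u, by_contra fun hu' => h3 (le_antisymm ((closure_le _).2 fun _ h => Extendable.mem h)
    fun θ hθ => subset_closure ?_), rfl⟩
  have hf := mor_of_mem_autGroup le_top hθ
  obtain ⟨α, β, γ, δ, e⟩ := exists_has hu hf.mulOn fun x hx => autFun_mem θ hx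
  obtain rfl : β = 0 := by_contra fun hβ => hu' (mem_RF hu hf e hβ)
  obtain ⟨g, hg, e'⟩ := ext_top hF hu hf e
  obtain ⟨g', hg', e''⟩ := hg.exists_perm
  exact ⟨⊤, g', h1, hg', fun x hx => by rw [e'' x trivial, e' x hx, pext_eq_autFun _ hx]⟩

theorem constrained (h : ∀ u ∈ RF F, ∀ v ∈ RF F, om u v = 0) : F.IsConstrained p := by
  by_cases h0 : ∃ u, u ∈ RF F
  · obtain ⟨u, hu⟩ := h0
    have hn : F.IsNormal (Vu u) := isNormal_of_essential top_pgroup hF fun P hP => by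
      rcases hP with rfl | hP
      · refine ⟨le_top, fun f hf x hx => ?_⟩
        obtain ⟨A, hA, s, hs⟩ := mor_top h2 hf.mor
        obtain ⟨a, c, rfl⟩ := exists_of_mem_Vu hu.1 hx
        rw [hs, Hs.conj, mem_Vu, phi_u, mulVec_smul, om_smul_right,
          h u hu _ ((dat_of_sat h2 hF).inv A hA u hu), mul_zero]
      · obtain ⟨v, hv, rfl⟩ := ess_cases h2 hF hP
        rw [Vu_eq hu.1 hv.1 (h u hu v hv)]
        exact ⟨le_rfl, fun f hf x hx => hf.maps hx⟩
    exact ⟨hF, _, hn, isCentric_of_isNormal hn fun x hx =>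
      (Hs.om_eq_zero h2).1 ((mem_centralizerIn.1 hx).2 _ (self_mem_Vu u 0))⟩
  · have hn : F.IsNormal ⊤ := isNormal_of_essential top_pgroup hF fun P hP => by
      rcases hP with rfl | hP
      · exact ⟨le_rfl, fun _ _ _ _ => trivial⟩
      · obtain ⟨v, hv, -⟩ := ess_cases h2 hF hP
        exact absurd ⟨v, hv⟩ h0
    exact ⟨hF, _, hn, isCentric_of_isNormal hn le_top⟩

end Cfsg.Lib.RV
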