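import Cfsg.Agent.RV.Defs
import Mathlib.GroupTheory.SpecificGroups.Cyclic
import Mathlib.LinearAlgebra.Matrix.Notation
import Mathlib.Tactic.LinearCombination
import Mathlib.Tactic.FieldSimp
import Mathlib.Tactic.Group

/-! The Heisenberg group: homomorphisms, automorphisms, recognition, change of basis. -/

set_option autoImplicit false

namespace Cfsg.Lib.RV

open Matrix Subgroup

variable {p : ℕ} [hp : Fact p.Prime] {G : Type*} [Group G]

theorem two_ne (h2 : p ≠ 2) : (2 : ZMod p) ≠ 0 := fun h =>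
  h2 ((Nat.prime_dvd_prime_iff_eq hp.out Nat.prime_two).1 ((ZMod.natCast_eq_zero_iff 2 p).1 h))

omit hp in
theorem v2_ext {u v : V2 p} (h0 : u 0 = v 0) (h1 : u 1 = v 1) : u = v := by
  funext i; fin_cases i; exacts [h0, h1]

theorem exists_om {u : V2 p} (hu : u ≠ 0) : ∃ w, om u w = 1 := by
  by_cases h : u 0 = 0
  · have h1 : u 1 ≠ 0 := fun h1 => hu (v2_ext h h1)
    exact ⟨![-(u 1)⁻¹, 0], by simp [om, h1]⟩
  · exact ⟨![0, (u 0)⁻¹], by simp [om, h]⟩

theorem eq_smul_of_om {u w v : V2 p} (hw : om u w = 1) (hv : om u v = 0) : v = om v w • u := by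
  simp only [om] at *
  refine v2_ext ?_ ?_ <;> simp only [Pi.smul_apply, smul_eq_mul]
  · linear_combination (-v 0) * hw + w 0 * hv
  · linear_combination (-v 1) * hw + w 1 * hv

namespace Hs

theorem comm (x y : Hs p) : x * y * x⁻¹ * y⁻¹ = ⟨0, 2 * om x.u y.u⟩ := by
  rw [conj]; exact Hs.ext (by simp) (by simp [om]; ring)

theorem pow_val (x : Hs p) (a : ZMod p) : x ^ a.val = ⟨a • x.u, a * x.c⟩ := by
  rw [pow, ZMod.natCast_zmod_val]

omit hp in
theorem pow_p (x : Hs p) : x ^ p = 1 := by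
  rw [pow, ZMod.natCast_self, zero_smul, zero_mul]; rfl

omit hp in
theorem isPGroup : IsPGroup p (Hs p) := IsPGroup.of_card (card p)

theorem om_eq_zero (h2 : p ≠ 2) {x y : Hs p} : Commute x y ↔ om x.u y.u = 0 := by
  rw [← commutatorElement_eq_one_iff_commute, commutatorElement_def, comm]
  exact ⟨fun h => (mul_eq_zero.1 (congrArg Hs.c h)).resolve_left (two_ne h2),
    fun h => by rw [h, mul_zero]; rfl⟩

theorem u_eq_zero (h2 : p ≠ 2) {x : Hs p} (h : ∀ y, Commute x y) : x.u = 0 := by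
  by_contra hu
  obtain ⟨w, hw⟩ := exists_om hu
  exact one_ne_zero (hw.symm.trans ((om_eq_zero h2).1 (h ⟨w, 0⟩)))

theorem hom_ext (h2 : p ≠ 2) {f g : Hs p →* G} (h0 : f ⟨![1, 0], 0⟩ = g ⟨![1, 0], 0⟩)
    (h1 : f ⟨![0, 1], 0⟩ = g ⟨![0, 1], 0⟩) (x : Hs p) : f x = g x := by
  have : x = (⟨![1, 0], 0⟩ : Hs p) ^ (x.u 0).val * (⟨![0, 1], 0⟩ : Hs p) ^ (x.u 1).val *
      ((⟨![1, 0], 0⟩ : Hs p) * ⟨![0, 1], 0⟩ * (⟨![1, 0], 0⟩ : Hs p)⁻¹ * (⟨![0, 1], 0⟩ : Hs p)⁻¹) ^
        ((x.c - x.u 0 * x.u 1) / 2).val := by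
    rw [comm, pow_val, pow_val, pow_val]
    have := two_ne h2
    exact Hs.ext (v2_ext (by simp) (by simp)) (by simp [om]; field_simp; ring)
  rw [this]
  simp only [map_mul, map_pow, map_inv, h0, h1]

theorem injective (h2 : p ≠ 2) {f : Hs p →* G} (h : f ⟨0, 1⟩ ≠ 1) : Function.Injective f := by
  have k : ∀ c : ZMod p, f ⟨0, c⟩ = 1 → c = 0 := fun c e => by_contra fun hc => h (by
    have := congrArg (· ^ (c⁻¹).val) e
    simpa only [← map_pow, pow_val, smul_zero, inv_mul_cancel₀ hc, one_pow] using this)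
  refine (injective_iff_map_eq_one f).2 fun x hx => ?_
  have hu : x.u = 0 := u_eq_zero h2 fun y => (om_eq_zero h2).2
    ((mul_eq_zero.1 (k _ (by rw [← comm]; simp [hx]))).resolve_left (two_ne h2))
  obtain ⟨u, c⟩ := x
  obtain rfl : u = 0 := hu
  rw [k c hx]; rfl

/-- Every injective endomorphism is a matrix automorphism followed by an inner one. -/
theorem aut_eq (h2 : p ≠ 2) (f : Hs p →* Hs p) (hf : Function.Injective f) :
    ∃ (s : Hs p) (A : GL2 p), ∀ x, f x = s * phi A x * s⁻¹ := by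
  have t := two_ne h2
  obtain ⟨X, hX⟩ : ∃ X, f ⟨![1, 0], 0⟩ = X := ⟨_, rfl⟩
  obtain ⟨Y, hY⟩ : ∃ Y, f ⟨![0, 1], 0⟩ = Y := ⟨_, rfl⟩
  have hd : om X.u Y.u ≠ 0 := fun h => by
    have := (om_eq_zero h2).1 (Commute.of_map hf (hX ▸ hY ▸ (om_eq_zero h2).2 h :
      Commute (f ⟨![1, 0], 0⟩) (f ⟨![0, 1], 0⟩)))
    simp [om] at this
  have hd' : X.u 0 * Y.u 1 - Y.u 0 * X.u 1 ≠ 0 := by rwa [mul_comm (Y.u 0)]
  refine ⟨⟨(Y.c / (2 * om X.u Y.u)) • X.u - (X.c / (2 * om X.u Y.u)) • Y.u, 0⟩,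
    GeneralLinearGroup.mkOfDetNeZero !![X.u 0, Y.u 0; X.u 1, Y.u 1] (by rwa [det_fin_two_of]),
    hom_ext h2 (g := (MulAut.conj _).toMonoidHom.comp (phi _).toMonoidHom) ?_ ?_⟩
  · rw [hX]
    refine ((conj _ _).trans (Hs.ext (v2_ext (by simp) (by simp)) ?_)).symm
    simp [om, mulVec, dotProduct] at hd ⊢
    field_simp; ring
  · rw [hY]
    refine ((conj _ _).trans (Hs.ext (v2_ext (by simp) (by simp)) ?_)).symm
    simp [om, mulVec, dotProduct] at hd ⊢
    field_simp; ring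

end Hs

theorem pw_add {g : G} (h : g ^ p = 1) (a b : ZMod p) : g ^ (a + b).val = g ^ a.val * g ^ b.val := by
  rw [ZMod.val_add, ← pow_add, ← pow_eq_pow_mod _ h]

theorem pw_mul {g : G} (h : g ^ p = 1) (a b : ZMod p) : g ^ (a * b).val = g ^ (a.val * b.val) := by
  rw [ZMod.val_mul, ← pow_eq_pow_mod _ h]

theorem pow_swap {x y z : G} (h : x * y = z * (y * x)) (hx : Commute z x) (hy : Commute z y) (m n : ℕ) :
    x ^ m * y ^ n = z ^ (m * n) * (y ^ n * x ^ m) := by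
  have k : ∀ n : ℕ, x * y ^ n = z ^ n * (y ^ n * x) := fun n => by
    induction n with
    | zero => simp
    | succ n ih =>
      rw [pow_succ y, ← mul_assoc, ih, mul_assoc, mul_assoc, h, ← mul_assoc (y ^ n) z,
        ← (hy.pow_right n).eq, pow_succ z]
      simp only [mul_assoc]
  induction m with
  | zero => simp
  | succ m ih =>
    rw [pow_succ' x, mul_assoc, ih, ← mul_assoc x, ← (hx.pow_left _).eq, mul_assoc, ← mul_assoc x, k,
      add_mul, one_mul, pow_add]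
    simp only [mul_assoc]

/-- The homomorphism given by generators. -/
def mkJ {x y z : G} (hx : x ^ p = 1) (hy : y ^ p = 1) (hz : z ^ p = 1) (h : x * y = z * (y * x))
    (zx : Commute z x) (zy : Commute z y) : Hs p →* G :=
  MonoidHom.mk' (fun w => x ^ (w.u 0).val * y ^ (2 * w.u 1).val * z ^ (w.c - w.u 0 * w.u 1).val)
    fun v w => by
      have e : (v * w).c - (v * w).u 0 * (v * w).u 1 + w.u 0 * (2 * v.u 1) =
          (v.c - v.u 0 * v.u 1) + (w.c - w.u 0 * w.u 1) := by simp [om]; ring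
      have e1 := congrArg (fun a : ZMod p => z ^ a.val) e
      simp only [pw_add hz, pw_mul hz] at e1
      generalize ((v * w).c - (v * w).u 0 * (v * w).u 1).val = c3 at *
      rw [Hs.mul_u, Pi.add_apply, Pi.add_apply, mul_add, pw_add hx, pw_add hy]
      generalize (v.c - v.u 0 * v.u 1).val = c1 at *
      generalize (w.c - w.u 0 * w.u 1).val = c2 at *
      generalize (2 * v.u 1).val = b1 at *
      generalize (2 * w.u 1).val = b2 at *
      generalize (v.u 0).val = a1 at *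
      generalize (w.u 0).val = a2 at *
      have c : ∀ (k m n : ℕ), Commute (z ^ k) (y ^ m * x ^ n * y ^ b2) := fun k m n =>
        (((zy.pow_right m).mul_right (zx.pow_right n)).mul_right (zy.pow_right _)).pow_left k
      calc _ = x ^ a1 * (x ^ a2 * y ^ b1 * y ^ b2) * z ^ c3 := by simp only [mul_assoc]
        _ = x ^ a1 * (y ^ b1 * x ^ a2 * y ^ b2) * (z ^ c3 * z ^ (a2 * b1)) := by
          rw [pow_swap h zx zy, mul_assoc (z ^ _), (c _ _ _).eq, (Commute.pow_pow_self z c3 _).eq]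
          simp only [mul_assoc]
        _ = _ := by
          have := (c c1 0 a2).eq
          rw [pow_zero, one_mul] at this
          rw [e1]
          simp only [mul_assoc] at this ⊢
          rw [← mul_assoc (y ^ b2), ← mul_assoc (x ^ a2), ← this]
          simp only [mul_assoc]

theorem mkJ_apply {x y z : G} {hx : x ^ p = 1} {hy : y ^ p = 1} {hz : z ^ p = 1} {h : x * y = z * (y * x)}
    {zx : Commute z x} {zy : Commute z y} (u : V2 p) (c : ZMod p) : mkJ hx hy hz h zx zy ⟨u, c⟩ =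
      x ^ (u 0).val * y ^ (2 * u 1).val * z ^ (c - u 0 * u 1).val := rfl

theorem Tri.three (h2 : p ≠ 2) (h : Tri p G) :
    ∃ j : Hs p →* G, Function.Injective j ∧ Three (RG j) := by
  obtain ⟨x, y, z, hx, hy, hz, z1, h, zx, zy, ⟨k, h1⟩, ⟨l, h3⟩, a, b, c, m, ha, hb, h4⟩ := h
  have t := two_ne h2
  change Commute z x at zx
  change Commute z y at zy
  have ha' : (a : ZMod p) ≠ 0 := mt (ZMod.natCast_eq_zero_iff a p).1 ha
  have hb' : (b : ZMod p) ≠ 0 := mt (ZMod.natCast_eq_zero_iff b p).1 hb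
  have hc : ∀ k : ℕ, mkJ hx hy hz h zx zy ⟨0, k⟩ = z ^ k := fun k => by
    simp [mkJ_apply, ← pow_eq_pow_mod _ hz]
  refine ⟨mkJ hx hy hz h zx zy, Hs.injective h2 (by simpa [mkJ_apply, ZMod.val_one] using z1),
    ![1, 0], ⟨by simp, 0, k, ?_⟩, ![0, 2⁻¹], ⟨by simp [t], 0, l, ?_⟩, ![a, b / 2],
    ⟨by simp [ha'], c + a * (b / 2), m, ?_⟩, by simp [om, t], by simp [om, t, hb'], by simp [om, t, ha']⟩
  · rw [hc]; simpa [mkJ_apply, ZMod.val_one] using h1
  · rw [hc]; simpa [mkJ_apply, ZMod.val_one, t] using h3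
  · rw [hc]
    simpa [mkJ_apply, mul_div_cancel₀ _ t, ← pow_eq_pow_mod _ hx, ← pow_eq_pow_mod _ hy,
      ← pow_eq_pow_mod _ hz] using h4

theorem exists_equiv (h2 : p ≠ 2) (hc : Nat.card G = p ^ 3) (he : ∀ g : G, g ^ p = 1) {x y : G}
    (h : ¬ Commute x y) : Nonempty (Hs p ≃* G) := by
  have : Finite G := Nat.finite_of_card_ne_zero (hc ▸ pow_ne_zero _ hp.out.ne_zero)
  have hG : IsPGroup p G := IsPGroup.of_card hc
  have : Nontrivial G := not_subsingleton_iff_nontrivial.1 fun _ => h (Subsingleton.elim _ _)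
  have hz : x * y * x⁻¹ * y⁻¹ ∈ center G := by
    have := hG.center_nontrivial
    obtain ⟨n, hn0, hn⟩ := (hG.to_subgroup (center G)).nontrivial_iff_card.1 this
    have e := card_eq_card_quotient_mul_card_subgroup (center G)
    obtain ⟨n, rfl⟩ : ∃ m, n = m + 1 := ⟨n - 1, by omega⟩
    have hd : Nat.card (G ⧸ center G) ∣ p ^ 2 := by
      rw [hc, hn, pow_succ, pow_succ p n, ← mul_assoc] at e
      exact Dvd.intro _ (Nat.eq_of_mul_eq_mul_right hp.out.pos e).symm
    have : IsMulCommutative (G ⧸ center G) := by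
      obtain ⟨k, hk, e⟩ := (Nat.dvd_prime_pow hp.out).1 hd
      rcases hk.eq_or_lt with rfl | hk
      · exact IsPGroup.isMulCommutative_of_card_eq_prime_sq e
      · have := isCyclic_of_card_dvd_prime (α := G ⧸ center G) (p := p)
          (e ▸ (pow_dvd_pow p (Nat.le_of_lt_succ hk)).trans (pow_one p).dvd)
        infer_instance
    rw [← QuotientGroup.eq_one_iff]
    simp only [QuotientGroup.mk_mul, QuotientGroup.mk_inv]
    rw [mul_comm' (x : G ⧸ center G) y]; group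
  have k : ∀ g, Commute (x * y * x⁻¹ * y⁻¹) g := fun g => (mem_center_iff.1 hz g).symm
  let j := mkJ (he x) (he y) (he _) (by group) (k x) (k y)
  have hj : Function.Injective j := Hs.injective h2 (by
    simpa [j, mkJ_apply, ZMod.val_one] using
      (mt commutatorElement_eq_one_iff_commute.1 h : ¬ x * y * x⁻¹ * y⁻¹ = 1))
  exact ⟨MulEquiv.ofBijective j (hj.bijective_of_nat_card_le (by rw [hc, Hs.card]))⟩

theorem TriS.three (h2 : p ≠ 2) (h : TriS p G) :
    ∃ j : Hs p →* G, Function.Injective j ∧ Three (RG j) := by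
  obtain ⟨S, hc, he, z, hz, zc, x, hx, y, hy, w, hw, h1, h3, h4, c1, c2, c3⟩ := h
  obtain ⟨e⟩ := exists_equiv h2 hc (fun g => Subtype.ext (he g g.2)) (x := ⟨x, hx⟩) (y := ⟨y, hy⟩)
    fun h => h1 (h.map S.subtype)
  let j := S.subtype.comp e.toMonoidHom
  have hj : Function.Injective j := Subtype.val_injective.comp e.injective
  have s : ∀ g ∈ S, ∃ v, j v = g := fun g hg => ⟨e.symm ⟨g, hg⟩, by simp [j]⟩
  obtain ⟨⟨u, d⟩, rfl⟩ := s z hz
  obtain rfl : u = 0 := Hs.u_eq_zero h2 (x := ⟨u, d⟩) fun v => Commute.of_map hj (zc _ (e v).2)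
  obtain ⟨x, rfl⟩ := s x hx
  obtain ⟨y, rfl⟩ := s y hy
  obtain ⟨w, rfl⟩ := s w hw
  have k : ∀ {a b : Hs p}, ¬ Commute (j a) (j b) → om a.u b.u ≠ 0 := fun h e =>
    h (((Hs.om_eq_zero h2).2 e).map j)
  exact ⟨j, hj, x.u, ⟨fun e => k h1 (by simp [e, om]), _, _, c1⟩, y.u,
    ⟨fun e => k h1 (by simp [e, om]), _, _, c2⟩, w.u, ⟨fun e => k h3 (by simp [e, om]), _, _, c3⟩,
    k h1, k h3, k h4⟩

section Eqv

variable {W W' : Subgroup (GL2 p)} {R R' : Set (V2 p)}

omit hp in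
theorem Real.of_eqv (h : Eqv W R W' R') (h' : Real W' R') : Real W R := by
  obtain ⟨B, h1, h3⟩ := h
  obtain ⟨G, _, _, j, hj, h4, rfl, rfl⟩ := h'
  refine ⟨G, inferInstance, inferInstance, j.comp (phi B).toMonoidHom, hj.comp (phi B).injective, h4,
    Subgroup.ext fun A => ?_, Set.ext fun u => ?_⟩
  · rw [h1]
    refine exists_congr fun g => ⟨fun h x => ?_, fun h x => ?_⟩
    · simpa using h ((phi B)⁻¹ x)
    · simpa using h (phi B x)
  · rw [h3]
    have hB : ∀ c, B.1.det * ((B⁻¹).1.det * c) = c := fun c => by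
      rw [← mul_assoc, ← det_mul, Units.mul_inv, det_one, one_mul]
    refine and_congr (not_congr ⟨fun e => by rw [e, mulVec_zero], fun e => ?_⟩)
      ⟨fun ⟨c, d, h⟩ => ⟨_, _, by simpa [phi_mk] using h⟩,
        fun ⟨c, d, h⟩ => ⟨(B⁻¹).1.det * c, (B⁻¹).1.det * d, ?_⟩⟩
    · rw [← one_mulVec u, ← Units.inv_mul B, ← mulVec_mulVec, e, mulVec_zero]
    · simpa only [MonoidHom.comp_apply, MulEquiv.coe_toMonoidHom, phi_mk, hB, mulVec_zero] using h

theorem Dat.exists_two (h : Dat W R) {u v : V2 p} (hu : u ∈ R) (hv : v ∈ R) (huv : om u v ≠ 0)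
    (h3 : ¬ Three R) : ∃ W', Eqv W R W' (R2 p) ∧ Dat W' (R2 p) := by
  let C : GL2 p := GeneralLinearGroup.mkOfDetNeZero !![u 0, v 0; u 1, v 1]
    (by rwa [det_fin_two_of, mul_comm (v 0)])
  have hC : ∀ w : V2 p, C.1 *ᵥ w = w 0 • u + w 1 • v := fun w =>
    v2_ext (by simp [C, mulVec, dotProduct]; ring) (by simp [C, mulVec, dotProduct]; ring)
  have e1 : ∀ w, C.1 *ᵥ (C⁻¹).1 *ᵥ w = w := fun w => by rw [mulVec_mulVec, Units.mul_inv, one_mulVec]
  have e2 : ∀ w, (C⁻¹).1 *ᵥ C.1 *ᵥ w = w := fun w => by rw [mulVec_mulVec, Units.inv_mul, one_mulVec]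
  have hR : ∀ w, C.1 *ᵥ w ∈ R ↔ w ∈ R2 p := fun w => by
    refine ⟨fun hw => ⟨fun e => h.ne _ hw (by rw [e, mulVec_zero]), by_contra fun e => ?_⟩, ?_⟩
    · rw [not_or] at e
      refine h3 ⟨u, hu, v, hv, _, hw, huv, fun k => mul_ne_zero e.2 huv ?_, fun k => mul_ne_zero e.1 huv ?_⟩
      · rw [hC] at k; simp only [om, Pi.add_apply, Pi.smul_apply, smul_eq_mul] at k ⊢
        linear_combination k
      · rw [hC] at k; simp only [om, Pi.add_apply, Pi.smul_apply, smul_eq_mul] at k ⊢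
        linear_combination -k
    · rintro ⟨h0, e | e⟩ <;> rw [hC, e, zero_smul]
      · rw [zero_add]; exact h.smul _ (fun k => h0 (v2_ext e k)) _ hv
      · rw [add_zero]; exact h.smul _ (fun k => h0 (v2_ext k e)) _ hu
  refine ⟨W.comap (MulAut.conj C).toMonoidHom, ⟨C⁻¹, fun A => ?_, fun w => by rw [← hR, e1]⟩, ?_,
    fun w hw => hw.1, fun A hA w hw => ?_, fun a ha w hw => ?_, fun w hw l hl => ?_⟩
  · simp [mul_assoc]
  · rw [comap_equiv_eq_map_symm', card_map_of_injective (MulEquiv.injective _)]; exact h.nd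
  · have := h.inv _ hA _ ((hR w).2 hw)
    rw [← hR]
    simpa [← mulVec_mulVec, -coe_units_inv, e2] using this
  · rw [← hR, mulVec_smul]; exact h.smul a ha _ ((hR w).2 hw)
  · obtain ⟨A, hA, k1, k2⟩ := h.diag _ ((hR w).2 hw) l hl
    refine ⟨C⁻¹ * A * C, by simpa [mul_assoc] using hA, ?_, ?_⟩
    · rw [Units.val_mul, Units.val_mul, ← mulVec_mulVec, ← mulVec_mulVec, k1, mulVec_smul, e2]
    · rw [Units.val_mul, Units.val_mul, det_mul, det_mul, mul_right_comm, ← det_mul, Units.inv_mul,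
        det_one, one_mul, k2]

end Eqv

end Cfsg.Lib.RV
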