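import Cfsg.Agent.RV.Defs
import Cfsg.Agent.Local.TameGL2

/-!
The matrix data with at least three radical planes: the possible primes and uniqueness for the
primes `3`, `5` and `13`.
-/

set_option autoImplicit false

namespace Cfsg.Lib.RV

open Matrix Cfsg.Lib.Class
open scoped MatrixGroups

variable {p : ℕ}

theorem pow_mulVec {A : GL2 p} {u : V2 p} {c : ZMod p} (h : A.1 *ᵥ u = c • u) (k : ℕ) :
    (A ^ k).1 *ᵥ u = c ^ k • u := by
  induction k with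
  | zero => simp
  | succ k ih => rw [pow_succ, Units.val_mul, ← mulVec_mulVec, h, mulVec_smul, ih, smul_smul, pow_succ']

theorem primes {p : ℕ} [hp : Fact p.Prime] {W : Subgroup (GL2 p)} {R : Set (V2 p)} (h : Dat W R)
    (h3 : Three R) : p = 2 ∨ p = 3 ∨ p = 5 ∨ p = 7 ∨ p = 13 := by
  obtain ⟨g, hg⟩ := IsCyclic.exists_ofOrder_eq_natCard (α := (ZMod p)ˣ)
  rw [Nat.card_eq_fintype_card, ZMod.card_units] at hg
  have key : ∀ u ∈ R, ∃ A ∈ W, A.1 *ᵥ u = (g : ZMod p)⁻¹ • u ∧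
      ∀ k, ProjGenLinGroup.mk A ^ k = 1 → p - 1 ∣ 3 * k := fun u hu => by
    obtain ⟨A, hA, h1, h2⟩ := h.diag u hu g g.ne_zero
    refine ⟨A, hA, h1, fun k hk => ?_⟩
    rw [← map_pow, mk_eq_mob, mob_eq_one_iff] at hk
    have e1 := pow_mulVec h1 k
    have e2 : (A ^ k).1.det = (g : ZMod p) ^ k := by rw [Units.val_pow_eq_pow_val, det_pow, h2]
    have e3 : (A ^ k).1 *ᵥ u = (A ^ k).1 0 0 • u := by
      ext i
      fin_cases i <;> simp [mulVec, dotProduct, Fin.sum_univ_two, -Units.val_pow_eq_pow_val, hk.1, hk.2.1,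
        hk.2.2]
    have e4 : (A ^ k).1 0 0 = (g : ZMod p)⁻¹ ^ k := smul_left_injective _ (h.ne u hu) (e3.symm.trans e1)
    rw [det_fin_two, hk.1, zero_mul, sub_zero, ← hk.2.2, e4] at e2
    rw [← hg, orderOf_dvd_iff_pow_eq_one, ← Units.val_inj, Units.val_pow_eq_pow_val, Units.val_one,
      pow_mul', pow_three, ← mul_assoc]
    nth_rewrite 1 [← e2]
    rw [inv_pow]
    field_simp
  have hd : p - 1 ∣ 6 ∨ p - 1 ∣ 9 ∨ p - 1 ∣ 12 ∨ p - 1 ∣ 15 := by
    by_cases h6 : p - 1 ∣ 6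
    · exact Or.inl h6
    obtain ⟨u, hu, v, hv, w, hw, uv, uw, vw⟩ := h3
    let x : Fin 3 → V2 p := ![u, v, w]
    have hx : ∀ i, x i ∈ R := fun i => by fin_cases i <;> assumption
    have ne : ∀ {a b : V2 p} (ha : a ≠ 0) (hb : b ≠ 0), om a b ≠ 0 →
        Projectivization.mk (ZMod p) a ha ≠ Projectivization.mk (ZMod p) b hb := fun ha hb hab e => by
      obtain ⟨c, rfl⟩ := (Projectivization.mk_eq_mk_iff' _ _ _ _ _).1 e
      exact hab (by simp [om]; ring)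
    have k := TameGL2.three_points p (W.map ProjGenLinGroup.mk)
      (fun e => h.nd (e.trans (Subgroup.card_map_dvd _ _)))
      (fun i => Projectivization.mk _ (x i) (h.ne _ (hx i))) (fun i j e => by
        fin_cases i <;> fin_cases j <;> first
          | rfl
          | exact absurd e (ne _ _ (by assumption))
          | exact absurd e.symm (ne _ _ (by assumption)))
      (fun i => by
        obtain ⟨A, hA, h1, h2⟩ := key _ (hx i)
        refine ⟨_, ⟨A, hA, rfl⟩, ?_, fun e => h6 (h2 2 e)⟩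
        rw [mk_eq_mob, mob_smul_mk, Projectivization.mk_eq_mk_iff']
        refine ⟨(g : ZMod p)⁻¹, ?_⟩
        rw [← h1]
        ext i
        fin_cases i <;> simp [mulVec, dotProduct, Fin.sum_univ_two])
    obtain ⟨A, hA, -, h2⟩ := key u hu
    rcases k with k | ⟨-, k⟩
    · rcases k _ ⟨A, hA, rfl⟩ with e | e | e
      · exact Or.inl (h2 2 e)
      · exact Or.inr (Or.inl (h2 3 e))
      · exact Or.inr (Or.inr (Or.inr (h2 5 e)))
    · rcases k _ ⟨A, hA, rfl⟩ with e | e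
      · exact Or.inr (Or.inl (h2 3 e))
      · exact Or.inr (Or.inr (Or.inl (h2 4 e)))
  have hb : p ≤ 16 := by
    rcases hd with e | e | e | e <;> have := Nat.le_of_dvd (by norm_num) e <;> omega
  have hq := hp.out
  clear h h3 key hg g hp
  interval_cases p <;> simp_all (config := {decide := true})

namespace Mat

/-- Matrices as tuples. -/
abbrev Q (p : ℕ) : Type := ZMod p × ZMod p × ZMod p × ZMod p

/-- The product of tuples. -/
def mu (x y : Q p) : Q p :=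
  (x.1 * y.1 + x.2.1 * y.2.2.1, x.1 * y.2.1 + x.2.1 * y.2.2.2,
    x.2.2.1 * y.1 + x.2.2.2 * y.2.2.1, x.2.2.1 * y.2.1 + x.2.2.2 * y.2.2.2)

theorem mu_eq_1' : type_of% @mu.eq_1 := @mu.eq_1

/-- The matrix of a tuple. -/
def toM (x : Q p) : Matrix (Fin 2) (Fin 2) (ZMod p) := !![x.1, x.2.1; x.2.2.1, x.2.2.2]

theorem toM_eq_1' : type_of% @toM.eq_1 := @toM.eq_1

/-- The tuple of a matrix. -/
def ofM (A : Matrix (Fin 2) (Fin 2) (ZMod p)) : Q p := (A 0 0, A 0 1, A 1 0, A 1 1)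

theorem ofM_eq_1' : type_of% @ofM.eq_1 := @ofM.eq_1

theorem toM_ofM (A : Matrix (Fin 2) (Fin 2) (ZMod p)) : toM (ofM A) = A := (eta_fin_two A).symm

theorem ofM_toM (x : Q p) : ofM (toM x) = x := rfl

theorem toM_inj {x y : Q p} (h : toM x = toM y) : x = y := by rw [← ofM_toM x, h, ofM_toM]

theorem toM_mu (x y : Q p) : toM (mu x y) = toM x * toM y := (mul_fin_two ..).symm

theorem m_ext {a b c d a' b' c' d' : ZMod p} (ha : a = a') (hb : b = b') (hc : c = c') (hd : d = d') :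
    !![a, b; c, d] = !![a', b'; c', d'] := by rw [ha, hb, hc, hd]

/-- Application to an evaluated argument. -/
def fz (x : ZMod p) (f : ZMod p → Q p) : Q p :=
  Nat.casesOn x.val (f ((0 : ℕ) : ZMod p)) fun k => f ((k + 1 : ℕ) : ZMod p)

theorem fz_eq_1' : type_of% @fz.eq_1 := @fz.eq_1

theorem fz_eq [NeZero p] (x : ZMod p) (f : ZMod p → Q p) : fz x f = f x := by
  conv_rhs => rw [← ZMod.natCast_zmod_val x]
  unfold fz
  cases x.val <;> rfl

/-- The value of a word. -/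
def ev (gs : List (Q p)) (w : List ℕ) : Q p :=
  w.foldl (fun (k : Q p → Q p) i x => (fun y : Q p => fz y.1 fun a => fz y.2.1 fun b => fz y.2.2.1 fun c =>
    fz y.2.2.2 fun d => k (a, b, c, d)) (mu (gs.getD i (1, 0, 0, 1)) x)) id (1, 0, 0, 1)

theorem ev_eq_1' : type_of% @ev.eq_1 := @ev.eq_1

theorem ev_eq [NeZero p] (gs : List (Q p)) (w : List ℕ) :
    ev gs w = w.foldr (fun i x => mu (gs.getD i (1, 0, 0, 1)) x) (1, 0, 0, 1) := by
  have : ∀ k : Q p → Q p, w.foldl (fun (k : Q p → Q p) i x => k (mu (gs.getD i (1, 0, 0, 1)) x)) k (1, 0, 0, 1) =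
      k (w.foldr (fun i x => mu (gs.getD i (1, 0, 0, 1)) x) (1, 0, 0, 1)) := by
    induction w with
    | nil => exact fun _ => rfl
    | cons i w ih => exact fun k => ih _
  simp only [ev, fz_eq]
  exact this id

/-- A repeated eigenvalue, but not scalar. -/
def Bad (x : Q p) : Prop :=
  (x.1 + x.2.2.2) * (x.1 + x.2.2.2) = 4 * (x.1 * x.2.2.2 - x.2.1 * x.2.2.1) ∧
    ¬ (x.2.1 = 0 ∧ x.2.2.1 = 0 ∧ x.1 = x.2.2.2)

theorem Bad_eq_1' : type_of% @Bad.eq_1 := @Bad.eq_1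

instance (x : Q p) : Decidable (Bad x) := by unfold Bad; infer_instance

/-- The tuple is the matrix of an element of `W`. -/
def In (W : Subgroup (GL2 p)) (x : Q p) : Prop := ∃ g ∈ W, g.1 = toM x

theorem In_eq_1' : type_of% @In.eq_1 := @In.eq_1

variable {W W' : Subgroup (GL2 p)} {R R' : Set (V2 p)}

theorem In.one : In W (1, 0, 0, 1) := ⟨1, W.one_mem, one_fin_two⟩

theorem In.mul {x y : Q p} (hx : In W x) (hy : In W y) : In W (mu x y) := by
  obtain ⟨g, hg, e⟩ := hx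
  obtain ⟨k, hk, f⟩ := hy
  exact ⟨g * k, W.mul_mem hg hk, by rw [Units.val_mul, e, f, toM_mu]⟩

theorem In.of {g : GL2 p} (hg : g ∈ W) : In W (ofM g.1) := ⟨g, hg, (toM_ofM _).symm⟩

theorem In.mem {g : GL2 p} (hg : In W (ofM g.1)) : g ∈ W := by
  obtain ⟨k, hk, e⟩ := hg
  rwa [← Units.ext (e.trans (toM_ofM _))]

theorem In.ev [NeZero p] {gs : List (Q p)} (h : ∀ x ∈ gs, In W x) (w : List ℕ) : In W (ev gs w) := by
  rw [ev_eq]
  induction w with
  | nil => exact In.one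
  | cons i w ih =>
    refine In.mul ?_ ih
    rw [List.getD_eq_getElem?_getD]
    cases e : gs[i]? with
    | none => exact In.one
    | some x => exact h x (List.mem_of_getElem? e)

theorem In.pow {a d : ZMod p} (h : In W (a, 0, 0, d)) (k : ℕ) : In W (a ^ k, 0, 0, d ^ k) := by
  induction k with
  | zero => simpa using In.one
  | succ k ih => simpa [mu, pow_succ] using ih.mul h

theorem card_of_list {L : List (Q p)} (h : ∀ x, In W x ↔ x ∈ L) : Nat.card W = L.toFinset.card := by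
  rw [← Nat.subtype_card L.toFinset (p := In W) fun x => by rw [h, List.mem_toFinset]]
  refine Nat.card_congr (Equiv.ofBijective (fun g => ⟨ofM g.1.1, In.of g.2⟩) ⟨fun g k e => ?_, ?_⟩)
  · exact Subtype.ext (Units.ext (by
      rw [← toM_ofM g.1.1, show ofM g.1.1 = ofM k.1.1 from Subtype.ext_iff.1 e, toM_ofM]))
  · rintro ⟨x, g, hg, e⟩
    exact ⟨⟨g, hg⟩, Subtype.ext (by show ofM g.1 = x; rw [e, ofM_toM])⟩

/-- The finite checks common to the three primes. -/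
structure Chk (li : ZMod p) (A3 : Q p) (T : List (Q p)) (ws1 ws2 cw : List (List ℕ)) : Prop where
  two : (2 : ZMod p) ≠ 0
  inv : li * 2 = 1
  ne : li ≠ 4
  tr : A3.1 + A3.2.2.2 = li + 4
  det : A3.1 * A3.2.2.2 - A3.2.1 * A3.2.2.1 = 2
  c1 : ∀ a b, a + b = li → ∀ c d, c + d = li → a * d - b * c = 2 →
    (a, b, c, d) = A3 ∨ ∃ w ∈ ws1, Bad (ev [(li, 0, 0, 4), (a, b, c, d)] w)
  c2 : ∀ a d, a + d = li + 4 → ∀ b c, a * d - b * c = 2 →
    (a, b, c, d) ∈ T ∨ ∃ w ∈ ws2, Bad (ev [(li, 0, 0, 4), A3, (a, b, c, d)] w)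
  c3 : ∀ t ∈ T, ∀ x y, t.1 * x + t.2.1 * y = li * x → t.2.2.1 * x + t.2.2.2 * y = li * y →
    ∃ w ∈ cw.map (ev [(li, 0, 0, 4), A3]), ∃ c, (x = c * w.1 ∧ y = c * w.2.2.1) ∨
      (x = c * (w.1 + w.2.1) ∧ y = c * (w.2.2.1 + w.2.2.2))

/-- The finite checks for the normaliser of the set of axes. -/
structure Chk' (li : ZMod p) (A3 : Q p) (T : List (Q p)) (cw : List (List ℕ)) (wB : List ℕ) : Prop where
  wB : ev [(li, 0, 0, 4), A3] wB = (4, 0, 0, li)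
  c4 : ∀ t ∈ T, ∃ w ∈ cw.map (ev [(li, 0, 0, 4), A3]), mu t w = mu w (li, 0, 0, 4)
  c5 : ∀ a d, a * d ≠ 0 → (∃ t ∈ T, mu (a, 0, 0, d) A3 = mu t (a, 0, 0, d)) →
    ∃ i ∈ List.range p, ∃ j ∈ List.range p, a = li ^ i * 4 ^ j ∧ d = 4 ^ i * li ^ j

variable [hp : Fact p.Prime]

theorem not_bad (h2 : (2 : ZMod p) ≠ 0) (hW : ¬ p ∣ Nat.card W) {x : Q p} (hx : In W x) : ¬ Bad x := by
  obtain ⟨a, b, c, d⟩ := x
  obtain ⟨g, hg, e⟩ := hx
  rintro ⟨h1, h3⟩
  dsimp only at h1 h3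
  obtain ⟨s, hs⟩ : ∃ s, a + d = 2 * s := ⟨(a + d) / 2, by field_simp⟩
  have hd : a * d - b * c = s * s := by
    apply mul_left_cancel₀ (mul_ne_zero h2 h2)
    rw [hs] at h1
    linear_combination -h1
  have s0 : s ≠ 0 := by
    have := g.det_ne_zero
    rw [e, toM, det_fin_two_of, hd] at this
    exact left_ne_zero_of_mul this
  have key : ∀ k : ℕ, (g ^ (k + 1)).1 = !![s ^ (k + 1) + (k + 1) * s ^ k * (a - s), (k + 1) * s ^ k * b;
      (k + 1) * s ^ k * c, s ^ (k + 1) + (k + 1) * s ^ k * (d - s)] := by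
    intro k
    induction k with
    | zero => rw [zero_add, pow_one, e]; simp [toM]
    | succ k ih =>
      rw [pow_succ g, Units.val_mul, ih, e, toM, mul_fin_two]
      obtain rfl : d = 2 * s - a := by linear_combination hs
      refine m_ext ?_ ?_ ?_ ?_ <;> push_cast
      · linear_combination (-(k + 1) * s ^ k) * hd
      · ring
      · ring
      · linear_combination (-(k + 1) * s ^ k) * hd
  obtain ⟨k, hk⟩ : ∃ k, Nat.card W = k + 1 := Nat.exists_eq_succ_of_ne_zero fun e => hW (e ▸ dvd_zero p)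
  have h4 : g ^ (k + 1) = 1 := by
    rw [← hk]; exact congrArg Subtype.val (pow_card_eq_one' (x := (⟨g, hg⟩ : W)))
  have h5 : ((k : ZMod p) + 1) * s ^ k ≠ 0 := by
    refine mul_ne_zero (fun e => hW ?_) (pow_ne_zero _ s0)
    rw [hk, ← ZMod.natCast_eq_zero_iff]
    exact_mod_cast e
  have h6 := key k
  rw [h4, Units.val_one] at h6
  have e00 := congrFun (congrFun h6 0) 0
  have e11 := congrFun (congrFun h6 1) 1
  refine h3 ⟨mul_left_cancel₀ h5 ?_, mul_left_cancel₀ h5 ?_, mul_left_cancel₀ h5 ?_⟩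
  · simpa using (congrFun (congrFun h6 0) 1).symm
  · simpa using (congrFun (congrFun h6 1) 0).symm
  · simp only [one_apply_eq, of_apply, cons_val', cons_val_zero, cons_val_one, cons_val_fin_one] at e00 e11
    linear_combination e11 - e00

theorem transport (h : Dat W R) (B : GL2 p) : ∃ (W₁ : Subgroup (GL2 p)) (R₁ : Set (V2 p)), Dat W₁ R₁ ∧
    Nat.card W₁ = Nat.card W ∧ (∀ A, A ∈ W ↔ B * A * B⁻¹ ∈ W₁) ∧ ∀ u, u ∈ R ↔ B.1 *ᵥ u ∈ R₁ := by
  have hc : Nat.card (W.map (MulAut.conj B).toMonoidHom) = Nat.card W :=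
    Subgroup.card_map_of_injective (MulAut.conj B).injective
  refine ⟨W.map (MulAut.conj B).toMonoidHom, {u | (B⁻¹).1 *ᵥ u ∈ R},
    ⟨hc ▸ h.nd, fun u hu e => h.ne _ hu (by rw [e, mulVec_zero]), ?_,
      fun a ha u hu => show _ ∈ R by rw [mulVec_smul]; exact h.smul a ha _ hu, fun u hu l hl => ?_⟩, hc,
    fun A => (Subgroup.mem_map_iff_mem (f := (MulAut.conj B).toMonoidHom) (MulAut.conj B).injective).symm,
    fun u => by rw [Set.mem_ofPred_eq, mulVec_mulVec, Units.inv_mul, one_mulVec]⟩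
  · rintro _ ⟨A, hA, rfl⟩ u hu
    show (B⁻¹).1 *ᵥ ((B * A * B⁻¹).1 *ᵥ u) ∈ R
    rw [mulVec_mulVec, ← Units.val_mul, mul_assoc, inv_mul_cancel_left, Units.val_mul, ← mulVec_mulVec]
    exact h.inv A hA _ hu
  · obtain ⟨A, hA, h1, h2⟩ := h.diag _ hu l hl
    refine ⟨B * A * B⁻¹, ⟨A, hA, rfl⟩, ?_, ?_⟩
    · rw [Units.val_mul, Units.val_mul, ← mulVec_mulVec, ← mulVec_mulVec, h1, mulVec_smul, mulVec_mulVec,
        Units.mul_inv, one_mulVec]
    · rw [Units.val_mul, Units.val_mul, det_mul, det_mul, h2, mul_right_comm, ← det_mul, Units.mul_inv,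
        det_one, one_mul]

theorem trace_eq {A : Matrix (Fin 2) (Fin 2) (ZMod p)} {u : V2 p} (hu : u ≠ 0) {li : ZMod p}
    (hl : li * 2 = 1) (h1 : A *ᵥ u = li • u) (h2 : A.det = 2) : A 0 0 + A 1 1 = li + 4 := by
  have e0 : A 0 0 * u 0 + A 0 1 * u 1 = li * u 0 := by
    simpa [mulVec, dotProduct, Fin.sum_univ_two] using congrFun h1 0
  have e1 : A 1 0 * u 0 + A 1 1 * u 1 = li * u 1 := by
    simpa [mulVec, dotProduct, Fin.sum_univ_two] using congrFun h1 1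
  rw [det_fin_two] at h2
  by_contra hne
  refine hu (funext fun i => mul_left_cancel₀ (sub_ne_zero.2 hne) ?_)
  fin_cases i
  · simp only [Fin.zero_eta, Pi.zero_apply]
    linear_combination (2 * (li - A 1 1)) * e0 + (2 * A 0 1) * e1 + (2 * u 0) * h2 +
      (u 0 * (li - A 0 0 - A 1 1)) * hl
  · simp only [Fin.mk_one, Pi.zero_apply]
    linear_combination (2 * (li - A 0 0)) * e1 + (2 * A 1 0) * e0 + (2 * u 1) * h2 +
      (u 1 * (li - A 0 0 - A 1 1)) * hl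

/-- Data in normal form. -/
structure Nf (li : ZMod p) (W : Subgroup (GL2 p)) (R : Set (V2 p)) : Prop where
  dat : Dat W R
  e1 : ![1, 0] ∈ R
  e3 : ![1, 1] ∈ R
  a1 : In W (li, 0, 0, 4)

theorem exists_nf {li : ZMod p} (h2 : (2 : ZMod p) ≠ 0) (hl : li * 2 = 1) (ne : li ≠ 4) (h : Dat W R)
    (h3 : Three R) : ∃ (B : GL2 p) (W₁ : Subgroup (GL2 p)) (R₁ : Set (V2 p)), Nf li W₁ R₁ ∧
    Nat.card W₁ = Nat.card W ∧ (∀ A, A ∈ W ↔ B * A * B⁻¹ ∈ W₁) ∧ ∀ u, u ∈ R ↔ B.1 *ᵥ u ∈ R₁ := by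
  obtain ⟨u, hu, x, hx, y, hy, ux, uy, xy⟩ := h3
  obtain ⟨A, hA, h1, hd⟩ := h.diag u hu 2 h2
  rw [← eq_inv_of_mul_eq_one_left hl] at h1
  have ht := trace_eq (h.ne u hu) hl h1 hd
  have e0 : A.1 0 0 * u 0 + A.1 0 1 * u 1 = li * u 0 := by
    simpa [mulVec, dotProduct, Fin.sum_univ_two] using congrFun h1 0
  have e1 : A.1 1 0 * u 0 + A.1 1 1 * u 1 = li * u 1 := by
    simpa [mulVec, dotProduct, Fin.sum_univ_two] using congrFun h1 1
  rw [det_fin_two] at hd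
  obtain ⟨v, f0, f1, uv⟩ : ∃ v : V2 p, A.1 0 0 * v 0 + A.1 0 1 * v 1 = 4 * v 0 ∧
      A.1 1 0 * v 0 + A.1 1 1 * v 1 = 4 * v 1 ∧ om u v ≠ 0 := by
    refine ⟨![(A.1 0 0 - li) * x 0 + A.1 0 1 * x 1, A.1 1 0 * x 0 + (A.1 1 1 - li) * x 1], ?_, ?_, ?_⟩
    · simp only [cons_val_zero, cons_val_one]
      linear_combination (A.1 0 0 * x 0 + A.1 0 1 * x 1) * ht - x 0 * hd + (2 * x 0) * hl
    · simp only [cons_val_zero, cons_val_one]
      linear_combination (A.1 1 0 * x 0 + A.1 1 1 * x 1) * ht - x 1 * hd + (2 * x 1) * hl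
    · have : om u ![(A.1 0 0 - li) * x 0 + A.1 0 1 * x 1, A.1 1 0 * x 0 + (A.1 1 1 - li) * x 1] =
          (4 - li) * om u x := by
        simp only [om, cons_val_zero, cons_val_one]
        linear_combination (u 0 * x 1 - u 1 * x 0) * ht - x 1 * e0 + x 0 * e1
      rw [this]
      exact mul_ne_zero (sub_ne_zero.2 ne.symm) ux
  obtain ⟨w, hw, uw, wv⟩ : ∃ w ∈ R, om u w ≠ 0 ∧ om w v ≠ 0 := by
    by_cases e : om x v = 0
    · refine ⟨y, hy, uy, fun e' => mul_ne_zero xy uv ?_⟩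
      simp only [om] at e e' ⊢
      linear_combination (u 0 * y 1 - u 1 * y 0) * e - (u 0 * x 1 - u 1 * x 0) * e'
    · exact ⟨x, hx, ux, e⟩
  obtain ⟨a, b, a0, b0, w0, w1⟩ : ∃ a b : ZMod p, a ≠ 0 ∧ b ≠ 0 ∧ w 0 = a * u 0 + b * v 0 ∧
      w 1 = a * u 1 + b * v 1 :=
    ⟨om w v / om u v, om u w / om u v, div_ne_zero wv uv, div_ne_zero uw uv,
      by field_simp; simp only [om]; ring, by field_simp; simp only [om]; ring⟩
  let P : GL2 p := GeneralLinearGroup.mkOfDetNeZero !![a * u 0, b * v 0; a * u 1, b * v 1] (by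
    rw [det_fin_two_of, show a * u 0 * (b * v 1) - b * v 0 * (a * u 1) = a * b * om u v by rw [om]; ring]
    exact mul_ne_zero (mul_ne_zero a0 b0) uv)
  have hP : P.1 = !![a * u 0, b * v 0; a * u 1, b * v 1] := rfl
  obtain ⟨W₁, R₁, hD, hc, k1, k2⟩ := transport h P⁻¹
  have k3 : ∀ z, P.1 *ᵥ z ∈ R → z ∈ R₁ := fun z hz => by
    have := (k2 _).1 hz
    rwa [mulVec_mulVec, Units.inv_mul, one_mulVec] at this
  refine ⟨P⁻¹, W₁, R₁, ⟨hD, k3 _ ?_, k3 _ ?_, _, (k1 A).1 hA, ?_⟩, hc, k1, k2⟩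
  · convert h.smul a a0 u hu using 1
    ext i; fin_cases i <;> simp [hP, mulVec, dotProduct, Fin.sum_univ_two]
  · convert hw using 1
    ext i; fin_cases i <;> simp [hP, mulVec, dotProduct, Fin.sum_univ_two, w0, w1]
  · have : A.1 * P.1 = P.1 * toM (li, 0, 0, 4) := by
      rw [eta_fin_two A.1, hP, toM, mul_fin_two, mul_fin_two]
      refine m_ext ?_ ?_ ?_ ?_
      · linear_combination a * e0
      · linear_combination b * f0
      · linear_combination a * e1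
      · linear_combination b * f1
    rw [inv_inv, mul_assoc, Units.val_mul, Units.val_mul, this, ← mul_assoc, Units.inv_mul, one_mul]

variable {li : ZMod p} {A3 : Q p} {T : List (Q p)} {ws1 ws2 cw : List (List ℕ)} {wB : List ℕ}

theorem Nf.a3 (c : Chk li A3 T ws1 ws2 cw) (h : Nf li W R) : In W A3 := by
  obtain ⟨A, hA, h1, hd⟩ := h.dat.diag _ h.e3 2 c.two
  rw [← eq_inv_of_mul_eq_one_left c.inv] at h1
  rw [det_fin_two] at hd
  rcases c.c1 (A.1 0 0) (A.1 0 1) (by simpa [mulVec, dotProduct, Fin.sum_univ_two] using congrFun h1 0)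
    (A.1 1 0) (A.1 1 1) (by simpa [mulVec, dotProduct, Fin.sum_univ_two] using congrFun h1 1) hd with
    e | ⟨w, -, e⟩
  · exact e ▸ In.of hA
  · refine absurd e (not_bad c.two h.dat.nd (In.ev ?_ w))
    simpa using ⟨h.a1, In.of hA⟩

theorem Nf.word (c : Chk li A3 T ws1 ws2 cw) (h : Nf li W R) (w : List ℕ) :
    In W (ev [(li, 0, 0, 4), A3] w) := In.ev (by simpa using ⟨h.a1, h.a3 c⟩) w

theorem Nf.mem_T (c : Chk li A3 T ws1 ws2 cw) (h : Nf li W R) {A : GL2 p} (hA : A ∈ W)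
    (ht : A.1 0 0 + A.1 1 1 = li + 4) (hd : A.1.det = 2) : ofM A.1 ∈ T := by
  rw [det_fin_two] at hd
  refine (c.c2 _ _ ht _ _ hd).resolve_right ?_
  rintro ⟨w, -, e⟩
  refine absurd e (not_bad c.two h.dat.nd (In.ev ?_ w))
  simpa using ⟨h.a1, h.a3 c, In.of hA⟩

theorem Nf.subset (c : Chk li A3 T ws1 ws2 cw) (h : Nf li W R) (h' : Nf li W' R') : R ⊆ R' := by
  intro u hu
  obtain ⟨A, hA, h1, hd⟩ := h.dat.diag u hu 2 c.two
  rw [← eq_inv_of_mul_eq_one_left c.inv] at h1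
  obtain ⟨_, hw, s, hs⟩ := c.c3 _ (h.mem_T c hA (trace_eq (h.dat.ne u hu) c.inv h1 hd) hd) (u 0) (u 1)
    (by simpa [ofM, mulVec, dotProduct, Fin.sum_univ_two] using congrFun h1 0)
    (by simpa [ofM, mulVec, dotProduct, Fin.sum_univ_two] using congrFun h1 1)
  obtain ⟨w, -, rfl⟩ := List.mem_map.1 hw
  obtain ⟨g, hg, e⟩ := h'.word c w
  have s0 : s ≠ 0 := by
    rintro rfl
    refine h.dat.ne u hu (funext fun i => ?_)
    rcases hs with ⟨h0, h1⟩ | ⟨h0, h1⟩ <;> fin_cases i <;> simp [h0, h1]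
  rcases hs with ⟨h0, h1⟩ | ⟨h0, h1⟩
  · convert h'.dat.smul s s0 _ (h'.dat.inv g hg _ h'.e1) using 1
    ext i; fin_cases i <;> simp [e, toM, h0, h1]
  · convert h'.dat.smul s s0 _ (h'.dat.inv g hg _ h'.e3) using 1
    ext i; fin_cases i <;> simp [e, toM, h0, h1]

theorem Nf.conj (c : Chk li A3 T ws1 ws2 cw) (h : Nf li W R) {g : GL2 p} (hg : g ∈ W) {x : Q p}
    (hx : In W x) (ht : x.1 + x.2.2.2 = li + 4) (hd : x.1 * x.2.2.2 - x.2.1 * x.2.2.1 = 2) :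
    ∃ t ∈ T, mu (ofM g.1) x = mu t (ofM g.1) := by
  obtain ⟨A, hA, e⟩ := hx
  refine ⟨_, h.mem_T c (W.mul_mem (W.mul_mem hg hA) (W.inv_mem hg)) ?_ ?_, toM_inj ?_⟩
  · rw [← trace_fin_two, Units.val_mul, Units.val_mul, trace_mul_cycle, Units.inv_mul, one_mul, e,
      toM, trace_fin_two_of, ht]
  · rw [Units.val_mul, Units.val_mul, det_mul, det_mul, mul_right_comm, ← det_mul, Units.mul_inv, det_one,
      one_mul, e, toM, det_fin_two_of, hd]
  · rw [toM_mu, toM_mu, toM_ofM, toM_ofM, ← e, ← Units.val_mul, ← Units.val_mul, inv_mul_cancel_right]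

theorem Nf.conj1 (c : Chk li A3 T ws1 ws2 cw) (h : Nf li W R) {g : GL2 p} (hg : g ∈ W) :
    ∃ t ∈ T, mu (ofM g.1) (li, 0, 0, 4) = mu t (ofM g.1) :=
  h.conj c hg h.a1 rfl (by dsimp only; linear_combination 2 * c.inv)

theorem Nf.le (c : Chk li A3 T ws1 ws2 cw) (c' : Chk' li A3 T cw wB) (h : Nf li W R)
    (h' : Nf li W' R') : W ≤ W' := by
  intro g hg
  obtain ⟨t, ht, e⟩ := h.conj1 c hg
  obtain ⟨_, hw, f⟩ := c'.c4 t ht
  obtain ⟨w, -, rfl⟩ := List.mem_map.1 hw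
  obtain ⟨k, hk, ek⟩ := h.word c w
  have hk' : k ∈ W' := In.mem (by rw [ek, ofM_toM]; exact h'.word c w)
  have hd := W.mul_mem (W.inv_mem hk) hg
  have e1 : (k⁻¹ * g).1 * toM (li, 0, 0, 4) = toM (li, 0, 0, 4) * (k⁻¹ * g).1 := by
    have e := congrArg toM e
    have f := congrArg toM f
    rw [toM_mu, toM_mu, toM_ofM] at e
    rw [toM_mu, toM_mu, ← ek] at f
    rw [Units.val_mul, mul_assoc, e, ← Units.inv_mul_cancel_left k (toM (li, 0, 0, 4)), ← f]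
    simp only [mul_assoc, Units.mul_inv_cancel_left]
  generalize hd' : k⁻¹ * g = d at hd e1
  have n := sub_ne_zero.2 c.ne
  have d01 : d.1 0 1 = 0 := mul_left_cancel₀ n (by
    have := congrFun (congrFun e1 0) 1
    simp [toM, mul_apply, Fin.sum_univ_two] at this
    linear_combination -this)
  have d10 : d.1 1 0 = 0 := mul_left_cancel₀ n (by
    have := congrFun (congrFun e1 1) 0
    simp [toM, mul_apply, Fin.sum_univ_two] at this
    linear_combination this)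
  have ed : ofM d.1 = (d.1 0 0, 0, 0, d.1 1 1) := by rw [ofM, d01, d10]
  obtain ⟨i, -, j, -, e2, e3⟩ := c'.c5 (d.1 0 0) (d.1 1 1)
    (by simpa [det_fin_two, d01] using d.det_ne_zero) (ed ▸ h.conj c hd (h.a3 c) c.tr c.det)
  have : d ∈ W' := In.mem (by
    rw [ed, e2, e3]
    simpa [mu] using (h'.a1.pow i).mul ((c'.wB ▸ h'.word c wB : In W' (4, 0, 0, li)).pow j))
  rw [← mul_inv_cancel_left k g, hd']
  exact W'.mul_mem hk' this

omit hp in
theorem eqv_of {B B' : GL2 p} {W₁ : Subgroup (GL2 p)} {R₁ : Set (V2 p)}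
    (k1 : ∀ A, A ∈ W ↔ B * A * B⁻¹ ∈ W₁) (k2 : ∀ u, u ∈ R ↔ B.1 *ᵥ u ∈ R₁)
    (k1' : ∀ A, A ∈ W' ↔ B' * A * B'⁻¹ ∈ W₁) (k2' : ∀ u, u ∈ R' ↔ B'.1 *ᵥ u ∈ R₁) : Eqv W R W' R' :=
  ⟨B'⁻¹ * B, fun A => by rw [k1, k1']; group, fun u => by
    rw [k2, k2', mulVec_mulVec, ← Units.val_mul, mul_inv_cancel_left]⟩

theorem uniq_of (c : Chk li A3 T ws1 ws2 cw) (c' : Chk' li A3 T cw wB) (h : Dat W R) (h3 : Three R)
    (h' : Dat W' R') (h3' : Three R') : Eqv W R W' R' := by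
  obtain ⟨B, W₁, R₁, n, -, k1, k2⟩ := exists_nf c.two c.inv c.ne h h3
  obtain ⟨B', W₂, R₂, n', -, k1', k2'⟩ := exists_nf c.two c.inv c.ne h' h3'
  obtain rfl : W₁ = W₂ := le_antisymm (n.le c c' n') (n'.le c c' n)
  obtain rfl : R₁ = R₂ := (n.subset c n').antisymm (n'.subset c n)
  exact eqv_of k1 k2 k1' k2'

attribute [local instance 2000] List.decidableBAll List.decidableBEx

omit hp in
set_option synthInstance.maxSize 1000 in
theorem chk5 : Chk (p := 5) 3 (1, 2, 2, 1)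
    [(1, 1, 4, 1), (1, 2, 2, 1), (1, 3, 3, 1), (1, 4, 1, 1), (3, 0, 0, 4), (4, 0, 0, 3)]
    [[1, 0, 0, 0], [1, 0]] [[2, 0, 0, 0], [2, 0]] [[1], [0, 1], [0, 0, 0, 1], [0, 0, 1], [], [1, 1]] := by
  constructor <;> decide +kernel

omit hp in
theorem chk5' : Chk' (p := 5) 3 (1, 2, 2, 1)
    [(1, 1, 4, 1), (1, 2, 2, 1), (1, 3, 3, 1), (1, 4, 1, 1), (3, 0, 0, 4), (4, 0, 0, 3)]
    [[1], [0, 1], [0, 0, 0, 1], [0, 0, 1], [], [1, 1]] [1, 0, 0, 1, 0] := by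
  constructor <;> decide +kernel

omit hp in
set_option synthInstance.maxSize 1000 in
theorem chk13 : Chk (p := 13) 7 (12, 8, 8, 12)
    [(4, 0, 0, 7), (7, 0, 0, 4), (12, 1, 12, 12), (12, 5, 5, 12), (12, 8, 8, 12), (12, 12, 1, 12)]
    [[1, 0], [1, 0, 0, 0], [1, 0, 1, 0, 0, 0], [1, 1, 1, 0, 1, 0, 0, 0], [1, 0, 1, 1, 0, 0, 1, 0, 0, 0],
      [1, 1, 0, 0, 1, 0, 1, 0, 0, 0]]
    [[2, 0], [2, 1], [2, 1, 2, 0], [2, 0, 0, 0], [2, 1, 1, 0], [2, 2, 1, 0], [2, 1, 0, 0], [1, 1, 2, 0],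
      [2, 0, 1, 0], [1, 2, 2, 0], [1, 2, 0, 0], [2, 0, 2, 0, 0, 0]]
    [[1, 1], [], [0, 0, 1], [0, 0, 0, 1], [0, 1], [1]] := by
  constructor <;> decide +kernel

omit hp in
theorem chk13' : Chk' (p := 13) 7 (12, 8, 8, 12)
    [(4, 0, 0, 7), (7, 0, 0, 4), (12, 1, 12, 12), (12, 5, 5, 12), (12, 8, 8, 12), (12, 12, 1, 12)]
    [[1, 1], [], [0, 0, 1], [0, 0, 0, 1], [0, 1], [1]] [1, 0, 0, 1, 0, 0, 0, 0, 0, 0, 0, 0, 0] := by
  constructor <;> decide +kernel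

omit hp in
set_option synthInstance.maxSize 1000 in
theorem chk3 : Chk (p := 3) 2 (0, 2, 2, 0) [(0, 1, 1, 0), (0, 2, 2, 0), (1, 0, 0, 2), (2, 0, 0, 1)]
    [[1, 0]] [[2, 0]] [[0], [], [1]] := by
  constructor <;> decide +kernel

/-- The dihedral group of order eight. -/
def L8 : List (Q 3) := [(1, 0, 0, 1), (2, 0, 0, 1), (0, 2, 2, 0), (0, 2, 1, 0), (0, 1, 2, 0), (0, 1, 1, 0),
  (1, 0, 0, 2), (2, 0, 0, 2)]

omit hp in
theorem L8_eq_1' : type_of% @L8.eq_1 := @L8.eq_1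

/-- The semidihedral group of order sixteen. -/
def L16 : List (Q 3) := L8 ++ [(1, 1, 1, 2), (1, 1, 2, 1), (1, 2, 1, 1), (1, 2, 2, 2), (2, 1, 1, 1),
  (2, 1, 2, 2), (2, 2, 1, 2), (2, 2, 2, 1)]

omit hp in
theorem L16_eq_1' : type_of% @L16.eq_1 := @L16.eq_1

omit hp in
theorem f8 : ∀ x ∈ L8, ∃ w ∈ [[], [0], [1], [1, 0], [0, 1], [0, 1, 0], [1, 0, 1], [1, 0, 1, 0]],
    ev [(2, 0, 0, 4), (0, 2, 2, 0)] w = x := by decide +kernel

omit hp in
theorem f16 : ∀ x : Q 3,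
    (∃ t ∈ [(0, 1, 1, 0), (0, 2, 2, 0), (1, 0, 0, 2), (2, 0, 0, 1)], mu x (2, 0, 0, 4) = mu t x) →
    (∃ t ∈ [(0, 1, 1, 0), (0, 2, 2, 0), (1, 0, 0, 2), (2, 0, 0, 1)], mu x (0, 2, 2, 0) = mu t x) →
    x.1 * x.2.2.2 - x.2.1 * x.2.2.1 ≠ 0 → x ∈ L16 := by decide +kernel

omit hp in
theorem f16' : ∀ g ∈ L16, g ∉ L8 → ∀ x ∈ L16, x ∈ L8 ∨ ∃ y ∈ L8, mu g y = x := by decide +kernel

omit hp in
theorem dich [Fact (Nat.Prime 3)] {W : Subgroup (GL2 3)} {R : Set (V2 3)} (h : Nf 2 W R) :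
    ((∀ x, In W x ↔ x ∈ L8) ∧ Nat.card W = 8) ∨ ((∀ x, In W x ↔ x ∈ L16) ∧ Nat.card W = 16) := by
  have h8 : ∀ x ∈ L8, In W x := fun x hx => by
    obtain ⟨w, -, rfl⟩ := f8 x hx
    exact h.word chk3 w
  have h16 : ∀ x, In W x → x ∈ L16 := by
    rintro x ⟨g, hg, e⟩
    have h1 := h.conj1 chk3 hg
    have h2 := h.conj chk3 hg (h.a3 chk3) chk3.tr chk3.det
    have h3 := g.det_ne_zero
    rw [e, ofM_toM] at h1 h2
    rw [e, toM, det_fin_two_of] at h3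
    exact f16 x h1 h2 h3
  by_cases hh : ∀ x, In W x → x ∈ L8
  · have : ∀ x, In W x ↔ x ∈ L8 := fun x => ⟨hh x, h8 x⟩
    exact Or.inl ⟨this, (card_of_list this).trans (by decide +kernel)⟩
  · push Not at hh
    obtain ⟨g, hg, hg'⟩ := hh
    have : ∀ x, In W x ↔ x ∈ L16 := fun x => ⟨h16 x, fun hx => by
      rcases f16' g (h16 g hg) hg' x hx with e | ⟨y, hy, rfl⟩
      · exact h8 x e
      · exact hg.mul (h8 y hy)⟩
    exact Or.inr ⟨this, (card_of_list this).trans (by decide +kernel)⟩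

end Mat

open Mat

theorem uniq {p : ℕ} [Fact p.Prime] (hp : p = 5 ∨ p = 13) {W W' : Subgroup (GL2 p)} {R R' : Set (V2 p)}
    (h : Dat W R) (h3 : Three R) (h' : Dat W' R') (h3' : Three R') : Eqv W R W' R' := by
  rcases hp with rfl | rfl
  · exact uniq_of chk5 chk5' h h3 h' h3'
  · exact uniq_of chk13 chk13' h h3 h' h3'

theorem card3 [Fact (Nat.Prime 3)] {W : Subgroup (GL2 3)} {R : Set (V2 3)} (h : Dat W R)
    (h3 : Three R) : Nat.card W = 8 ∨ Nat.card W = 16 := by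
  obtain ⟨B, W₁, R₁, n, hc, -⟩ := exists_nf chk3.two chk3.inv chk3.ne h h3
  exact (dich n).imp (fun e => hc ▸ e.2) fun e => hc ▸ e.2

theorem uniq3 [Fact (Nat.Prime 3)] {W W' : Subgroup (GL2 3)} {R R' : Set (V2 3)}
    (h : Dat W R) (h3 : Three R) (h' : Dat W' R') (h3' : Three R') (e : Nat.card W = Nat.card W') :
    Eqv W R W' R' := by
  obtain ⟨B, W₁, R₁, n, hc, k1, k2⟩ := exists_nf chk3.two chk3.inv chk3.ne h h3
  obtain ⟨B', W₂, R₂, n', hc', k1', k2'⟩ := exists_nf chk3.two chk3.inv chk3.ne h' h3'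
  have hW : ∀ x, In W₁ x ↔ In W₂ x := by
    rcases dich n with ⟨a, b⟩ | ⟨a, b⟩ <;> rcases dich n' with ⟨a', b'⟩ | ⟨a', b'⟩
    · exact fun x => (a x).trans (a' x).symm
    · omega
    · omega
    · exact fun x => (a x).trans (a' x).symm
  obtain rfl : W₁ = W₂ := Subgroup.ext fun g =>
    ⟨fun hg => In.mem ((hW _).1 (In.of hg)), fun hg => In.mem ((hW _).2 (In.of hg))⟩
  obtain rfl : R₁ = R₂ := (n.subset chk3 n').antisymm (n'.subset chk3 n)
  exact eqv_of k1 k2 k1' k2'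

end Cfsg.Lib.RV
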