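import Cfsg.Agent.RV.Defs
import Cfsg.Agent.Known.TitsModel
import Cfsg.Agent.Chev.TwistBTMat
import Cfsg.Agent.Chev.TwistF4

/-!
# Elements of order three in the Tits group; centralizers of involutions in `²F₄(2)`
-/

set_option autoImplicit false
set_option maxRecDepth 100000

namespace Cfsg.Lib.RV

open Subgroup Cfsg.Lib.Known Cfsg.Lib.Known.PC Cfsg.Lib.Chev Cfsg.Lib.Chev.Core

/-- The relations between `y, x, g₃, g₂, g₁, z`. -/
noncomputable def titsChk (l : List ℕ) : Bool :=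
  ti_O.cj (nth ti_O.one l 4) (nth ti_O.one l 5) (nth ti_O.one l 1) &&
  ti_O.cj (nth ti_O.one l 3) (nth ti_O.one l 5) (nth ti_O.one l 0) &&
  ti_O.cj (nth ti_O.one l 2) (nth ti_O.one l 5) (ti_O.mul (nth ti_O.one l 1) (nth ti_O.one l 0)) &&
  ti_O.cj (nth ti_O.one l 1) (nth ti_O.one l 5) (nth ti_O.one l 5) &&
  ti_O.cj (nth ti_O.one l 0) (nth ti_O.one l 5) (nth ti_O.one l 5) &&
  ti_O.eqv (ti_O.mul (nth ti_O.one l 1) (nth ti_O.one l 0))
    (ti_O.mul (nth ti_O.one l 5) (ti_O.mul (nth ti_O.one l 0) (nth ti_O.one l 1))) &&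
  ti_O.eqv (powC ti_O.mul ti_O.one (nth ti_O.one l 5) 3) ti_O.one &&
  ti_O.dif 1 (nth ti_O.one l 5) ti_O.one

theorem tits_run : slpRun ti_O.mul ti_O.one
    [(0, [0, 0, 0, 0, 0, 0, 0, 0, 0, 0, 0]),
     (2, [2, 2, 2, 2, 2, 2, 2, 2, 2, 2, 2]),
     (2, [3, 2, 3]),
     (4, [4, 4, 4, 3, 1, 1, 2, 4, 3]),
     (3, [2, 2, 4, 2, 2, 3, 5]),
     (3, [5, 6, 6, 4, 6, 6, 5]),
     (2, [3, 5, 4, 6, 7, 7, 5, 4, 4, 4, 4]),
     (2, [4, 5, 7, 8, 8, 6, 8, 8, 7])]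
    ti_g titsChk = true := by decide +kernel

theorem tri_tits : Tri 3 Lie.TitsGroup := by
  obtain ⟨l, h1, h2⟩ := MulModel.slpRun_spec (M := tt_M.toMulModel) (K := ⊤) _ ti_g titsChk tt_in
    (by rw [tt_has.mul, tt_has.one]; exact tits_run)
  obtain ⟨g, hg⟩ := tt_has.elts h1
  simp only [titsChk, Bool.and_eq_true] at h2
  obtain ⟨⟨⟨⟨⟨⟨⟨c1, c2⟩, c3⟩, c4⟩, c5⟩, c6⟩, c7⟩, c8⟩ := h2
  have o : tt_M.R ti_O.one 1 := tt_has.one ▸ tt_M.R_one
  have r := fun i => (hg i).2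
  have z3 : g 5 ^ 3 = 1 := tt_has.eq_of (tt_has.R_pow (r 5) 3) o c7
  have k : ∀ {t x : Lie.TitsGroup}, t * g 5 = x * t → IsConj x (g 5 ^ 1) ∧ x ^ 3 = 1 := fun {t x} e => by
    rw [← mul_inv_eq_iff_eq_mul] at e
    exact ⟨(isConj_iff.2 ⟨t, by rw [pow_one, e]⟩).symm, by
      rw [← e, conj_pow, z3, mul_one, mul_inv_cancel]⟩
  have k1 := k (tt_has.cj (r 4) (r 5) (r 1) c1)
  have k2 := k (tt_has.cj (r 3) (r 5) (r 0) c2)
  have k3 := k (tt_has.cj (r 2) (r 5) (tt_has.R_mul (r 1) (r 0)) c3)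
  exact ⟨g 1, g 0, g 5, k1.2, k2.2, z3, tt_has.ne (r 5) o c8,
    tt_has.eq_of (tt_has.R_mul (r 1) (r 0)) (tt_has.R_mul (r 5) (tt_has.R_mul (r 0) (r 1))) c6,
    (tt_has.cj (r 1) (r 5) (r 5) c4).symm, (tt_has.cj (r 0) (r 5) (r 5) c5).symm, ⟨1, k1.1⟩, ⟨1, k2.1⟩,
    1, 1, 0, 1, by decide, by decide, by simpa using k3.1⟩

theorem cent_dvd {K : Type*} [Field K] [Fintype K] (m : ℕ) (hK : Fintype.card K = 2 ^ (2 * m + 1))
    (a : Lie.twistedF4 K (2 ^ m)) (ha : orderOf a = 2) : ∃ k, (k = 1 ∨ k = 2) ∧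
      Nat.card (centralizer {a}) ∣
        Nat.card K ^ 12 * (Nat.card K - 1) ^ 2 * (1 + Nat.card K ^ k) := by
  obtain ⟨_, θ, hθ, -, hG⟩ := exists_twF4 hK
  have hY := Core.certF4.faithful K rootF4
  have hm : ∀ b : Lie.twistedF4 K (2 ^ m), (b : GL _ K) ∈ (twF4' θ hθ).G1 := fun b => hG.ge b.2
  obtain ⟨g, hg, J, hS, hJ, -, h2⟩ := Core.certF4.twist_borel_tits (endF4 θ hθ) (clF4 θ hθ _) 2
    (V := Subgroup.zpowers (a : GL _ K)) (by simpa using (twF4' θ hθ).G1_le_F (hm a))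
    (IsPGroup.of_card (n := 1) (by rw [Nat.card_zpowers, Subgroup.orderOf_coe, ha, pow_one]))
    (by
      rw [Ne, Subgroup.zpowers_eq_bot, OneMemClass.coe_eq_one]
      rintro rfl
      simp at ha)
  obtain ⟨i, hi⟩ : ∃ i : Fin 4, J ⊆ (subF4 θ).S.orb i := by
    obtain ⟨k, hk⟩ := (Set.ne_univ_iff_exists_notMem J).1 hJ
    have hk' : piF4 k ∉ J := fun h => hk ((hS k).1 ((subF4_π θ k).symm ▸ h))
    obtain ⟨i, hi⟩ := (by decide : ∀ k : Fin 4, ∃ i : Fin 4, ∀ j, j ≠ k → j ≠ piF4 k → j ∈ orbF4 i) k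
    refine ⟨i, fun j hj => ?_⟩
    rw [subF4_orb]
    exact hi j (fun e => hk (e ▸ hj)) fun e => hk' (e ▸ hj)
  let f : Lie.twistedF4 K (2 ^ m) →* GL Lie.chevF4.Idx K :=
    (MulAut.conj g⁻¹).toMonoidHom.comp (Subgroup.subtype _)
  have hf : Function.Injective f := (MulAut.conj g⁻¹).injective.comp Subtype.val_injective
  have h4 := card_dvd_of_le (show (centralizer {a}).map f ≤
      (Core.certF4.Y K rootF4).P ((subF4 θ).S.orb i) ⊓ (twF4' θ hθ).G1 by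
    rintro _ ⟨b, hb, rfl⟩
    have h3 := h2 b ((twF4' θ hθ).G1_le_G0 (hm b)) (Subgroup.centralizer_le_normalizer _ (by
      rintro _ ⟨k, rfl⟩
      exact congrArg Subtype.val
        ((show Commute a b from (mem_centralizer_singleton_iff.1 hb).symm).zpow_left k).eq))
    have e : f b = g⁻¹ * b * g := by simp [f]
    rw [e]
    exact ⟨RGD.P_mono _ hi h3, mul_mem (mul_mem (Subgroup.inv_mem _ hg) (hm b)) hg⟩)
  rw [card_map_of_injective hf] at h4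
  have h6 := (twist_F4_t (hasC_F4 rootF4) (subF4 θ).S (subF4_π θ) i).2.2
  replace h4 := h4.trans ((twF4' θ hθ).card_P_orb hY i).dvd
  have h9 := (twF4_card_UL θ hθ i).2.trans (congrArg (fun n => Nat.card K ^ (n / 2)) h6)
  replace h4 := h4.trans (congrArg (fun n => _ * (1 + n)) h9).dvd
  rw [(twF4' θ hθ).card_B hY, (twF4' θ hθ).card_U hY (twF4_card_UL θ hθ), card_H_twF4,
    rootF4.card_posRoots, show Lie.chevF4.nroots / 2 / 2 = 12 by decide +kernel] at h4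
  exact ⟨_, (by decide : ∀ i : Fin 4, (twF4 i).length / 2 = 1 ∨ (twF4 i).length / 2 = 2) i, h4⟩

theorem inv_cent (a : Lie.twistedF4 (ZMod 2) 1) (ha : orderOf a = 2) :
    ¬ 9 ∣ Nat.card (centralizer {a}) := fun h => by
  obtain ⟨k, hk, h4⟩ := cent_dvd (K := ZMod 2) 0 (by simp) a ha
  replace h4 := h.trans h4
  rw [Nat.card_zmod] at h4
  rcases hk with rfl | rfl <;> exact absurd h4 (by decide)

end Cfsg.Lib.RV
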