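import Cfsg.Agent.RV.Defs
import Mathlib.GroupTheory.SemidirectProduct
import Mathlib.LinearAlgebra.Matrix.GeneralLinearGroup.Card
import Mathlib.FieldTheory.Finite.Basic

/-!
Two radical planes: the data come from a group between `SL(3, p)` and `GL(3, p) : 2`.
-/

set_option autoImplicit false

namespace Cfsg.Lib.RV

open Matrix

variable {p : ℕ}

theorem real_of {Γ : Type} [Group Γ] [Finite Γ] (j : Hs p →* Γ) (hj : Function.Injective j)
    (hc : ¬ p ^ 4 ∣ Nat.card Γ) (L : Subgroup Γ) [L.Normal] (jL : ∀ x, j x ∈ L)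
    {W : Subgroup (GL2 p)} {R : Set (V2 p)} (hW : W ≤ WG j)
    (hL : ∀ s ∈ L, ∀ B, (∀ x, s * j x * s⁻¹ = j (phi B x)) → B ∈ W)
    (hR : ∀ u ∈ R, u ≠ 0 ∧ ∃ c d, ∃ s ∈ L, s * j ⟨u, c⟩ * s⁻¹ = j ⟨0, d⟩)
    (hR' : RG j ⊆ R) : Real W R := by
  let N : Subgroup Γ :=
    { carrier := {g | ∃ A ∈ W, ∀ x, g * j x * g⁻¹ = j (phi A x)}
      one_mem' := ⟨1, W.one_mem, fun x => by simp⟩
      mul_mem' := by
        rintro g h ⟨A, hA, hg⟩ ⟨B, hB, hh⟩
        refine ⟨A * B, W.mul_mem hA hB, fun x => ?_⟩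
        rw [map_mul, MulAut.mul_apply, ← hg, ← hh]; group
      inv_mem' := by
        rintro g ⟨A, hA, hg⟩
        refine ⟨A⁻¹, W.inv_mem hA, fun x => ?_⟩
        have := hg (phi A⁻¹ x)
        rw [← MulAut.mul_apply, ← map_mul, mul_inv_cancel, map_one, MulAut.one_apply] at this
        rw [← this]; group }
  let G : Subgroup Γ := L ⊔ N
  let j' : Hs p →* G := j.codRestrict G fun x => Subgroup.mem_sup_left (jL x)
  have e : ∀ x, (j' x : Γ) = j x := fun _ => rfl
  refine ⟨G, inferInstance, inferInstance, j', fun x y h => hj (by rw [← e, ← e, h]),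
    fun h => hc (h.trans (Subgroup.card_subgroup_dvd_card G)), ?_, ?_⟩
  · ext A
    constructor
    · rintro ⟨⟨g, hg⟩, h⟩
      have h' : ∀ x, g * j x * g⁻¹ = j (phi A x) := fun x => congrArg Subtype.val (h x)
      obtain ⟨s, hs, n, ⟨B, hB, hn⟩, rfl⟩ := Subgroup.mem_sup_of_normal_left.1 hg
      have : A * B⁻¹ ∈ W := by
        refine hL s hs _ fun x => ?_
        have h1 := hn (phi B⁻¹ x)
        rw [← MulAut.mul_apply, ← map_mul, mul_inv_cancel, map_one, MulAut.one_apply] at h1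
        rw [map_mul, MulAut.mul_apply, ← h', ← h1]; group
      simpa using W.mul_mem this hB
    · intro hA
      obtain ⟨g, hg⟩ := hW hA
      exact ⟨⟨g, Subgroup.mem_sup_right ⟨A, hA, hg⟩⟩, fun x => Subtype.ext (hg x)⟩
  · ext u
    constructor
    · rintro ⟨h0, c, d, h⟩
      exact hR' ⟨h0, c, d, G.subtype.map_isConj h⟩
    · intro hu
      obtain ⟨h0, c, d, s, hs, h⟩ := hR u hu
      exact ⟨h0, c, d, isConj_iff.2 ⟨⟨s, Subgroup.mem_sup_left hs⟩, Subtype.ext h⟩⟩

namespace Two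

/-- The general linear group of degree three. -/
abbrev GL3 (p : ℕ) : Type := GL (Fin 3) (ZMod p)

/-- The antidiagonal matrix. -/
def J (p : ℕ) : Matrix (Fin 3) (Fin 3) (ZMod p) := !![0, 0, 1; 0, 1, 0; 1, 0, 0]

theorem J_eq_1' : type_of% @J.eq_1 := @J.eq_1

theorem JJ : J p * J p = 1 := by
  ext i k; fin_cases i <;> fin_cases k <;> simp [J, mul_apply, Fin.sum_univ_three]

theorem JT : (J p)ᵀ = J p := by
  ext i k; fin_cases i <;> fin_cases k <;> simp [J]

theorem J_mul (a b : Matrix (Fin 3) (Fin 3) (ZMod p)) :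
    J p * aᵀ * J p * (J p * bᵀ * J p) = J p * (b * a)ᵀ * J p := by
  rw [transpose_mul, show J p * aᵀ * J p * (J p * bᵀ * J p) = J p * aᵀ * (J p * J p) * bᵀ * J p by
    simp only [mul_assoc], JJ]
  simp only [mul_assoc, mul_one]

/-- The graph map. -/
def tau0 (g : GL3 p) : GL3 p :=
  ⟨J p * (g⁻¹).1ᵀ * J p, J p * g.1ᵀ * J p, by rw [J_mul, Units.mul_inv, transpose_one, mul_one, JJ],
    by rw [J_mul, Units.inv_mul, transpose_one, mul_one, JJ]⟩

theorem tau0_eq_1' : type_of% @tau0.eq_1 := @tau0.eq_1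

theorem tau0_val (g : GL3 p) : (tau0 g).1 = J p * (g⁻¹).1ᵀ * J p := rfl

theorem tau0_tau0 (g : GL3 p) : tau0 (tau0 g) = g := by
  refine Units.ext ?_
  show J p * (J p * g.1ᵀ * J p)ᵀ * J p = g.1
  rw [transpose_mul, transpose_mul, transpose_transpose, JT,
    show J p * (J p * (g.1 * J p)) * J p = (J p * J p) * g.1 * (J p * J p) by simp only [mul_assoc], JJ,
    one_mul, mul_one]

/-- The graph automorphism. -/
def tau (p : ℕ) : MulAut (GL3 p) where
  toFun := tau0
  invFun := tau0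
  left_inv := tau0_tau0
  right_inv := tau0_tau0
  map_mul' g h := Units.ext (by
    rw [Units.val_mul, tau0_val, tau0_val, tau0_val, J_mul, _root_.mul_inv_rev, Units.val_mul])

theorem tau_eq_1' : type_of% @tau.eq_1 := @tau.eq_1

theorem tau_sq : tau p * tau p = 1 := MulEquiv.ext tau0_tau0

theorem tau_cases (h : Subgroup.zpowers (tau p)) : h.1 = 1 ∨ h.1 = tau p := by
  obtain ⟨_, k, rfl⟩ := h
  show tau p ^ k = 1 ∨ tau p ^ k = tau p
  have h2 : tau p ^ (2 : ℤ) = 1 := by rw [zpow_two, tau_sq]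
  rcases Int.emod_two_eq_zero_or_one k with h | h
  · left; rw [zpow_eq_zpow_emod k h2, h, zpow_zero]
  · right; rw [zpow_eq_zpow_emod k h2, h, zpow_one]

theorem det_tau (g : GL3 p) (h : g.1.det = 1) : (tau p g).1.det = 1 := by
  show (J p * (g⁻¹).1ᵀ * J p).det = 1
  have h1 : (g⁻¹).1.det = 1 := by
    have := congrArg det g.mul_inv
    rwa [det_mul, h, one_mul, det_one] at this
  rw [det_mul, det_mul, det_transpose, h1, mul_one, ← det_mul, JJ, det_one]

/-- Unitriangular matrices. -/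
def ut (a b c : ZMod p) : GL3 p :=
  ⟨!![1, a, c; 0, 1, b; 0, 0, 1], !![1, -a, a * b - c; 0, 1, -b; 0, 0, 1],
    by ext i k; fin_cases i <;> fin_cases k <;> simp [mul_apply, Fin.sum_univ_three] ; ring,
    by ext i k; fin_cases i <;> fin_cases k <;> simp [mul_apply, Fin.sum_univ_three] ; ring⟩

theorem ut_eq_1' : type_of% @ut.eq_1 := @ut.eq_1

theorem ut_val (a b c : ZMod p) : (ut a b c).1 = !![1, a, c; 0, 1, b; 0, 0, 1] := rfl

theorem ut_inv_val (a b c : ZMod p) :
    ((ut a b c)⁻¹).1 = !![1, -a, a * b - c; 0, 1, -b; 0, 0, 1] := rfl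

theorem ut_mul (a b c a' b' c' : ZMod p) :
    ut a b c * ut a' b' c' = ut (a + a') (b + b') (c + c' + a * b') := by
  refine Units.ext ?_
  rw [Units.val_mul, ut_val, ut_val, ut_val]
  ext i k; fin_cases i <;> fin_cases k <;> simp [mul_apply, Fin.sum_univ_three] <;> ring

theorem tau_ut (a b c : ZMod p) : tau p (ut a b c) = ut (-b) (-a) (a * b - c) := by
  refine Units.ext ?_
  show J p * ((ut a b c)⁻¹).1ᵀ * J p = _
  rw [ut_inv_val, ut_val]
  ext i k; fin_cases i <;> fin_cases k <;> simp [J, mul_apply, Fin.sum_univ_three, vecMul, dotProduct]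

/-- The Heisenberg group as the unitriangular group. -/
def j0 (p : ℕ) : Hs p →* GL3 p := MonoidHom.mk' (fun x => ut (x.u 0) (2 * x.u 1) (x.c + x.u 0 * x.u 1))
  fun x y => by
    rw [ut_mul]
    congr 1
    · simp [mul_add]
    · simp [om]; ring

theorem j0_eq_1' : type_of% @j0.eq_1 := @j0.eq_1

theorem j0_apply (x : Hs p) : j0 p x = ut (x.u 0) (2 * x.u 1) (x.c + x.u 0 * x.u 1) := rfl

/-- The extension by the graph automorphism. -/
abbrev Gam (p : ℕ) : Type := GL3 p ⋊[(Subgroup.zpowers (tau p)).subtype] Subgroup.zpowers (tau p)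

theorem conj_inl (g : Gam p) (a : GL3 p) :
    g * SemidirectProduct.inl a * g⁻¹ = SemidirectProduct.inl (g.left * g.right.1 a * g.left⁻¹) := by
  conv_lhs => rw [← g.inl_left_mul_inr_right]
  rw [map_mul, map_mul, show g.right.1 a = (Subgroup.zpowers (tau p)).subtype g.right a from rfl,
    SemidirectProduct.inl_aut, map_inv, map_inv]
  group

variable [hp : Fact p.Prime]

theorem two_ne (h : p ≠ 2) : (2 : ZMod p) ≠ 0 := by
  intro h2
  have : ((2 : ℕ) : ZMod p) = 0 := by exact_mod_cast h2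
  rw [ZMod.natCast_eq_zero_iff] at this
  exact h ((Nat.prime_dvd_prime_iff_eq hp.out Nat.prime_two).1 this)

theorem card_GL3 : Nat.card (GL3 p) = p ^ 3 * ((p ^ 3 - 1) * (p ^ 2 - 1) * (p ^ 1 - 1)) := by
  rw [Matrix.card_GL_field, Fin.prod_univ_three, ZMod.card]
  show (p ^ 3 - p ^ 0) * (p ^ 3 - p ^ 1) * (p ^ 3 - p ^ 2) = _
  rw [show p ^ 3 - p ^ 1 = p * (p ^ 2 - 1) by rw [Nat.mul_sub]; congr 1 <;> ring,
    show p ^ 3 - p ^ 2 = p ^ 2 * (p ^ 1 - 1) by rw [Nat.mul_sub]; congr 1 <;> ring, pow_zero]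
  ring

omit hp in
theorem card_tau : Nat.card (Subgroup.zpowers (tau p)) ∣ 2 := by
  rw [Nat.card_zpowers]
  exact orderOf_dvd_of_pow_eq_one (by rw [pow_two, tau_sq])

instance : Finite (Subgroup.zpowers (tau p)) :=
  Nat.finite_of_card_ne_zero fun h => by
    have := card_tau (p := p)
    rw [h] at this
    exact absurd (Nat.eq_zero_of_zero_dvd this) two_ne_zero

instance : Finite (Gam p) := Finite.of_equiv _ SemidirectProduct.equivProd.symm

theorem card_Gam (h : p ≠ 2) : ¬ p ^ 4 ∣ Nat.card (Gam p) := by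
  rw [Nat.card_congr SemidirectProduct.equivProd, Nat.card_prod, card_GL3]
  intro hd
  have h1 := hd.trans (Nat.mul_dvd_mul_left _ (card_tau (p := p)))
  rw [pow_succ p 3, mul_assoc, Nat.mul_dvd_mul_iff_left (pow_pos hp.out.pos 3)] at h1
  have hk : ∀ k, k ≠ 0 → ¬ p ∣ p ^ k - 1 := fun k hk hd => by
    have := (Nat.dvd_sub_iff_right (Nat.one_le_pow k p hp.out.pos) (dvd_pow_self p hk)).1 hd
    exact hp.out.one_lt.ne' (Nat.dvd_one.1 this)
  rcases (Nat.Prime.dvd_mul hp.out).1 h1 with h1 | h1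
  · rcases (Nat.Prime.dvd_mul hp.out).1 h1 with h1 | h1
    · rcases (Nat.Prime.dvd_mul hp.out).1 h1 with h1 | h1
      · exact hk 3 (by decide) h1
      · exact hk 2 (by decide) h1
    · exact hk 1 (by decide) h1
  · exact h ((Nat.prime_dvd_prime_iff_eq hp.out Nat.prime_two).1 h1)

theorem j0_inj (h : p ≠ 2) : Function.Injective (j0 p) := by
  rw [injective_iff_map_eq_one]
  intro x hx
  have e := congrArg Units.val hx
  rw [j0_apply, ut_val] at e
  have e1 : x.u 0 = 0 := by simpa using congrFun (congrFun e 0) 1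
  have e2 : 2 * x.u 1 = 0 := by simpa using congrFun (congrFun e 1) 2
  have e3 : x.c + x.u 0 * x.u 1 = 0 := by simpa using congrFun (congrFun e 0) 2
  refine Hs.ext ?_ (by simpa [e1] using e3)
  ext i; fin_cases i
  · exact e1
  · exact (mul_eq_zero.1 e2).resolve_left (two_ne h)

theorem diag_ind (A : GL2 p) (h1 : A.1 0 1 = 0) (h2 : A.1 1 0 = 0) :
    ∃ g : GL3 p, ∀ x, g * j0 p x * g⁻¹ = j0 p (phi A x) := by
  have hd : A.1 0 0 * A.1 1 1 ≠ 0 := by
    have := A.det_ne_zero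
    rwa [det_fin_two, h1, zero_mul, sub_zero] at this
  refine ⟨GeneralLinearGroup.mkOfDetNeZero !![A.1 0 0 * A.1 1 1, 0, 0; 0, A.1 1 1, 0; 0, 0, 1]
    (by simpa [det_fin_three] using mul_ne_zero_iff.1 hd), fun x => ?_⟩
  rw [mul_inv_eq_iff_eq_mul]
  refine Units.ext ?_
  rw [Units.val_mul, Units.val_mul, j0_apply, j0_apply, ut_val, ut_val]
  ext i k
  fin_cases i <;> fin_cases k <;>
    simp [mul_apply, Fin.sum_univ_three, mulVec, dotProduct, Fin.sum_univ_two, det_fin_two, h1, h2,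
      GeneralLinearGroup.mkOfDetNeZero] <;> ring

theorem tau_ind (h : p ≠ 2) : ∃ T : GL2 p, T.1 0 0 = 0 ∧ T.1 1 1 = 0 ∧
    ∀ x, tau p (j0 p x) = j0 p (phi T x) := by
  have h2 := two_ne h
  refine ⟨GeneralLinearGroup.mkOfDetNeZero !![0, -2; -2⁻¹, 0] (by simp [det_fin_two, h2]), rfl, rfl,
    fun x => ?_⟩
  rw [j0_apply, j0_apply, tau_ut]
  congr 1 <;> simp [mulVec, dotProduct, Fin.sum_univ_two, det_fin_two,
    GeneralLinearGroup.mkOfDetNeZero] <;> (field_simp; try ring)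

theorem e0_mem : (![1, 0] : V2 p) ∈ R2 p := ⟨fun h => by simpa using congrFun h 0, Or.inr rfl⟩

theorem e1_mem : (![0, 1] : V2 p) ∈ R2 p := ⟨fun h => by simpa using congrFun h 1, Or.inl rfl⟩

variable {W : Subgroup (GL2 p)}

theorem mono (h : Dat W (R2 p)) {A : GL2 p} (hA : A ∈ W) :
    (A.1 0 1 = 0 ∧ A.1 1 0 = 0) ∨ (A.1 0 0 = 0 ∧ A.1 1 1 = 0) := by
  have h0 := (h.inv A hA _ e0_mem).2
  have h1 := (h.inv A hA _ e1_mem).2
  have hd := A.det_ne_zero
  rw [det_fin_two] at hd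
  simp only [mulVec, dotProduct, Fin.sum_univ_two, cons_val_zero, cons_val_one, mul_one, mul_zero,
    add_zero, zero_add, cons_val_fin_one] at h0 h1
  rcases h0 with h0 | h0 <;> rcases h1 with h1 | h1
  · simp [h0, h1] at hd
  · exact Or.inr ⟨h0, h1⟩
  · exact Or.inl ⟨h1, h0⟩
  · simp [h0, h1] at hd

theorem diag_mem (h : Dat W (R2 p)) {B : GL2 p} {t1 t2 t3 : ZMod p} (ht : t1 * t2 * t3 = 1)
    (h00 : t1 = B.1 0 0 * t2) (h11 : t2 = B.1 1 1 * t3) (h01 : B.1 0 1 = 0) (h10 : B.1 1 0 = 0) :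
    B ∈ W := by
  have n1 : t1 ≠ 0 := fun e => by simp [e] at ht
  have n2 : t2 ≠ 0 := fun e => by simp [e] at ht
  have n3 : t3 ≠ 0 := fun e => by simp [e] at ht
  obtain ⟨A, hA, ha, da⟩ := h.diag _ e0_mem t3⁻¹ (inv_ne_zero n3)
  obtain ⟨C, hC, hc, dc⟩ := h.diag _ e1_mem t1 n1
  have a0 : A.1 0 0 = t3 := by simpa [mulVec, dotProduct, Fin.sum_univ_two] using congrFun ha 0
  have c1 : C.1 1 1 = t1⁻¹ := by simpa [mulVec, dotProduct, Fin.sum_univ_two] using congrFun hc 1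
  obtain ⟨a1, a2⟩ := (mono h hA).resolve_right fun e => n3 (a0 ▸ e.1)
  obtain ⟨c2, c3⟩ := (mono h hC).resolve_right fun e => inv_ne_zero n1 (c1 ▸ e.2)
  rw [det_fin_two, a0, a1, zero_mul, sub_zero] at da
  rw [det_fin_two, c1, c2, zero_mul, sub_zero] at dc
  have a3 : A.1 1 1 = t3⁻¹ * t3⁻¹ := by
    apply mul_left_cancel₀ n3
    rw [da, ← mul_assoc, mul_inv_cancel₀ n3, one_mul]
  have c0 : C.1 0 0 = t1 * t1 := by field_simp at dc; rw [dc]; ring
  have : B = A * C := by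
    refine Units.ext ?_
    rw [Units.val_mul]
    ext i k
    fin_cases i <;> fin_cases k <;> simp [mul_apply, Fin.sum_univ_two, a0, a1, a2, a3, c0, c1, c2, c3, h01, h10]
    · apply mul_right_cancel₀ n2
      rw [← h00]; linear_combination (-t1) * ht
    · apply mul_right_cancel₀ n3
      rw [← h11]; field_simp; linear_combination ht
  rw [this]
  exact W.mul_mem hA hC

theorem sl_ind (hp2 : p ≠ 2) (h : Dat W (R2 p)) {s : GL3 p} (hs : s.1.det = 1) {B : GL2 p}
    (hB : ∀ x, s * j0 p x * s⁻¹ = j0 p (phi B x)) : B ∈ W := by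
  have h2 := two_ne hp2
  have e : ∀ x i k, (s.1 * (j0 p x).1) i k = ((j0 p (phi B x)).1 * s.1) i k := fun x i k => by
    rw [← Units.val_mul, ← Units.val_mul, ← hB, inv_mul_cancel_right]
  have hd := B.det_ne_zero
  have s10 : s.1 1 0 = 0 := by
    simpa [j0_apply, ut_val, mul_apply, Fin.sum_univ_three] using e ⟨0, 1⟩ 1 2
  have s20 : s.1 2 0 = 0 := by
    simpa [j0_apply, ut_val, mul_apply, Fin.sum_univ_three] using e ⟨0, 1⟩ 2 2
  have s21 : s.1 2 1 = 0 := by
    simpa [j0_apply, ut_val, mul_apply, Fin.sum_univ_three, hd] using e ⟨0, 1⟩ 0 1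
  have ht : s.1 0 0 * s.1 1 1 * s.1 2 2 = 1 := by
    rw [← hs, det_fin_three, s10, s20, s21]; ring
  have n2 : s.1 1 1 ≠ 0 := fun e => by simp [e] at ht
  have n3 : s.1 2 2 ≠ 0 := fun e => by simp [e] at ht
  refine diag_mem h ht ?_ ?_ ?_ ?_
  · have := e ⟨![1, 0], 0⟩ 0 1
    simp [j0_apply, ut_val, mul_apply, Fin.sum_univ_three, s21, mulVec, dotProduct] at this
    linear_combination this
  · have := e ⟨![0, 1], 0⟩ 1 2
    simp [j0_apply, ut_val, mul_apply, Fin.sum_univ_three, s10, mulVec, dotProduct] at this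
    apply mul_left_cancel₀ h2
    linear_combination this
  · simpa [j0_apply, ut_val, mul_apply, Fin.sum_univ_three, s21, mulVec, dotProduct, n2] using
      e ⟨![0, 1], 0⟩ 0 1
  · simpa [j0_apply, ut_val, mul_apply, Fin.sum_univ_three, s10, mulVec, dotProduct, n3, h2] using
      e ⟨![1, 0], 0⟩ 1 2

theorem to_center {u : V2 p} (hu : u ∈ R2 p) :
    ∃ d, ∃ s : GL3 p, s.1.det = 1 ∧ s * j0 p ⟨u, 0⟩ * s⁻¹ = j0 p ⟨0, d⟩ := by
  rcases hu.2 with h | h
  · refine ⟨2 * u 1, GeneralLinearGroup.mkOfDetNeZero !![0, 1, 0; -1, 0, 0; 0, 0, 1]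
      (by simp [det_fin_three]), by
        simp [det_fin_three, GeneralLinearGroup.mkOfDetNeZero], ?_⟩
    rw [mul_inv_eq_iff_eq_mul]
    refine Units.ext ?_
    rw [Units.val_mul, Units.val_mul, j0_apply, j0_apply, ut_val, ut_val]
    ext i k
    fin_cases i <;> fin_cases k <;>
      simp [mul_apply, Fin.sum_univ_three, h, GeneralLinearGroup.mkOfDetNeZero]
  · refine ⟨u 0, GeneralLinearGroup.mkOfDetNeZero !![1, 0, 0; 0, 0, -1; 0, 1, 0]
      (by simp [det_fin_three]), by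
        simp [det_fin_three, GeneralLinearGroup.mkOfDetNeZero], ?_⟩
    rw [mul_inv_eq_iff_eq_mul]
    refine Units.ext ?_
    rw [Units.val_mul, Units.val_mul, j0_apply, j0_apply, ut_val, ut_val]
    ext i k
    fin_cases i <;> fin_cases k <;>
      simp [mul_apply, Fin.sum_univ_three, h, GeneralLinearGroup.mkOfDetNeZero]

theorem sq_zero {g : GL3 p} {a b c d : ZMod p} (h : g * ut 0 0 d * g⁻¹ = ut a b c) : a * b = 0 := by
  have e : ((ut a b c).1 - 1) * ((ut a b c).1 - 1) = 0 := by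
    have h1 : (ut a b c).1 - 1 = g.1 * ((ut 0 0 d).1 - 1) * (g⁻¹).1 := by
      rw [← h, Units.val_mul, Units.val_mul, mul_sub, sub_mul, mul_one, Units.mul_inv]
    have h2 : ((ut 0 0 d : GL3 p).1 - 1) * ((ut 0 0 d).1 - 1) = 0 := by
      rw [ut_val]
      ext i k
      fin_cases i <;> fin_cases k <;> simp [mul_apply, Fin.sum_univ_three, one_apply]
    rw [h1, mul_assoc, mul_assoc g.1 _ (g⁻¹).1, ← mul_assoc (g⁻¹).1, Units.inv_mul, one_mul,
      mul_assoc, ← mul_assoc (_ - _), h2, zero_mul, mul_zero]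
  simpa [ut_val, mul_apply, Fin.sum_univ_three, one_apply] using congrFun (congrFun e 0) 2

end Two

open Two in
theorem real2 {p : ℕ} [Fact p.Prime] (hp : p ≠ 2) {W : Subgroup (GL2 p)} (h : Dat W (R2 p)) :
    Real W (R2 p) := by
  let i : GL3 p →* Gam p := SemidirectProduct.inl
  have hi : Function.Injective i := SemidirectProduct.inl_injective
  let L : Subgroup (Gam p) := (GeneralLinearGroup.det : GL3 p →* (ZMod p)ˣ).ker.map i
  have mL : ∀ s, s ∈ L ↔ ∃ g : GL3 p, g.1.det = 1 ∧ i g = s := fun s =>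
    exists_congr fun g => and_congr_left' (by
      rw [SetLike.mem_coe, MonoidHom.mem_ker, ← Units.val_inj, GeneralLinearGroup.val_det_apply,
        Units.val_one])
  have : L.Normal := ⟨fun s hs g => by
    obtain ⟨a, ha, rfl⟩ := (mL s).1 hs
    refine (mL _).2 ⟨_, ?_, (conj_inl g a).symm⟩
    have h1 : (g.right.1 a).1.det = 1 := by
      rcases tau_cases g.right with e | e <;> rw [e]
      · exact ha
      · exact det_tau a ha
    rw [Units.val_mul, Units.val_mul, det_mul, det_mul, h1, mul_one, ← det_mul, Units.mul_inv, det_one]⟩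
  have hD : ∀ A : GL2 p, A.1 0 1 = 0 → A.1 1 0 = 0 → A ∈ WG (i.comp (j0 p)) := fun A h1 h2 => by
    obtain ⟨g, hg⟩ := diag_ind A h1 h2
    exact ⟨i g, fun x => by simp only [MonoidHom.comp_apply, ← hg, map_mul, map_inv]⟩
  refine real_of (i.comp (j0 p)) (hi.comp (j0_inj hp)) (card_Gam hp) L
    (fun x => (mL _).2 ⟨j0 p x, by simp [j0_apply, ut_val, det_fin_three], rfl⟩) (fun A hA => ?_)
    (fun s hs B hB => ?_) (fun u hu => ⟨hu.1, ?_⟩) ?_
  · rcases mono h hA with ⟨h1, h2⟩ | ⟨h1, h2⟩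
    · exact hD A h1 h2
    · obtain ⟨T, t1, t2, hT⟩ := tau_ind hp
      have hT' : T ∈ WG (i.comp (j0 p)) :=
        ⟨SemidirectProduct.inr ⟨tau p, Subgroup.mem_zpowers _⟩, fun x => by
          refine (conj_inl _ _).trans ?_
          simp only [SemidirectProduct.left_inr, SemidirectProduct.right_inr, one_mul, inv_one, mul_one]
          rw [hT]; rfl⟩
      have := hD (A * T) (by simp [mul_apply, Fin.sum_univ_two, h1, t2])
        (by simp [mul_apply, Fin.sum_univ_two, h2, t1])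
      simpa using Subgroup.mul_mem _ this (Subgroup.inv_mem _ hT')
  · obtain ⟨a, ha, rfl⟩ := (mL s).1 hs
    exact sl_ind hp h ha fun x => hi (by rw [map_mul, map_mul, map_inv]; exact hB x)
  · obtain ⟨d, s, hs, e⟩ := to_center hu
    exact ⟨0, d, i s, (mL _).2 ⟨s, hs, rfl⟩, by simp only [MonoidHom.comp_apply, ← e, map_mul, map_inv]⟩
  · rintro u ⟨h0, c, d, hc⟩
    obtain ⟨g, hg⟩ := isConj_iff.1 hc.symm
    have e := hi ((conj_inl g _).symm.trans hg)
    have : u 0 * (2 * u 1) = 0 := by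
      rw [j0_apply, j0_apply] at e
      simp only [Pi.zero_apply, mul_zero, add_zero] at e
      rcases tau_cases g.right with e' | e' <;> rw [e'] at e
      · exact sq_zero e
      · rw [tau_ut, neg_zero] at e
        exact sq_zero e
    refine ⟨h0, ?_⟩
    rcases mul_eq_zero.1 this with h | h
    · exact Or.inl h
    · exact Or.inr ((mul_eq_zero.1 h).resolve_left (two_ne hp))

end Cfsg.Lib.RV
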